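import Cfsg.Agent.Lib.Classical.SL2.Binary.Star
import Mathlib.GroupTheory.SpecificGroups.Alternating

/-!
Binary subgroups of `A₄`, `S₄` and `A₅` containing a three-cycle.
-/

set_option autoImplicit false
set_option linter.unusedSectionVars false
set_option linter.unusedSimpArgs false

namespace Cfsg.Agent.Lib.Classical.SL2.Binary

section Gen

variable {G : Type*} [Group G]

/-- A decomposition of an element yields a point of the double intersection. -/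
lemma rstar_pair {K : Subgroup G} (h : RStar ⊤ K) {x g₁ g₂ z y : G} (hx : x ∈ K) (e : x = z * y)
    (hz : g₁⁻¹ * z * g₁ ∈ K) (hy : g₂⁻¹ * y * g₂ ∈ K) :
    ∃ k ∈ K, g₁⁻¹ * k * g₁ ∈ K ∧ g₂⁻¹ * (k⁻¹ * x) * g₂ ∈ K := by
  obtain ⟨k, hk, y', hy', ht⟩ := h {1, g₁} g₂ x (fun _ _ => trivial) trivial trivial (by
    rintro b (rfl | rfl)
    · exact ⟨x, mem_Cj_one.2 hx, 1, Subgroup.one_mem _, by simp⟩
    · exact ⟨z, mem_Cj.2 hz, y, mem_Cj.2 hy, e⟩)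
  refine ⟨k, mem_Cj_one.1 (hk 1 (by simp)), mem_Cj.1 (hk g₁ (by simp)), ?_⟩
  have : k⁻¹ * x = y' := by rw [ht]; group
  rw [this]
  exact mem_Cj.1 hy'

end Gen

section A4

local notation "A" => alternatingGroup (Fin 4)

/-- The three-cycle in `A₄`. -/
def x4 : A := ⟨Equiv.swap 0 1 * Equiv.swap 1 2, Equiv.Perm.mem_alternatingGroup.2 (by decide)⟩
/-- An involution in `A₄`. -/
def v4 : A := ⟨Equiv.swap 0 1 * Equiv.swap 2 3, Equiv.Perm.mem_alternatingGroup.2 (by decide)⟩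

def g4 : A := ⟨Equiv.swap 1 2 * Equiv.swap 2 3, Equiv.Perm.mem_alternatingGroup.2 (by decide)⟩
def h4 : A := ⟨Equiv.swap 1 3 * Equiv.swap 2 3, Equiv.Perm.mem_alternatingGroup.2 (by decide)⟩

set_option maxRecDepth 100000 in
lemma a4_dec1 : x4 = (g4 * x4 ^ 2 * g4⁻¹) * (h4 * x4 ^ 2 * h4⁻¹) := by decide

set_option maxRecDepth 100000 in
lemma a4_dec2 : ∀ k : A, (k = 1 ∨ k = x4 ∨ k = x4 ^ 2) →
    (g4⁻¹ * k * g4 = 1 ∨ g4⁻¹ * k * g4 = x4 ∨ g4⁻¹ * k * g4 = x4 ^ 2) →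
    (h4⁻¹ * (k⁻¹ * x4) * h4 = 1 ∨ h4⁻¹ * (k⁻¹ * x4) * h4 = x4 ∨ h4⁻¹ * (k⁻¹ * x4) * h4 = x4 ^ 2) → False := by
  decide

set_option maxRecDepth 100000 in
lemma a4_dec3 : ∀ y : A, ¬ (y = 1 ∨ y = x4 ∨ y = x4 ^ 2) →
    ∃ f e : Fin 3, x4 ^ (f : ℕ) * (y * x4 ^ (e : ℕ)) * (x4 ^ (f : ℕ))⁻¹ = v4 := by
  decide

/-- A binary subgroup of `A₄` containing a three-cycle contains the involutions. -/
theorem a4_binary {K : Subgroup A} (h : RStar ⊤ K) (hx : x4 ∈ K) : v4 ∈ K := by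
  have hx2 : x4 ^ 2 ∈ K := K.pow_mem hx 2
  have hex : ∃ y ∈ K, ¬ (y = 1 ∨ y = x4 ∨ y = x4 ^ 2) := by
    by_contra hcon
    push Not at hcon
    have hall : ∀ y ∈ K, y = 1 ∨ y = x4 ∨ y = x4 ^ 2 := hcon
    obtain ⟨k, hk, h1, h2⟩ := rstar_pair h (g₁ := g4) (g₂ := h4) hx a4_dec1
      (by
        have : g4⁻¹ * (g4 * x4 ^ 2 * g4⁻¹) * g4 = x4 ^ 2 := by group
        rw [this]; exact hx2)
      (by
        have : h4⁻¹ * (h4 * x4 ^ 2 * h4⁻¹) * h4 = x4 ^ 2 := by group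
        rw [this]; exact hx2)
    exact a4_dec2 k (hall k hk) (hall _ h1) (hall _ h2)
  obtain ⟨y, hy, hy1⟩ := hex
  obtain ⟨f, e, h1⟩ := a4_dec3 y hy1
  rw [← h1]
  exact K.mul_mem (K.mul_mem (K.pow_mem hx _) (K.mul_mem hy (K.pow_mem hx _))) (K.inv_mem (K.pow_mem hx _))

set_option maxRecDepth 100000 in
/-- Involutions of `A₄` are the conjugates of one of them by the three-cycle. -/
lemma a4_inv : ∀ w : A, w * w = 1 → w ≠ 1 → ∃ e : Fin 3, w = x4 ^ (e : ℕ) * v4 * (x4 ^ (e : ℕ))⁻¹ := by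
  decide

set_option maxRecDepth 100000 in
lemma a4_rel : v4 ≠ 1 ∧ v4 * v4 = 1 ∧ x4 * v4 * x4⁻¹ ≠ 1 ∧ (x4 * v4 * x4⁻¹) * (x4 * v4 * x4⁻¹) = 1 ∧
    x4 * v4 * x4⁻¹ ≠ v4 ∧ v4 * (x4 * v4 * x4⁻¹) = (x4 * v4 * x4⁻¹) * v4 ∧
    x4 * (x4 * v4 * x4⁻¹) * x4⁻¹ = v4 * (x4 * v4 * x4⁻¹) ∧ x4 ≠ 1 ∧ x4 ^ 3 = 1 := by decide

end A4

section S4

local notation "A" => Equiv.Perm (Fin 4)

/-- The three-cycle in `S₄`. -/
def x4' : A := Equiv.swap 0 1 * Equiv.swap 1 2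
/-- An involution in the Klein group. -/
def v4' : A := Equiv.swap 0 1 * Equiv.swap 2 3
/-- A transposition inverting the three-cycle. -/
def t4' : A := Equiv.swap 0 1

def g4' : A := Equiv.swap 2 3
def h4' : A := Equiv.swap 0 1 * Equiv.swap 1 2 * Equiv.swap 2 3

set_option maxRecDepth 100000 in
lemma s4_dec1 : x4' = (g4' * x4' * g4'⁻¹) * (h4' * x4' * h4'⁻¹) := by decide

set_option maxRecDepth 100000 in
lemma s4_dec2 : ∀ k : A, (k = 1 ∨ k = x4' ∨ k = x4' ^ 2) →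
    (g4'⁻¹ * k * g4' = 1 ∨ g4'⁻¹ * k * g4' = x4' ∨ g4'⁻¹ * k * g4' = x4' ^ 2) →
    (h4'⁻¹ * (k⁻¹ * x4') * h4' = 1 ∨ h4'⁻¹ * (k⁻¹ * x4') * h4' = x4' ∨ h4'⁻¹ * (k⁻¹ * x4') * h4' = x4' ^ 2) → False := by
  decide

set_option maxRecDepth 100000 in
lemma s4_dec3 : ∀ y : A, ¬ (y = 1 ∨ y = x4' ∨ y = x4' ^ 2) →
    ∃ f e : Fin 3, x4' ^ (f : ℕ) * y * (x4' ^ (f : ℕ))⁻¹ = t4' ∨
      x4' ^ (f : ℕ) * (y * x4' ^ (e : ℕ)) * (x4' ^ (f : ℕ))⁻¹ = v4' ∨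
      x4' ^ (f : ℕ) * ((y * x4' ^ (e : ℕ)) * (y * x4' ^ (e : ℕ))) * (x4' ^ (f : ℕ))⁻¹ = v4' := by
  decide

/-- A binary subgroup of `S₄` containing a three-cycle contains an involution of the Klein group or a
transposition inverting it. -/
theorem s4_binary {K : Subgroup A} (h : RStar ⊤ K) (hx : x4' ∈ K) : v4' ∈ K ∨ t4' ∈ K := by
  have hex : ∃ y ∈ K, ¬ (y = 1 ∨ y = x4' ∨ y = x4' ^ 2) := by
    by_contra hcon
    push Not at hcon
    have hall : ∀ y ∈ K, y = 1 ∨ y = x4' ∨ y = x4' ^ 2 := hcon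
    obtain ⟨k, hk, h1, h2⟩ := rstar_pair h (g₁ := g4') (g₂ := h4') hx s4_dec1
      (by
        have : g4'⁻¹ * (g4' * x4' * g4'⁻¹) * g4' = x4' := by group
        rw [this]; exact hx)
      (by
        have : h4'⁻¹ * (h4' * x4' * h4'⁻¹) * h4' = x4' := by group
        rw [this]; exact hx)
    exact s4_dec2 k (hall k hk) (hall _ h1) (hall _ h2)
  obtain ⟨y, hy, hy1⟩ := hex
  obtain ⟨f, e, h1 | h1 | h1⟩ := s4_dec3 y hy1
  · right
    rw [← h1]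
    exact K.mul_mem (K.mul_mem (K.pow_mem hx _) hy) (K.inv_mem (K.pow_mem hx _))
  · left
    rw [← h1]
    exact K.mul_mem (K.mul_mem (K.pow_mem hx _) (K.mul_mem hy (K.pow_mem hx _))) (K.inv_mem (K.pow_mem hx _))
  · left
    rw [← h1]
    have h2 := K.mul_mem hy (K.pow_mem hx e)
    exact K.mul_mem (K.mul_mem (K.pow_mem hx _) (K.mul_mem h2 h2)) (K.inv_mem (K.pow_mem hx _))

end S4
section A5

local notation "A" => alternatingGroup (Fin 5)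

/-- The three-cycle in `A₅`. -/
def x5 : A := ⟨Equiv.swap 0 1 * Equiv.swap 1 2, Equiv.Perm.mem_alternatingGroup.2 (by decide)⟩
/-- An involution inverting the three-cycle. -/
def t5 : A := ⟨Equiv.swap 0 1 * Equiv.swap 3 4, Equiv.Perm.mem_alternatingGroup.2 (by decide)⟩
def g5 : A := ⟨Equiv.swap 2 3 * Equiv.swap 3 4, Equiv.Perm.mem_alternatingGroup.2 (by decide)⟩
def h5 : A := ⟨Equiv.swap 0 1 * Equiv.swap 1 2 * Equiv.swap 2 3 * Equiv.swap 3 4,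
  Equiv.Perm.mem_alternatingGroup.2 (by decide)⟩
/-- Involutions of the point stabilisers. -/
def v53 : A := ⟨Equiv.swap 0 1 * Equiv.swap 2 4, Equiv.Perm.mem_alternatingGroup.2 (by decide)⟩
def v54 : A := ⟨Equiv.swap 0 1 * Equiv.swap 2 3, Equiv.Perm.mem_alternatingGroup.2 (by decide)⟩

/-- Membership in the stabiliser of `{3, 4}`. -/
def inM5 (y : A) : Prop := ((y : Equiv.Perm (Fin 5)) 3 = 3 ∧ (y : Equiv.Perm (Fin 5)) 4 = 4) ∨
  ((y : Equiv.Perm (Fin 5)) 3 = 4 ∧ (y : Equiv.Perm (Fin 5)) 4 = 3)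

instance : DecidablePred inM5 := fun y => by unfold inM5; infer_instance

/-- Membership in `⟨x₅⟩`. -/
def inX5 (y : A) : Prop := y = 1 ∨ y = x5 ∨ y = x5 ^ 2

instance : DecidablePred inX5 := fun y => by unfold inX5; infer_instance

set_option maxRecDepth 100000 in
lemma a5_dec1 : x5 = (g5 * x5 * g5⁻¹) * (h5 * x5 * h5⁻¹) := by decide

set_option maxRecDepth 100000 in
lemma a5_dec2 : ∀ k : A, inM5 k → inM5 (g5⁻¹ * k * g5) → inM5 (h5⁻¹ * (k⁻¹ * x5) * h5) → False := by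
  decide

set_option maxRecDepth 100000 in
lemma a5_dec3 : ∀ y : A, ¬ inM5 y →
    (((((y * x5 * y⁻¹ : A) : Equiv.Perm (Fin 5)) 3 = 3) ∧ ¬ inX5 (y * x5 * y⁻¹)) ∨
     (((y * x5 * y⁻¹ : A) : Equiv.Perm (Fin 5)) 4 = 4 ∧ ¬ inX5 (y * x5 * y⁻¹))) ∨
    (((((y * x5 * y⁻¹ * x5⁻¹ * y : A) : Equiv.Perm (Fin 5)) 3 = 3) ∧ ¬ inX5 (y * x5 * y⁻¹ * x5⁻¹ * y)) ∨
     (((y * x5 * y⁻¹ * x5⁻¹ * y : A) : Equiv.Perm (Fin 5)) 4 = 4 ∧ ¬ inX5 (y * x5 * y⁻¹ * x5⁻¹ * y))) := by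
  decide

set_option maxRecDepth 100000 in
lemma a5_dec4a : ∀ w : A, (w : Equiv.Perm (Fin 5)) 3 = 3 → ¬ inX5 w →
    ∃ f e : Fin 3, x5 ^ (f : ℕ) * (w * x5 ^ (e : ℕ)) * (x5 ^ (f : ℕ))⁻¹ = v53 := by
  decide

set_option maxRecDepth 100000 in
lemma a5_dec4b : ∀ w : A, (w : Equiv.Perm (Fin 5)) 4 = 4 → ¬ inX5 w →
    ∃ f e : Fin 3, x5 ^ (f : ℕ) * (w * x5 ^ (e : ℕ)) * (x5 ^ (f : ℕ))⁻¹ = v54 := by
  decide

set_option maxRecDepth 100000 in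
lemma a5_dec5a : ∀ g : A, (g : Equiv.Perm (Fin 5)) 3 = 3 → ∃ i j : Fin 3,
    g = x5 ^ (i : ℕ) ∨ g = x5 ^ (i : ℕ) * (x5 ^ (j : ℕ) * v53 * (x5 ^ (j : ℕ))⁻¹) := by
  decide

set_option maxRecDepth 100000 in
lemma a5_dec5b : ∀ g : A, (g : Equiv.Perm (Fin 5)) 4 = 4 → ∃ i j : Fin 3,
    g = x5 ^ (i : ℕ) ∨ g = x5 ^ (i : ℕ) * (x5 ^ (j : ℕ) * v54 * (x5 ^ (j : ℕ))⁻¹) := by
  decide

/-- Point stabilisers in `A₅`. -/
def stabA (c : Fin 5) : Subgroup A where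
  carrier := {y | (y : Equiv.Perm (Fin 5)) c = c}
  one_mem' := rfl
  mul_mem' := by
    intro a b ha hb
    show (a : Equiv.Perm (Fin 5)) ((b : Equiv.Perm (Fin 5)) c) = c
    rw [show (b : Equiv.Perm (Fin 5)) c = c from hb, show (a : Equiv.Perm (Fin 5)) c = c from ha]
  inv_mem' := by
    intro a ha
    show ((a : Equiv.Perm (Fin 5)))⁻¹ c = c
    rw [Equiv.Perm.inv_eq_iff_eq]
    exact (show (a : Equiv.Perm (Fin 5)) c = c from ha).symm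

lemma mem_stabA {c : Fin 5} {y : A} : y ∈ stabA c ↔ (y : Equiv.Perm (Fin 5)) c = c := Iff.rfl

instance (c : Fin 5) : DecidablePred (· ∈ stabA c) := fun y =>
  decidable_of_iff ((y : Equiv.Perm (Fin 5)) c = c) mem_stabA.symm

set_option maxRecDepth 100000 in
lemma card_stabA3 : Nat.card (stabA 3) = 12 := by
  rw [Nat.card_eq_fintype_card]
  decide

set_option maxRecDepth 100000 in
lemma card_stabA4 : Nat.card (stabA 4) = 12 := by
  rw [Nat.card_eq_fintype_card]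
  decide

/-- The elements of the decomposition for the natural action. -/
def b0 : A := ⟨Equiv.swap 0 3 * Equiv.swap 1 4, Equiv.Perm.mem_alternatingGroup.2 (by decide)⟩
def b1 : A := ⟨Equiv.swap 1 3 * Equiv.swap 0 4, Equiv.Perm.mem_alternatingGroup.2 (by decide)⟩
def b2 : A := ⟨Equiv.swap 2 3 * Equiv.swap 0 4, Equiv.Perm.mem_alternatingGroup.2 (by decide)⟩
def b0' : A := ⟨Equiv.swap 0 4 * Equiv.swap 1 3, Equiv.Perm.mem_alternatingGroup.2 (by decide)⟩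
def b1' : A := ⟨Equiv.swap 1 4 * Equiv.swap 0 3, Equiv.Perm.mem_alternatingGroup.2 (by decide)⟩
def b2' : A := ⟨Equiv.swap 2 4 * Equiv.swap 0 3, Equiv.Perm.mem_alternatingGroup.2 (by decide)⟩
def t34 : A := ⟨Equiv.swap 3 4 * Equiv.swap 0 1, Equiv.Perm.mem_alternatingGroup.2 (by decide)⟩

set_option maxRecDepth 100000 in
lemma a5_pt3 : ∀ b ∈ [b0, b1, b2], ∃ y : A, (y : Equiv.Perm (Fin 5)) 3 = 3 ∧
    ((b⁻¹ * (t34 * y⁻¹) * b : A) : Equiv.Perm (Fin 5)) 3 = 3 := by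
  decide

set_option maxRecDepth 100000 in
lemma a5_pt4 : ∀ b ∈ [b0', b1', b2'], ∃ y : A, (y : Equiv.Perm (Fin 5)) 4 = 4 ∧
    ((b⁻¹ * (t34 * y⁻¹) * b : A) : Equiv.Perm (Fin 5)) 4 = 4 := by
  decide

set_option maxRecDepth 100000 in
lemma a5_pt3' : ∀ k : A, (b0⁻¹ * k * b0 : A).1 3 = 3 → (b1⁻¹ * k * b1 : A).1 3 = 3 → (b2⁻¹ * k * b2 : A).1 3 = 3 →
    k = 1 := by
  decide

set_option maxRecDepth 100000 in
lemma a5_pt4' : ∀ k : A, (b0'⁻¹ * k * b0' : A).1 4 = 4 → (b1'⁻¹ * k * b1' : A).1 4 = 4 →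
    (b2'⁻¹ * k * b2' : A).1 4 = 4 → k = 1 := by
  decide

set_option maxRecDepth 100000 in
lemma t34_3 : (t34 : Equiv.Perm (Fin 5)) 3 ≠ 3 ∧ (t34 : Equiv.Perm (Fin 5)) 4 ≠ 4 := by decide

lemma stab3_not_binary : ¬ RStar ⊤ (stabA 3) := by
  intro h
  obtain ⟨k, hk, y, hy, ht⟩ := h {b0, b1, b2} 1 t34 (fun _ _ => trivial) trivial trivial (by
    intro b hb
    have hb' : b ∈ [b0, b1, b2] := by
      rcases hb with rfl | rfl | rfl <;> simp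
    obtain ⟨y, h1, h2⟩ := a5_pt3 b hb'
    exact ⟨t34 * y⁻¹, mem_Cj.2 h2, y, mem_Cj_one.2 h1, by group⟩)
  have h0 := mem_Cj.1 (hk b0 (by simp))
  have h1 := mem_Cj.1 (hk b1 (by simp))
  have h2 := mem_Cj.1 (hk b2 (by simp))
  have hk1 := a5_pt3' k h0 h1 h2
  rw [hk1, one_mul] at ht
  rw [← ht] at hy
  exact t34_3.1 (mem_Cj_one.1 hy)

lemma stab4_not_binary : ¬ RStar ⊤ (stabA 4) := by
  intro h
  obtain ⟨k, hk, y, hy, ht⟩ := h {b0', b1', b2'} 1 t34 (fun _ _ => trivial) trivial trivial (by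
    intro b hb
    have hb' : b ∈ [b0', b1', b2'] := by
      rcases hb with rfl | rfl | rfl <;> simp
    obtain ⟨y, h1, h2⟩ := a5_pt4 b hb'
    exact ⟨t34 * y⁻¹, mem_Cj.2 h2, y, mem_Cj_one.2 h1, by group⟩)
  have h0 := mem_Cj.1 (hk b0' (by simp))
  have h1 := mem_Cj.1 (hk b1' (by simp))
  have h2 := mem_Cj.1 (hk b2' (by simp))
  have hk1 := a5_pt4' k h0 h1 h2
  rw [hk1, one_mul] at ht
  rw [← ht] at hy
  exact t34_3.2 (mem_Cj_one.1 hy)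

lemma card_A5' : Nat.card A = 60 := by
  rw [nat_card_alternatingGroup]
  simp [Nat.factorial]

lemma eq_top_of_gt {K L : Subgroup A} (hL : Nat.card L = 12) (hle : L ≤ K) (hne : L ≠ K) : K = ⊤ := by
  have hd := Subgroup.card_dvd_of_le hle
  have hd2 : Nat.card K ∣ 60 := by
    rw [← card_A5']
    exact Subgroup.card_subgroup_dvd_card K
  have hgt : Nat.card L ≠ Nat.card K := by
    intro h
    exact hne (Subgroup.eq_of_le_of_card_ge hle h.ge)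
  rw [hL] at hd hgt
  obtain ⟨m, hm⟩ := hd
  have h60 : Nat.card K = 60 := by
    have hm1 : m ≠ 1 := by
      rintro rfl
      omega
    have hm5 : m ∣ 5 := by
      rw [hm] at hd2
      have : 12 * m ∣ 12 * 5 := by simpa using hd2
      exact (Nat.mul_dvd_mul_iff_left (by norm_num)).1 this
    rcases (Nat.dvd_prime (by norm_num)).1 hm5 with rfl | rfl
    · exact absurd rfl hm1
    · omega
  apply Subgroup.eq_top_of_card_eq
  rw [h60, card_A5']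

/-- A binary subgroup of `A₅` containing a three-cycle is the whole group. -/
theorem a5_binary {K : Subgroup A} (h : RStar ⊤ K) (hx : x5 ∈ K) : K = ⊤ := by
  have hM : ∃ y ∈ K, ¬ inM5 y := by
    by_contra hcon
    push Not at hcon
    obtain ⟨k, hk, h1, h2⟩ := rstar_pair h (g₁ := g5) (g₂ := h5) hx a5_dec1
      (by
        have : g5⁻¹ * (g5 * x5 * g5⁻¹) * g5 = x5 := by group
        rw [this]; exact hx)
      (by
        have : h5⁻¹ * (h5 * x5 * h5⁻¹) * h5 = x5 := by group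
        rw [this]; exact hx)
    exact a5_dec2 k (hcon k hk) (hcon _ h1) (hcon _ h2)
  obtain ⟨y, hy, hy1⟩ := hM
  have hw1 : y * x5 * y⁻¹ ∈ K := K.mul_mem (K.mul_mem hy hx) (K.inv_mem hy)
  have hw2 : y * x5 * y⁻¹ * x5⁻¹ * y ∈ K := K.mul_mem (K.mul_mem hw1 (K.inv_mem hx)) hy
  have h3 : ∀ w ∈ K, (w : Equiv.Perm (Fin 5)) 3 = 3 → ¬ inX5 w → K = ⊤ := by
    intro w hw h1 h2
    obtain ⟨f, e, h5⟩ := a5_dec4a w h1 h2
    have hv : v53 ∈ K := by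
      rw [← h5]
      exact K.mul_mem (K.mul_mem (K.pow_mem hx _) (K.mul_mem hw (K.pow_mem hx _))) (K.inv_mem (K.pow_mem hx _))
    have hle : stabA 3 ≤ K := by
      intro g hg
      obtain ⟨i, j, h6 | h6⟩ := a5_dec5a g hg
      · rw [h6]
        exact K.pow_mem hx _
      · rw [h6]
        exact K.mul_mem (K.pow_mem hx _) (K.mul_mem (K.mul_mem (K.pow_mem hx _) hv) (K.inv_mem (K.pow_mem hx _)))
    refine eq_top_of_gt card_stabA3 hle ?_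
    intro h7
    apply stab3_not_binary
    rw [h7]
    exact h
  have h4 : ∀ w ∈ K, (w : Equiv.Perm (Fin 5)) 4 = 4 → ¬ inX5 w → K = ⊤ := by
    intro w hw h1 h2
    obtain ⟨f, e, h5⟩ := a5_dec4b w h1 h2
    have hv : v54 ∈ K := by
      rw [← h5]
      exact K.mul_mem (K.mul_mem (K.pow_mem hx _) (K.mul_mem hw (K.pow_mem hx _))) (K.inv_mem (K.pow_mem hx _))
    have hle : stabA 4 ≤ K := by
      intro g hg
      obtain ⟨i, j, h6 | h6⟩ := a5_dec5b g hg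
      · rw [h6]
        exact K.pow_mem hx _
      · rw [h6]
        exact K.mul_mem (K.pow_mem hx _) (K.mul_mem (K.mul_mem (K.pow_mem hx _) hv) (K.inv_mem (K.pow_mem hx _)))
    refine eq_top_of_gt card_stabA4 hle ?_
    intro h7
    apply stab4_not_binary
    rw [h7]
    exact h
  rcases a5_dec3 y hy1 with (⟨h5, h6⟩ | ⟨h5, h6⟩) | (⟨h5, h6⟩ | ⟨h5, h6⟩)
  · exact h3 _ hw1 h5 h6
  · exact h4 _ hw1 h5 h6
  · exact h3 _ hw2 h5 h6
  · exact h4 _ hw2 h5 h6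

set_option maxRecDepth 100000 in
lemma a5_t : t5 * x5 * t5⁻¹ = x5⁻¹ := by decide

end A5

end Cfsg.Agent.Lib.Classical.SL2.Binary
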