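import Cfsg.Agent.Lib.Classical.SL2.Binary.Torus

/-!
Subgroups of the Borel subgroup of `SL₂(F)` with the binary property.
-/

set_option autoImplicit false
set_option linter.unusedSectionVars false
set_option linter.unusedSimpArgs false

open scoped MatrixGroups
open Matrix

namespace Cfsg.Agent.Lib.Classical.SL2.Binary

variable {F : Type*} [Field F]

local notation "M2" => Matrix (Fin 2) (Fin 2) F

lemma uS_00 (y : F) : (uS y : SL(2, F)) 0 0 = 1 := rfl
lemma uS_01 (y : F) : (uS y : SL(2, F)) 0 1 = y := rfl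
lemma uS_10 (y : F) : (uS y : SL(2, F)) 1 0 = 0 := rfl
lemma uS_11 (y : F) : (uS y : SL(2, F)) 1 1 = 1 := rfl
lemma lS_00 (y : F) : (lS y : SL(2, F)) 0 0 = 1 := rfl
lemma lS_01 (y : F) : (lS y : SL(2, F)) 0 1 = 0 := rfl
lemma lS_10 (y : F) : (lS y : SL(2, F)) 1 0 = y := rfl
lemma lS_11 (y : F) : (lS y : SL(2, F)) 1 1 = 1 := rfl
lemma dS_00 (d : F) (h : d ≠ 0) : (dS d h : SL(2, F)) 0 0 = d := rfl
lemma dS_01 (d : F) (h : d ≠ 0) : (dS d h : SL(2, F)) 0 1 = 0 := rfl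
lemma dS_10 (d : F) (h : d ≠ 0) : (dS d h : SL(2, F)) 1 0 = 0 := rfl
lemma dS_11 (d : F) (h : d ≠ 0) : (dS d h : SL(2, F)) 1 1 = d⁻¹ := rfl
lemma wS_00 : (wS : SL(2, F)) 0 0 = 0 := rfl
lemma wS_01 : (wS : SL(2, F)) 0 1 = 1 := rfl
lemma wS_10 : (wS : SL(2, F)) 1 0 = -1 := rfl
lemma wS_11 : (wS : SL(2, F)) 1 1 = 0 := rfl
lemma mS_00 : (mS : SL(2, F)) 0 0 = -1 := rfl
lemma mS_01 : (mS : SL(2, F)) 0 1 = 0 := rfl
lemma mS_10 : (mS : SL(2, F)) 1 0 = 0 := rfl
lemma mS_11 : (mS : SL(2, F)) 1 1 = -1 := rfl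
lemma mk2_e00 (a b c d : F) (h) : (mk2 a b c d h : SL(2, F)) 0 0 = a := rfl
lemma mk2_e01 (a b c d : F) (h) : (mk2 a b c d h : SL(2, F)) 0 1 = b := rfl
lemma mk2_e10 (a b c d : F) (h) : (mk2 a b c d h : SL(2, F)) 1 0 = c := rfl
lemma mk2_e11 (a b c d : F) (h) : (mk2 a b c d h : SL(2, F)) 1 1 = d := rfl

/-- The outcome predicate for a subgroup of `SL₂(F)` binary in `PSL₂(F)`. -/
def Out [Fintype F] (H : Subgroup (SL(2, F))) : Prop :=
  (∀ S ∈ H, IsSc (S : M2)) ∨ ((2 : F) = 0 ∧ Nat.card H = Fintype.card F) ∨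
    ((2 : F) = 0 ∧ Nat.card H = 3 ∧ ∀ x : F, x ^ 2 + x + 1 ≠ 0)

lemma intertwine_cjS (c : GL (Fin 2) F) (S : SL(2, F)) :
    ((cjS c S : SL(2, F)) : M2) * (c : M2) = (c : M2) * (S : M2) := by
  rw [cjS_coe, mul_assoc, gl_inv_mul, mul_one]

lemma cjS_of_intertwine (c : GL (Fin 2) F) {S T : SL(2, F)} (h : (T : M2) * (c : M2) = (c : M2) * (S : M2)) :
    cjS c S = T := by
  apply Subtype.ext
  rw [cjS_coe, ← h, mul_assoc, gl_mul_inv, mul_one]

lemma isSc_conj (c : GL (Fin 2) F) {A : M2} (hA : IsSc A) :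
    IsSc ((c : M2) * A * ((c⁻¹ : GL (Fin 2) F) : M2)) := by
  obtain ⟨h1, h2, h3⟩ := hA
  have hA : A = A 1 1 • (1 : M2) := by
    apply m2_ext <;> simp [h1, h2, h3]
  rw [hA, mul_smul_comm, mul_one, smul_mul_assoc, gl_mul_inv]
  simp [IsSc]

lemma Out.of_conj [Fintype F] {H H' : Subgroup (SL(2, F))} (c : GL (Fin 2) F) (hmem : ∀ S, S ∈ H' ↔ cjS c S ∈ H)
    (h : Out H') : Out H := by
  have hc : Nat.card H' = Nat.card H :=
    Nat.card_congr (Equiv.subtypeEquiv (cjS c).toEquiv (fun S => hmem S))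
  rcases h with h | h | h
  · left
    intro S hSH
    have h1 : (cjS c).symm S ∈ H' := by
      rw [hmem]
      simpa using hSH
    have h3 := isSc_conj c (h _ h1)
    have h4 : ((cjS c ((cjS c).symm S) : SL(2, F)) : M2) = (c : M2) * (((cjS c).symm S : SL(2, F)) : M2) * ((c⁻¹ : GL (Fin 2) F) : M2) :=
      cjS_coe _ _
    rw [← h4] at h3
    simpa using h3
  · right; left
    exact ⟨h.1, by rw [← hc]; exact h.2⟩
  · right; right
    exact ⟨h.1, by rw [← hc]; exact h.2.1, h.2.2⟩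

/-- Lemma C: a regular semisimple element and a unipotent element. -/
theorem borel_C {H : Subgroup (SL(2, F))} (hS : RStar ⊤ H) (hup : ∀ S ∈ H, S 1 0 = 0) {l : F} (h0 : l ≠ 0)
    (hd : dS l h0 ∈ H) (h4 : l ^ 4 ≠ 1) {e : F} (he : e ≠ 0) (hu : uS e ∈ H) : False := by
  have hR : RStar H (H ⊓ Cj H wS) := hS.descend le_top trivial
  set K := H ⊓ Cj H wS with hKdef
  have hKH : K ≤ H := inf_le_left
  have hKd : ∀ S ∈ K, S 1 0 = 0 ∧ S 0 1 = 0 := by
    intro S hSK
    refine ⟨hup S hSK.1, ?_⟩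
    have h1 := hup _ (mem_Cj.1 hSK.2)
    simp only [sl_mul10, sl_mul11, sl_mul00, sl_mul01, sl_inv10, sl_inv11, sl_inv00, sl_inv01, wS_00, wS_01, wS_10,
      wS_11] at h1
    linear_combination (-1 : F) * h1
  have hwd : (wS : SL(2, F))⁻¹ * dS l h0 * wS = (dS l h0)⁻¹ := by
    apply sl_ext <;> simp [sl_mul10, sl_mul11, sl_mul00, sl_mul01, sl_inv10, sl_inv11, sl_inv00, sl_inv01, wS_00,
      wS_01, wS_10, wS_11, dS_00, dS_01, dS_10, dS_11]
  have hdK : dS l h0 ∈ K := ⟨hd, mem_Cj.2 (by rw [hwd]; exact H.inv_mem hd)⟩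
  have hl2 : l ^ 2 ≠ 0 := pow_ne_zero 2 h0
  set e₁ : F := -(l ^ 2 * e) with he₁
  have he₁0 : e₁ ≠ 0 := neg_ne_zero.2 (mul_ne_zero hl2 he)
  have hu1 : uS e₁ ∈ H := by
    rw [he₁, ← uS_inv, ← dS_conj_uS l h0 e]
    exact H.inv_mem (H.mul_mem (H.mul_mem hd hu) (H.inv_mem hd))
  have hprod : (uS e₁ * dS l h0 * (uS e₁)⁻¹) * (uS e * dS l h0 * (uS e)⁻¹) = dS l h0 * dS l h0 := by
    rw [uS_inv, uS_inv]
    apply sl_ext <;>
      simp only [sl_mul10, sl_mul11, sl_mul00, sl_mul01, uS_00, uS_01, uS_10, uS_11, dS_00, dS_01, dS_10, dS_11, he₁] <;>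
      field_simp <;> ring
  obtain ⟨k, hk, y, hy, hty⟩ := hR {1, uS e₁} (uS e) (dS l h0 * dS l h0) (by
      rintro b (rfl | rfl)
      · exact H.one_mem
      · exact hu1) hu (H.mul_mem hd hd) (by
      rintro b (rfl | rfl)
      · exact ⟨_, mem_Cj_one.2 (K.mul_mem hdK hdK), 1, Subgroup.one_mem _, by simp⟩
      · exact ⟨_, conj_mem_Cj _ hdK, _, conj_mem_Cj _ hdK, hprod.symm⟩)
  have hk1 : k ∈ K := mem_Cj_one.1 (hk 1 (by simp))
  have hk2 := hKd _ (mem_Cj.1 (hk (uS e₁) (by simp)))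
  have hy2 := hKd _ (mem_Cj.1 hy)
  obtain ⟨k10, k01⟩ := hKd k hk1
  have hkd := sl_det k
  have hyd := sl_det y
  simp only [sl_mul10, sl_mul11, sl_mul00, sl_mul01, sl_inv10, sl_inv11, sl_inv00, sl_inv01, uS_00, uS_01, uS_10, uS_11,
    k10, k01] at hk2 hy2
  have hk3 : k 0 0 = k 1 1 := by
    have h5 : e₁ * (k 0 0 - k 1 1) = 0 := by linear_combination hk2.2
    exact sub_eq_zero.1 ((mul_eq_zero.1 h5).resolve_left he₁0)
  rw [k01, k10] at hkd
  have e00 := congrArg (fun S : SL(2, F) => S 0 0) hty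
  have e01 := congrArg (fun S : SL(2, F) => S 0 1) hty
  have e11 := congrArg (fun S : SL(2, F) => S 1 1) hty
  simp only [sl_mul10, sl_mul11, sl_mul00, sl_mul01, dS_00, dS_01, dS_10, dS_11, k10, k01] at e00 e01 e11
  have hk0 : k 0 0 ≠ 0 := by
    intro h
    rw [h] at hkd
    simp at hkd
  have hy01 : y 0 1 = 0 := by
    have : k 0 0 * y 0 1 = 0 := by linear_combination (-1 : F) * e01
    exact (mul_eq_zero.1 this).resolve_left hk0
  have hy3 : y 0 0 = y 1 1 := by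
    have h5 : e * (y 0 0 - y 1 1) = 0 := by
      have h6 := hy2.2
      rw [hy01] at h6
      have h7 : y 1 0 = 0 := by linear_combination hy2.1
      rw [h7] at h6
      linear_combination h6
    exact sub_eq_zero.1 ((mul_eq_zero.1 h5).resolve_left he)
  apply h4
  have h5 : l * l = l⁻¹ * l⁻¹ := by
    have a : l * l = k 0 0 * y 0 0 := by linear_combination e00
    have b : l⁻¹ * l⁻¹ = k 1 1 * y 1 1 := by linear_combination e11
    rw [a, b, hk3, hy3]
  field_simp at h5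
  linear_combination h5

/-- The quaternion frame in a Borel subgroup. -/
theorem borel_frame {H : Subgroup (SL(2, F))} (hS : RStar ⊤ H) (hup : ∀ S ∈ H, S 1 0 = 0) {i : F} (hi : i ^ 2 = -1)
    (h2 : (2 : F) ≠ 0) (hi0 : i ≠ 0) (hd : dS i hi0 ∈ H) (hall : ∀ S ∈ H, (S 0 0) ^ 4 = 1) : False := by
  have hinv : i⁻¹ = -i := by
    field_simp
    linear_combination hi
  have hi1 : i - 1 ≠ 0 := by
    intro h
    have : i = 1 := sub_eq_zero.1 h
    rw [this] at hi
    apply h2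
    linear_combination hi
  let e₂ : SL(2, F) := mk2 0 i i 0 (by linear_combination (-1 : F) * hi)
  let e₃ : SL(2, F) := mk2 0 (-1) 1 0 (by ring)
  let ρ : SL(2, F) := mk2 ((1 + i) / 2) ((i - 1) / 2) ((1 + i) / 2) ((1 - i) / 2) (by
    field_simp
    linear_combination (-2 : F) * hi)
  have h23 : dS i hi0 = e₂ * e₃ := by
    apply sl_ext <;>
      simp only [sl_mul10, sl_mul11, sl_mul00, sl_mul01, dS_00, dS_01, dS_10, dS_11, hinv, e₂, e₃, mk2_e00, mk2_e01,
        mk2_e10, mk2_e11] <;> ring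
  have h4 : ρ⁻¹ * e₂ * ρ = dS i hi0 := by
    apply sl_ext <;>
      simp only [sl_mul10, sl_mul11, sl_mul00, sl_mul01, sl_inv10, sl_inv11, sl_inv00, sl_inv01, dS_00, dS_01, dS_10,
        dS_11, hinv, ρ, e₂, mk2_e00, mk2_e01, mk2_e10, mk2_e11] <;> field_simp <;> grind
  have h5 : ρ⁻¹⁻¹ * e₃ * ρ⁻¹ = dS i hi0 := by
    rw [inv_inv]
    apply sl_ext <;>
      simp only [sl_mul10, sl_mul11, sl_mul00, sl_mul01, sl_inv10, sl_inv11, sl_inv00, sl_inv01, dS_00, dS_01, dS_10,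
        dS_11, hinv, ρ, e₃, mk2_e00, mk2_e01, mk2_e10, mk2_e11] <;> field_simp <;> grind
  obtain ⟨k, hk, y, hy, hty⟩ := hS {1, ρ} ρ⁻¹ (dS i hi0) (fun _ _ => trivial) trivial trivial (by
    rintro b (rfl | rfl)
    · exact ⟨_, mem_Cj_one.2 hd, 1, Subgroup.one_mem _, by simp⟩
    · exact ⟨e₂, mem_Cj.2 (by rw [h4]; exact hd), e₃, mem_Cj.2 (by rw [h5]; exact hd), h23⟩)
  have hk1 : k ∈ H := mem_Cj_one.1 (hk 1 (by simp))
  have hyH : y ∈ H := by
    have : y = k⁻¹ * dS i hi0 := by rw [hty]; group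
    rw [this]
    exact H.mul_mem (H.inv_mem hk1) hd
  have hk2 := hup _ (mem_Cj.1 (hk ρ (by simp)))
  have hy2 := hup _ (mem_Cj.1 hy)
  have k10 := hup k hk1
  have y10 := hup y hyH
  rw [inv_inv] at hy2
  simp only [sl_mul10, sl_mul11, sl_mul00, sl_mul01, sl_inv10, sl_inv11, sl_inv00, sl_inv01, ρ, mk2_e00, mk2_e01, mk2_e10,
    mk2_e11, k10, y10] at hk2 hy2
  have e00 := congrArg (fun S : SL(2, F) => S 0 0) hty
  have e01 := congrArg (fun S : SL(2, F) => S 0 1) hty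
  have e11 := congrArg (fun S : SL(2, F) => S 1 1) hty
  simp only [sl_mul10, sl_mul11, sl_mul00, sl_mul01, dS_00, dS_01, dS_10, dS_11, k10, y10, hinv] at e00 e01 e11
  have hkd := sl_det k
  have hyd := sl_det y
  rw [k10] at hkd
  rw [y10] at hyd
  have hM := hall k hk1
  have h1i : 1 + i ≠ 0 := by
    intro h
    have h6 : i = -1 := by linear_combination h
    rw [h6] at hi
    apply h2
    linear_combination hi
  have hs : k 0 1 = k 1 1 - k 0 0 := by
    have h6 : ((1 + i) / 2) ^ 2 * (k 1 1 - k 0 0 - k 0 1) = 0 := by linear_combination hk2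
    have h7 := (mul_eq_zero.1 h6).resolve_left (pow_ne_zero 2 (div_ne_zero h1i h2))
    linear_combination (-1 : F) * h7
  have hw : y 0 0 - y 1 1 = i * y 0 1 := by
    have h6 : (2 : F) * ((y 0 0 - y 1 1) - i * y 0 1) = 0 := by
      field_simp at hy2
      grind
    have h7 := (mul_eq_zero.1 h6).resolve_left h2
    linear_combination h7
  have h7 : (1 + i) * (1 - k 0 0 * y 1 1) = 0 := by
    rw [hs] at e01
    grind
  have h8 : k 0 0 * y 1 1 = 1 := by
    have h9 := (mul_eq_zero.1 h7).resolve_left h1i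
    linear_combination (-1 : F) * h9
  have h9 : k 0 0 = y 0 0 := by
    have h10 : k 0 0 * (y 0 0 * y 1 1) = y 0 0 * (k 0 0 * y 1 1) := by ring
    have h11 : y 0 0 * y 1 1 = 1 := by linear_combination hyd
    rw [h11, h8] at h10
    linear_combination h10
  have h10 : k 0 0 ^ 2 = i := by
    rw [pow_two]
    nth_rewrite 2 [h9]
    linear_combination (-1 : F) * e00
  apply h2
  have h11 : (k 0 0 ^ 2) ^ 2 = 1 := by linear_combination hM
  rw [h10, hi] at h11
  linear_combination (-1 : F) * h11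

/-- Lemma P. -/
theorem lemma_P {Γ K : Subgroup (SL(2, F))} (h : RStar Γ K) (hK : ∀ S ∈ K, S 1 0 = 0 ∧ S 0 0 = S 1 1)
    (hm : mS ∈ K) (h2 : (2 : F) ≠ 0) (hu : uS 1 ∈ K) (hu' : uS 1 ∈ Γ) (hl : lS (-2) ∈ Γ) (hw : wS ∈ Γ) : False := by
  have hl' : lS (2 : F) ∈ Γ := by
    have : lS (2 : F) = (lS (-2))⁻¹ := by
      apply sl_ext <;> simp [sl_inv00, sl_inv01, sl_inv10, sl_inv11, lS_00, lS_01, lS_10, lS_11]
    rw [this]
    exact Γ.inv_mem hl
  have hu4 : uS (4 : F) ∈ K := by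
    have : uS (4 : F) = uS 1 * uS 1 * uS 1 * uS 1 := by
      rw [uS_mul, uS_mul, uS_mul]
      norm_num
    rw [this]
    exact K.mul_mem (K.mul_mem (K.mul_mem hu hu) hu) hu
  have hum : uS (-1 : F) ∈ Γ := by
    have : uS (-1 : F) = (uS 1)⁻¹ := by rw [uS_inv]
    rw [this]
    exact Γ.inv_mem hu'
  let t : SL(2, F) := lS (-2) * uS (-1) * lS 2
  have ht : t ∈ Γ := Γ.mul_mem (Γ.mul_mem hl hum) hl'
  have h1 : (lS (-2 : F))⁻¹ * t * lS (-2) = uS (-1) := by
    apply sl_ext <;>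
      simp only [t, sl_mul10, sl_mul11, sl_mul00, sl_mul01, sl_inv10, sl_inv11, sl_inv00, sl_inv01, uS_00, uS_01, uS_10,
        uS_11, lS_00, lS_01, lS_10, lS_11] <;> ring
  have h3 : (wS : SL(2, F))⁻¹ * (t * (uS 1)⁻¹) * wS = mS * uS 4 := by
    rw [uS_inv]
    apply sl_ext <;>
      simp only [t, sl_mul10, sl_mul11, sl_mul00, sl_mul01, sl_inv10, sl_inv11, sl_inv00, sl_inv01, uS_00, uS_01, uS_10,
        uS_11, lS_00, lS_01, lS_10, lS_11, wS_00, wS_01, wS_10, wS_11, mS_00, mS_01, mS_10, mS_11] <;> ring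
  obtain ⟨k, hk, y, hy, hty⟩ := h {lS (-2), wS} 1 t (by
      rintro b (rfl | rfl)
      · exact hl
      · exact hw) (Γ.one_mem) ht (by
      rintro b (rfl | rfl)
      · refine ⟨t, mem_Cj.2 ?_, 1, Subgroup.one_mem _, by simp⟩
        rw [h1]
        have : uS (-1 : F) = (uS 1)⁻¹ := by rw [uS_inv]
        rw [this]
        exact K.inv_mem hu
      · exact ⟨t * (uS 1)⁻¹, mem_Cj.2 (by rw [h3]; exact K.mul_mem hm hu4), uS 1, mem_Cj_one.2 hu, by simp⟩)
  have hk1 := hK _ (mem_Cj.1 (hk (lS (-2)) (by simp)))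
  have hk2 := hK _ (mem_Cj.1 (hk wS (by simp)))
  have hy1 := hK _ (mem_Cj_one.1 hy)
  simp only [sl_mul10, sl_mul11, sl_mul00, sl_mul01, sl_inv10, sl_inv11, sl_inv00, sl_inv01, lS_00, lS_01, lS_10, lS_11,
    wS_00, wS_01, wS_10, wS_11] at hk1 hk2
  have e10 := congrArg (fun S : SL(2, F) => S 1 0) hty
  simp only [t, sl_mul10, sl_mul11, sl_mul00, sl_mul01, sl_inv10, sl_inv11, sl_inv00, sl_inv01, lS_00, lS_01, lS_10, lS_11,
    uS_00, uS_01, uS_10, uS_11, hy1.1] at e10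
  have hk01 : k 0 1 = 0 := by linear_combination (-1 : F) * hk2.1
  have hk00 : k 1 1 = k 0 0 := by linear_combination hk2.2
  have hk10 : k 1 0 = 0 := by
    rw [hk01, hk00] at hk1
    linear_combination hk1.1
  apply h2
  have h4' : (2 : F) * 2 = 0 := by
    rw [hk10] at e10
    linear_combination e10
  exact (mul_self_eq_zero.1 h4')

/-- A multiplier of a stable set in a finite field: the inverse is a multiplier as well. -/
lemma stable_inv [Fintype F] {P : F → Prop} {l : F} (h0 : l ≠ 0) (h : ∀ a, P a → P (l * a)) :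
    ∀ a, P a → P (l⁻¹ * a) := by
  have hpow : ∀ n : ℕ, ∀ a, P a → P (l ^ n * a) := by
    intro n
    induction n with
    | zero => intro a ha; simpa using ha
    | succ n ih =>
      intro a ha
      have := h _ (ih a ha)
      rwa [← mul_assoc, ← pow_succ'] at this
  have h1 : l⁻¹ = l ^ (Fintype.card F - 2) := by
    have h3 := FiniteField.pow_card_sub_one_eq_one l h0
    have h4 : 2 ≤ Fintype.card F := Fintype.one_lt_card
    have h5 : Fintype.card F - 1 = (Fintype.card F - 2) + 1 := by omega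
    rw [h5, pow_succ] at h3
    exact (eq_inv_of_mul_eq_one_left h3).symm
  intro a ha
  rw [h1]
  exact hpow _ a ha

lemma dS_conj_uS_inv (d : F) (hd : d ≠ 0) (x : F) :
    (dS d hd)⁻¹ * uS x * dS d hd = uS (x / d ^ 2) := by
  have h1 := dS_conj_uS d hd (x / d ^ 2)
  have h2 : d ^ 2 * (x / d ^ 2) = x := by field_simp
  rw [h2] at h1
  rw [← h1]
  group

/-- The characteristic two, unipotent case. -/
theorem borel_even [Fintype F] (h2 : (2 : F) = 0) {H : Subgroup (SL(2, F))} (hS : RStar ⊤ H)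
    (hall : ∀ S ∈ H, ∃ e, S = uS e) : (∀ S ∈ H, IsSc (S : M2)) ∨ Nat.card H = Fintype.card F := by
  classical
  have hch : ringChar F = 2 := CharP.ringChar_of_prime_eq_zero Nat.prime_two (by exact_mod_cast h2)
  by_cases h0 : ∀ e : F, uS e ∈ H → e = 0
  · left
    intro S hSH
    obtain ⟨e, rfl⟩ := hall S hSH
    rw [h0 e hSH]
    exact ⟨rfl, rfl, rfl⟩
  push Not at h0
  obtain ⟨s₁, hs₁H, hs₁⟩ := h0
  by_cases hF : ∀ e : F, uS e ∈ H
  · right
    have hbij : Function.Bijective (fun e : F => (⟨uS e, hF e⟩ : H)) := by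
      constructor
      · intro a b hab
        have := congrArg (fun S : H => (S : SL(2, F)) 0 1) hab
        exact this
      · rintro ⟨S, hSH⟩
        obtain ⟨e, rfl⟩ := hall S hSH
        exact ⟨e, rfl⟩
    rw [← Nat.card_congr (Equiv.ofBijective _ hbij), Nat.card_eq_fintype_card]
  exfalso
  push Not at hF
  obtain ⟨t₀, ht₀⟩ := hF
  let 𝒮 : Set (SL(2, F)) := {b | ∃ (δ : F) (hδ : δ ≠ 0) (s s' : F), b = dS δ hδ ∧ uS s ∈ H ∧ uS s' ∈ H ∧
    t₀ = s + δ ^ 2 * s'}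
  obtain ⟨k, hk, y, hy, hty⟩ := hS 𝒮 1 (uS t₀) (fun _ _ => trivial) trivial trivial (by
     rintro b ⟨δ, hδ, s, s', rfl, hs, hs', ht⟩
     refine ⟨uS (δ ^ 2 * s'), ?_, uS s, mem_Cj_one.2 hs, ?_⟩
     · rw [← dS_conj_uS δ hδ s']
       exact conj_mem_Cj _ hs'
     · rw [uS_mul, ht]
       congr 1
       ring)
  obtain ⟨y₀, rfl⟩ := hall y (mem_Cj_one.1 hy)
  have hy₀ : uS y₀ ∈ H := mem_Cj_one.1 hy
  have hk' : k = uS (t₀ - y₀) := by
    have : k = uS t₀ * (uS y₀)⁻¹ := by rw [hty]; group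
    rw [this, uS_inv, uS_mul, sub_eq_add_neg]
  set x := t₀ - y₀ with hx
  have hxH : uS x ∉ H := by
    intro h
    apply ht₀
    rw [hty, hk']
    exact H.mul_mem h hy₀
  have hadd : ∀ a b : F, uS a ∈ H → uS b ∈ H → uS (a + b) ∈ H := by
    intro a b ha hb
    rw [← uS_mul]
    exact H.mul_mem ha hb
  have hzero : uS (0 : F) ∈ H := by rw [uS_zero]; exact H.one_mem
  have hneg : ∀ a : F, uS a ∈ H → uS (-a) ∈ H := by
    intro a ha
    rw [← uS_inv]
    exact H.inv_mem ha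
  have hx0 : x ≠ 0 := by
    intro h
    rw [h] at hxH
    exact hxH hzero
  have hkey : ∀ s s' : F, uS s ∈ H → uS s' ∈ H → s' ≠ 0 → uS (x * s' / (x + s)) ∈ H := by
    intro s s' hs hs' hs'0
    have hxs : x + s ≠ 0 := by
      intro h
      apply hxH
      have : x = -s := by linear_combination h
      rw [this]
      exact hneg s hs
    obtain ⟨δ, hδ⟩ := FiniteField.isSquare_of_char_two hch ((x + s) / s')
    have hδ2 : δ ^ 2 = (x + s) / s' := by rw [hδ]; ring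
    have hδ0 : δ ≠ 0 := by
      rintro rfl
      apply div_ne_zero hxs hs'0
      rw [hδ]
      ring
    have hb : dS δ hδ0 ∈ 𝒮 := by
      refine ⟨δ, hδ0, s + y₀, s', rfl, hadd _ _ hs hy₀, hs', ?_⟩
      have h5 : (x + s) / s' * s' = x + s := by field_simp
      rw [hδ2, h5, hx]
      linear_combination (-s) * h2
    have h1 := mem_Cj.1 (hk _ hb)
    rw [hk', dS_conj_uS_inv, hδ2] at h1
    have h3 : x / ((x + s) / s') = x * s' / (x + s) := by field_simp
    rwa [h3] at h1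
  have hP1 : ∀ s : F, uS s ∈ H → ∀ a : F, uS a ∈ H → uS (x / (x + s) * a) ∈ H := by
    intro s hs a ha
    by_cases ha0 : a = 0
    · rw [ha0, mul_zero]
      exact hzero
    · have := hkey s a hs ha ha0
      have e : x / (x + s) * a = x * a / (x + s) := by ring
      rwa [e]
  have hxs' : ∀ s : F, uS s ∈ H → x + s ≠ 0 := by
    intro s hs h
    apply hxH
    have : x = -s := by linear_combination h
    rw [this]
    exact hneg s hs
  have hP3 : ∀ s : F, uS s ∈ H → ∀ a : F, uS a ∈ H → uS (s / x * a) ∈ H := by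
    intro s hs a ha
    have h3 := stable_inv (P := fun a => uS a ∈ H) (div_ne_zero hx0 (hxs' s hs)) (hP1 s hs) a ha
    have e : s / x * a = (x / (x + s))⁻¹ * a + -a := by
      have := hxs' s hs
      field_simp
      ring
    rw [e]
    exact hadd _ _ h3 (hneg a ha)
  have h4 := stable_inv (P := fun a => uS a ∈ H) (div_ne_zero hs₁ hx0) (hP3 s₁ hs₁H) s₁ hs₁H
  have e : (s₁ / x)⁻¹ * s₁ = x := by field_simp
  apply hxH
  have h5 : uS ((s₁ / x)⁻¹ * s₁) ∈ H := h4
  rwa [e] at h5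

lemma gl_det_ne (c : GL (Fin 2) F) : (c : M2).det ≠ 0 := by
  intro h
  have h1 := congrArg Matrix.det (gl_inv_mul c)
  rw [Matrix.det_mul, h, mul_zero, Matrix.det_one] at h1
  exact zero_ne_one h1

/-- Conjugation by an upper triangular matrix. -/
lemma conj_upper {H H' : Subgroup (SL(2, F))} (c : GL (Fin 2) F) (hmem : ∀ S, S ∈ H' ↔ cjS c S ∈ H)
    (hup : ∀ S ∈ H, S 1 0 = 0) (hc : (c : M2) 1 0 = 0) :
    ∀ S ∈ H', S 1 0 = 0 ∧ S 0 0 = (cjS c S) 0 0 := by
  intro S hSH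
  have hT := hup _ ((hmem S).1 hSH)
  have hd := gl_det_ne c
  rw [Matrix.det_fin_two, hc, mul_zero, sub_zero] at hd
  have h0 := left_ne_zero_of_mul hd
  have h1 := right_ne_zero_of_mul hd
  have h := intertwine_cjS c S
  have e10 := congrFun (congrFun h 1) 0
  have e00 := congrFun (congrFun h 0) 0
  rw [m2_mul10, m2_mul10, hc] at e10
  rw [m2_mul00, m2_mul00, hc] at e00
  have hT' : ((cjS c S : SL(2, F)) : M2) 1 0 = 0 := hT
  rw [hT'] at e10
  have hS : S 1 0 = 0 := by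
    have : (c : M2) 1 1 * S 1 0 = 0 := by linear_combination (-1 : F) * e10
    exact (mul_eq_zero.1 this).resolve_left h1
  refine ⟨hS, ?_⟩
  rw [hS] at e00
  have : (c : M2) 0 0 * (S 0 0 - (cjS c S) 0 0) = 0 := by
    have : (cjS c S : SL(2, F)) 0 0 = ((cjS c S : SL(2, F)) : M2) 0 0 := rfl
    rw [this]
    linear_combination (-1 : F) * e00
  exact sub_eq_zero.1 ((mul_eq_zero.1 this).resolve_left h0)

lemma cjS_mS (c : GL (Fin 2) F) : cjS c mS = mS := by
  apply cjS_of_intertwine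
  have : ((mS : SL(2, F)) : M2) = (-1 : F) • 1 := by
    apply m2_ext <;> simp [mS_00, mS_01, mS_10, mS_11]
  rw [this, smul_mul_assoc, mul_smul_comm, one_mul, mul_one]

/-- An upper triangular matrix with regular diagonal part is conjugate to its diagonal part. -/
lemma exists_conj_diag {H : Subgroup (SL(2, F))} (hS : RStar ⊤ H) (hup : ∀ S ∈ H, S 1 0 = 0) {h : SL(2, F)}
    (hh : h ∈ H) (hμ : (h 0 0) ^ 2 ≠ 1) :
    ∃ (h0 : h 0 0 ≠ 0) (H' : Subgroup (SL(2, F))) (c : GL (Fin 2) F), RStar ⊤ H' ∧ (∀ S, S ∈ H' ↔ cjS c S ∈ H) ∧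
      (c : M2) 1 0 = 0 ∧ dS (h 0 0) h0 ∈ H' := by
  have h10 := hup h hh
  have hd := sl_det h
  rw [h10, mul_zero, sub_zero] at hd
  have h0 : h 0 0 ≠ 0 := left_ne_zero_of_mul_eq_one hd
  have h11 : h 1 1 = (h 0 0)⁻¹ := by field_simp; linear_combination hd
  have hne : (h 0 0)⁻¹ - h 0 0 ≠ 0 := by
    intro h3
    apply hμ
    field_simp at h3
    linear_combination (-1 : F) * h3
  set w := h 0 1 / ((h 0 0)⁻¹ - h 0 0) with hw
  have hdetP : ((uS w : SL(2, F)) : M2).det ≠ 0 := by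
    rw [(uS w).2]
    exact one_ne_zero
  let c : GL (Fin 2) F := glOfDet (uS w : SL(2, F)) hdetP
  have hc : (c : M2) = (uS w : SL(2, F)) := rfl
  obtain ⟨H', hS', hmem⟩ := exists_conj_sub hS c
  refine ⟨h0, H', c, hS', hmem, rfl, ?_⟩
  rw [hmem]
  have : cjS c (dS (h 0 0) h0) = h := by
    apply cjS_of_intertwine
    rw [hc]
    have hw' : w * ((h 0 0)⁻¹ - h 0 0) = h 0 1 := by
      rw [hw]
      field_simp
    apply m2_ext <;> simp only [m2_mul00, m2_mul01, m2_mul10, m2_mul11, uS_00, uS_01, uS_10, uS_11, dS_00, dS_01, dS_10, dS_11]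
    · ring
    · linear_combination (-1 : F) * hw'
    · rw [h10]; ring
    · rw [h10, h11]; ring
  rw [this]
  exact hh

/-- The binary subgroups of a Borel subgroup. -/
theorem borel_case [Fintype F] (hq : 4 ≤ Fintype.card F) (hq5 : Fintype.card F ≠ 5) {H : Subgroup (SL(2, F))}
    (hS : RStar ⊤ H) (hm : mS ∈ H) (hup : ∀ S ∈ H, S 1 0 = 0) : Out H := by
  classical
  by_cases hA : ∃ h ∈ H, (h 0 0) ^ 4 ≠ 1
  · obtain ⟨h, hh, h4⟩ := hA
    have hμ : (h 0 0) ^ 2 ≠ 1 := by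
      intro h3
      apply h4
      have : h 0 0 ^ 4 = (h 0 0 ^ 2) ^ 2 := by ring
      rw [this, h3, one_pow]
    obtain ⟨h0, H', c, hS', hmem, hc, hd⟩ := exists_conj_diag hS hup hh hμ
    apply Out.of_conj c hmem
    have hup' := conj_upper c hmem hup hc
    have hm' : mS ∈ H' := by rw [hmem, cjS_mS]; exact hm
    by_cases hunip : ∃ e : F, e ≠ 0 ∧ uS e ∈ H'
    · obtain ⟨e, he, hu⟩ := hunip
      exact (borel_C hS' (fun S hS1 => (hup' S hS1).1) h0 hd h4 he hu).elim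
    push Not at hunip
    have hdiag : ∀ S ∈ H', S 0 1 = 0 := by
      intro S hSH
      have hS10 := (hup' S hSH).1
      have hdS := sl_det S
      rw [hS10, mul_zero, sub_zero] at hdS
      have hS0 : S 0 0 ≠ 0 := left_ne_zero_of_mul_eq_one hdS
      have hS11 : S 1 1 = (S 0 0)⁻¹ := by field_simp; linear_combination hdS
      have hT : S * dS (h 0 0) h0 * S⁻¹ * (dS (h 0 0) h0)⁻¹ = uS (S 0 0 * S 0 1 * (1 - (h 0 0) ^ 2)) := by
        apply sl_ext <;>
          simp only [sl_mul00, sl_mul01, sl_mul10, sl_mul11, sl_inv00, sl_inv01, sl_inv10, sl_inv11, uS_00, uS_01, uS_10,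
            uS_11, dS_00, dS_01, dS_10, dS_11, hS10, hS11] <;> field_simp <;> ring
      have hT' : uS (S 0 0 * S 0 1 * (1 - (h 0 0) ^ 2)) ∈ H' := by
        rw [← hT]
        exact H'.mul_mem (H'.mul_mem (H'.mul_mem hSH hd) (H'.inv_mem hSH)) (H'.inv_mem hd)
      by_contra hne
      have hne1 : 1 - h 0 0 ^ 2 ≠ 0 := sub_ne_zero.2 (Ne.symm hμ)
      exact hunip _ (mul_ne_zero (mul_ne_zero hS0 hne) hne1) hT'
    have hN : NormT H' (!![1, 0; 0, 0] : M2) 1 := by
      intro S hSH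
      left
      have h1 := (hup' S hSH).1
      have h3 := hdiag S hSH
      apply m2_ext <;> simp [m2_mul00, m2_mul01, m2_mul10, m2_mul11, h1, h3]
    rcases torus_case hq hq5 hS' hm' (θ := !![1, 0; 0, 0]) (τ := 1) (by simp) (by simp) hN with h5 | h5
    · exact Or.inl h5
    · exact Or.inr (Or.inr h5)
  push Not at hA
  by_cases hB : ∃ h ∈ H, (h 0 0) ^ 2 ≠ 1
  · exfalso
    obtain ⟨h, hh, hμ⟩ := hB
    obtain ⟨h0, H', c, hS', hmem, hc, hd⟩ := exists_conj_diag hS hup hh hμ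
    have hup' := conj_upper c hmem hup hc
    have hi : (h 0 0) ^ 2 = -1 := by
      have h3 : ((h 0 0) ^ 2 - 1) * ((h 0 0) ^ 2 + 1) = 0 := by
        linear_combination hA h hh
      have := (mul_eq_zero.1 h3).resolve_left (sub_ne_zero.2 hμ)
      linear_combination this
    have h2 : (2 : F) ≠ 0 := by
      intro h2
      apply hμ
      rw [hi]
      linear_combination (-1 : F) * h2
    refine borel_frame hS' (fun S hS1 => (hup' S hS1).1) hi h2 h0 hd ?_
    intro S hSH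
    rw [(hup' S hSH).2]
    exact hA _ ((hmem S).1 hSH)
  push Not at hB
  have hform : ∀ S ∈ H, S 1 1 = S 0 0 := by
    intro S hSH
    have hd := sl_det S
    rw [hup S hSH, mul_zero, sub_zero] at hd
    have h3 := hB S hSH
    have h0 : S 0 0 ≠ 0 := left_ne_zero_of_mul_eq_one hd
    have : S 0 0 * (S 1 1 - S 0 0) = 0 := by linear_combination hd - h3
    exact sub_eq_zero.1 ((mul_eq_zero.1 this).resolve_left h0)
  by_cases h2 : (2 : F) = 0
  · have hall : ∀ S ∈ H, ∃ e, S = uS e := by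
      intro S hSH
      have h3 := hB S hSH
      have h1 : S 0 0 = 1 := by
        have : (S 0 0 - 1) ^ 2 = 0 := by linear_combination h3 - (S 0 0 - 1) * h2
        have := pow_eq_zero_iff two_ne_zero |>.1 this
        exact sub_eq_zero.1 this
      refine ⟨S 0 1, ?_⟩
      apply sl_ext
      · rw [h1]; rfl
      · rfl
      · rw [hup S hSH]; rfl
      · rw [hform S hSH, h1]; rfl
    rcases borel_even h2 hS hall with h3 | h3
    · exact Or.inl h3
    · exact Or.inr (Or.inl ⟨h2, h3⟩)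
  left
  by_contra hsc
  push Not at hsc
  obtain ⟨S, hSH, hSns⟩ := hsc
  have h01 : S 0 1 ≠ 0 := by
    intro h
    apply hSns
    exact ⟨h, hup S hSH, (hform S hSH).symm⟩
  have hue : ∃ e : F, e ≠ 0 ∧ uS e ∈ H := by
    have h3 := hB S hSH
    have h4 : (S 0 0 - 1) * (S 0 0 + 1) = 0 := by linear_combination h3
    rcases mul_eq_zero.1 h4 with h5 | h5
    · refine ⟨S 0 1, h01, ?_⟩
      have : S = uS (S 0 1) := by
        apply sl_ext
        · rw [sub_eq_zero.1 h5]; rfl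
        · rfl
        · rw [hup S hSH]; rfl
        · rw [hform S hSH, sub_eq_zero.1 h5]; rfl
      rwa [← this]
    · refine ⟨- S 0 1, neg_ne_zero.2 h01, ?_⟩
      have h6 : S 0 0 = -1 := by linear_combination h5
      have : mS * S = uS (- S 0 1) := by
        apply sl_ext
        · rw [mS_mul00, h6]; simp [uS_00]
        · rw [mS_mul01]; rfl
        · rw [mS_mul10, hup S hSH]; simp [uS_10]
        · rw [mS_mul11, hform S hSH, h6]; simp [uS_11]
      rw [← this]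
      exact H.mul_mem hm hSH
  obtain ⟨e, he, hu⟩ := hue
  have hdetP : (!![e, 0; 0, 1] : M2).det ≠ 0 := by
    rw [Matrix.det_fin_two_of]
    simpa using he
  let c : GL (Fin 2) F := glOfDet !![e, 0; 0, 1] hdetP
  have hc : (c : M2) = !![e, 0; 0, 1] := rfl
  obtain ⟨H', hS', hmem⟩ := exists_conj_sub hS c
  have hup' := conj_upper c hmem hup (by rw [hc]; rfl)
  have hu1 : uS 1 ∈ H' := by
    rw [hmem]
    have : cjS c (uS 1) = uS e := by
      apply cjS_of_intertwine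
      rw [hc]
      apply m2_ext <;> simp [m2_mul00, m2_mul01, m2_mul10, m2_mul11, uS_00, uS_01, uS_10, uS_11]
    rw [this]
    exact hu
  refine lemma_P hS' ?_ (by rw [hmem, cjS_mS]; exact hm) h2 hu1 trivial trivial trivial
  intro T hT
  refine ⟨(hup' T hT).1, ?_⟩
  have h3 := hB _ ((hmem T).1 hT)
  rw [← (hup' T hT).2] at h3
  have hd := sl_det T
  rw [(hup' T hT).1, mul_zero, sub_zero] at hd
  have h0 : T 0 0 ≠ 0 := left_ne_zero_of_mul_eq_one hd
  have : T 0 0 * (T 1 1 - T 0 0) = 0 := by linear_combination hd - h3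
  exact (sub_eq_zero.1 ((mul_eq_zero.1 this).resolve_left h0)).symm

end Cfsg.Agent.Lib.Classical.SL2.Binary
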