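import Cfsg.Agent.Lib.Classical.SL2.Binary.Mat

/-!
Subgroups of `SL₂(F)` centralising a regular element: the product of two conjugates.
-/

set_option autoImplicit false
set_option linter.unusedSectionVars false
set_option linter.unusedSimpArgs false

open scoped MatrixGroups
open Matrix

namespace Cfsg.Agent.Lib.Classical.SL2.Binary

variable {F : Type*} [Field F]

local notation "M2" => Matrix (Fin 2) (Fin 2) F

lemma conj_comm_of {k b t : SL(2, F)} (h : (b⁻¹ * k * b) * t = t * (b⁻¹ * k * b)) :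
    k * (b * t * b⁻¹) = (b * t * b⁻¹) * k := by
  have := congrArg (fun w => b * w * b⁻¹) h
  calc k * (b * t * b⁻¹) = b * (b⁻¹ * k * b * t) * b⁻¹ := by group
    _ = b * (t * (b⁻¹ * k * b)) * b⁻¹ := this
    _ = (b * t * b⁻¹) * k := by group

lemma isSc_mul_of {k y : SL(2, F)} (hk : IsSc (k : M2)) (hy : IsSc (y : M2)) : IsSc ((k * y : SL(2, F)) : M2) := by
  obtain ⟨h1, h2, h3⟩ := hk
  obtain ⟨h4, h5, h6⟩ := hy
  refine ⟨?_, ?_, ?_⟩
  · rw [sl_mul01, h1, h4]; ring
  · rw [sl_mul10, h2, h5]; ring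
  · rw [sl_mul00, sl_mul11, h1, h2, h3, h6]; ring

/-- The core of the cyclic case. -/
theorem cyc_core {H : Subgroup (SL(2, F))} (hS : RStar ⊤ H) {t z y b c : SL(2, F)} (ht : t ∈ H)
    (hcomm : ∀ S ∈ H, S * t = t * S) (htns : ¬ IsSc (t : M2)) (hz : z = b * t * b⁻¹)
    (hy : y = c * t * c⁻¹) (hzy : t = z * y) (hnc : t * z ≠ z * t) : False := by
  obtain ⟨k, hk, y', hy', hty⟩ := hS {1, b} c t (fun _ _ => trivial) trivial trivial (by
    rintro a (rfl | rfl)
    · exact ⟨t, mem_Cj_one.2 ht, 1, Subgroup.one_mem _, by simp⟩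
    · exact ⟨z, hz ▸ conj_mem_Cj _ ht, y, hy ▸ conj_mem_Cj _ ht, hzy⟩)
  have hkH : k ∈ H := mem_Cj_one.1 (hk 1 (by simp))
  have hkb : b⁻¹ * k * b ∈ H := mem_Cj.1 (hk b (by simp))
  have hy'H : y' ∈ H := by
    have : y' = k⁻¹ * t := by rw [hty]; group
    rw [this]
    exact H.mul_mem (H.inv_mem hkH) ht
  have hy'c : c⁻¹ * y' * c ∈ H := mem_Cj.1 hy'
  have h1 : k * t = t * k := hcomm k hkH
  have h2 : k * z = z * k := by
    rw [hz]
    exact conj_comm_of (hcomm _ hkb)
  have h3 : y' * t = t * y' := hcomm y' hy'H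
  have h4 : y' * y = y * y' := by
    rw [hy]
    exact conj_comm_of (hcomm _ hy'c)
  have hnc' : t * y ≠ y * t := by
    intro h
    apply hnc
    have h5 : z * y = y * z := by
      rw [hzy] at h
      have : z * y * y = y * z * y := by rw [h]; group
      exact mul_right_cancel this
    rw [hzy, mul_assoc, h5]
  have hk1 : IsSc (k : M2) := isSc_of_comm htns (congrArg Subtype.val h1) (congrArg Subtype.val h2)
    (fun h => hnc (Subtype.ext h))
  have hk2 : IsSc (y' : M2) := isSc_of_comm htns (congrArg Subtype.val h3) (congrArg Subtype.val h4)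
    (fun h => hnc' (Subtype.ext h))
  apply htns
  rw [hty]
  exact isSc_mul_of hk1 hk2

/-- The companion element of `SL₂`. -/
def compS (τ : F) : SL(2, F) := mk2 0 (-1) 1 τ (by ring)

lemma compS_not_sc (τ : F) : ¬ IsSc ((compS τ : SL(2, F)) : M2) := by
  rintro ⟨-, h, -⟩
  have h' : (1 : F) = 0 := h
  exact one_ne_zero h'

lemma not_sc_of_tr {S : SL(2, F)} (h : (S 0 0 + S 1 1) ^ 2 ≠ 4) : ¬ IsSc (S : M2) := by
  rintro ⟨h1, h2, h3⟩
  apply h
  have hd := sl_det S
  rw [h1, h3] at hd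
  rw [h3]
  linear_combination 4 * hd

section Fin

variable [Fintype F]

/-- The product of two conjugates of a regular companion element, as a conic. -/
lemma exists_conic {τ : F} (hτ : τ ^ 2 ≠ 4) (hτ1 : τ ≠ -1) :
    ∃ P Q R : F, (P * (τ - P) - Q * R = 1) ∧ R = τ + Q - P * τ ∧
      ¬ (2 * P = τ * (1 + Q) ∧ 2 * Q = τ * P - τ) := by
  have h2 : 2 + τ ≠ 0 := by
    intro h
    apply hτ
    have : τ = -2 := by linear_combination h
    rw [this]; norm_num
  have h3 : τ - 2 ≠ 0 := by
    intro h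
    apply hτ
    have : τ = 2 := by linear_combination h
    rw [this]; norm_num
  have h4 : τ + 1 ≠ 0 := fun h => hτ1 (by linear_combination h)
  have hτ' : (-τ) ^ 2 ≠ 4 := by rwa [neg_sq]
  obtain ⟨X, Y, hXY⟩ := form_universal hτ' ((τ - 2) * (τ + 1) / (2 + τ))
  set P₀ := τ / (2 + τ) with hP₀
  have hP₀' : P₀ * (2 + τ) = τ := by rw [hP₀]; field_simp
  have hκ : (τ - 2) * (τ + 1) / (2 + τ) = P₀ * τ - 1 := by
    rw [hP₀]
    field_simp
    ring
  rw [hκ] at hXY
  refine ⟨P₀ + X, - P₀ + Y, τ + (- P₀ + Y) - (P₀ + X) * τ, ?_, rfl, ?_⟩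
  · linear_combination (-1 : F) * hXY + (-X + Y - P₀) * hP₀'
  · rintro ⟨h5, h6⟩
    have h7 : (τ - 2) * (X + Y) = 0 := by linear_combination (-1 : F) * h5 - h6
    have h8 : X + Y = 0 := (mul_eq_zero.1 h7).resolve_left h3
    have h9 : Y = - X := by linear_combination h8
    subst h9
    have h10 : (2 + τ) * X = 0 := by linear_combination h5 - hP₀'
    have h11 : X = 0 := (mul_eq_zero.1 h10).resolve_left h2
    subst h11
    have h12 : P₀ * τ = 1 := by linear_combination (-1 : F) * hXY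
    have h13 : (τ - 2) * (τ + 1) = 0 := by linear_combination τ * hP₀' * (-1) + (2 + τ) * h12 
    rcases mul_eq_zero.1 h13 with h | h
    · exact h3 h
    · exact h4 h

/-- A conjugate of `H` contains the companion form of a regular element of `H`. -/
lemma reduce_comp {H : Subgroup (SL(2, F))} (hS : RStar ⊤ H) {t : SL(2, F)} (ht : t ∈ H)
    (hcomm : ∀ S ∈ H, S * t = t * S) (htns : ¬ IsSc (t : M2)) :
    ∃ (H' : Subgroup (SL(2, F))) (c : GL (Fin 2) F), RStar ⊤ H' ∧ compS (t 0 0 + t 1 1) ∈ H' ∧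
      (∀ S ∈ H', S * compS (t 0 0 + t 1 1) = compS (t 0 0 + t 1 1) * S) ∧
      (∀ S, S ∈ H' ↔ cjS c S ∈ H) := by
  obtain ⟨P, hP, hPt⟩ := exists_companion htns
  rw [sl_det t] at hPt
  set τ := t 0 0 + t 1 1 with hτ
  let c : GL (Fin 2) F := glOfDet P hP
  let σ : SL(2, F) ≃* SL(2, F) := (cjS c).symm
  have hσ : ∀ S, S ∈ H.map σ.toMonoidHom ↔ cjS c S ∈ H := by
    intro S
    constructor
    · rintro ⟨y, hy, rfl⟩
      have : cjS c (σ y) = y := (cjS c).apply_symm_apply y
      show cjS c (σ y) ∈ H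
      rwa [this]
    · intro h
      exact ⟨_, h, (cjS c).symm_apply_apply S⟩
  have hct : cjS c (compS τ) = t := by
    apply Subtype.ext
    rw [cjS_coe]
    have h1 : (c : M2) = P := rfl
    have h2 : ((compS τ : SL(2, F)) : M2) = compM τ 1 := by
      apply m2_ext <;> simp [compS, compM]
    rw [h2, h1, ← hPt, mul_assoc, ← h1, gl_mul_inv, mul_one]
  have hS' : RStar ⊤ (H.map σ.toMonoidHom) := by
    have := RStar.map_equiv σ hS
    rwa [Subgroup.map_top_of_surjective _ σ.surjective] at this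
  refine ⟨H.map σ.toMonoidHom, c, hS', ?_, ?_, hσ⟩
  · rw [hσ, hct]
    exact ht
  · intro S hS1
    apply (cjS c).injective
    rw [map_mul, map_mul, hct]
    exact hcomm _ ((hσ S).1 hS1)

/-- The cyclic case, in companion form. -/
theorem cyc_comp {H : Subgroup (SL(2, F))} (hS : RStar ⊤ H) {τ : F} (hτ : τ ^ 2 ≠ 4) (hτ1 : τ ≠ -1)
    (ht : compS τ ∈ H) (hcomm : ∀ S ∈ H, S * compS τ = compS τ * S) : False := by
  obtain ⟨P, Q, R, hdet, hR, hnc⟩ := exists_conic hτ hτ1
  let z : SL(2, F) := mk2 P Q R (τ - P) hdet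
  let t : SL(2, F) := compS τ
  let y : SL(2, F) := z⁻¹ * t
  have t00 : t 0 0 = 0 := rfl
  have t01 : t 0 1 = -1 := rfl
  have t10 : t 1 0 = 1 := rfl
  have t11 : t 1 1 = τ := rfl
  have z00 : z 0 0 = P := rfl
  have z01 : z 0 1 = Q := rfl
  have z10 : z 1 0 = R := rfl
  have z11 : z 1 1 = τ - P := rfl
  have trt : t 0 0 + t 1 1 = τ := by rw [t00, t11, zero_add]
  have trz : z 0 0 + z 1 1 = τ := by rw [z00, z11]; ring
  have try' : y 0 0 + y 1 1 = τ := by
    show (z⁻¹ * t) 0 0 + (z⁻¹ * t) 1 1 = τ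
    rw [sl_mul00, sl_mul11, sl_inv00, sl_inv01, sl_inv10, sl_inv11, t00, t01, t10, t11, z00, z01, z10,
      z11, hR]
    ring
  have hzns : ¬ IsSc (z : M2) := not_sc_of_tr (by rw [trz]; exact hτ)
  have hyns : ¬ IsSc (y : M2) := not_sc_of_tr (by rw [try']; exact hτ)
  have htns : ¬ IsSc (t : M2) := compS_not_sc τ
  obtain ⟨b, hb⟩ := exists_conj_of_trace htns hzns (trz.trans trt.symm) (by rw [trt]; exact hτ)
  obtain ⟨c, hc⟩ := exists_conj_of_trace htns hyns (try'.trans trt.symm) (by rw [trt]; exact hτ)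
  refine cyc_core hS ht hcomm htns hb hc (by show t = z * (z⁻¹ * t); group) ?_
  intro h
  have e00 := congrFun (congrFun (congrArg Subtype.val h) 0) 0
  have e01 := congrFun (congrFun (congrArg Subtype.val h) 0) 1
  change (t * z : SL(2, F)) 0 0 = (z * t : SL(2, F)) 0 0 at e00
  change (t * z : SL(2, F)) 0 1 = (z * t : SL(2, F)) 0 1 at e01
  rw [sl_mul00, sl_mul00, t00, t01, t10, z00, z01, z10] at e00
  rw [sl_mul01, sl_mul01, t00, t01, t11, z00, z01, z11] at e01
  apply hnc
  constructor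
  · linear_combination e01
  · rw [hR] at e00
    linear_combination (-1 : F) * e00

/-- The cyclic case. -/
theorem cyc_case {H : Subgroup (SL(2, F))} (hS : RStar ⊤ H) {t : SL(2, F)} (ht : t ∈ H)
    (hcomm : ∀ S ∈ H, S * t = t * S) (htns : ¬ IsSc (t : M2)) (hτ : (t 0 0 + t 1 1) ^ 2 ≠ 4)
    (hτ1 : t 0 0 + t 1 1 ≠ -1) : False := by
  obtain ⟨H', c, hS', h1, h2, -⟩ := reduce_comp hS ht hcomm htns
  exact cyc_comp hS' hτ hτ1 h1 h2

/-- The element of order three when the cube roots of unity are in the field of characteristic two. -/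
theorem cyc_split {H : Subgroup (SL(2, F))} (hS : RStar ⊤ H) (h2 : (2 : F) = 0) {ω : F}
    (hω : ω ^ 2 + ω + 1 = 0) {t : SL(2, F)} (ht : t ∈ H)
    (hcomm : ∀ S ∈ H, S * t = t * S) (htns : ¬ IsSc (t : M2)) (htr : t 0 0 + t 1 1 = 1) : False := by
  obtain ⟨H', c, hS', h1, h3, -⟩ := reduce_comp hS ht hcomm htns
  rw [htr] at h1 h3
  have h1F : (1 : F) ^ 2 ≠ 4 := by
    have : (4 : F) = 0 := by linear_combination 2 * h2
    rw [this]
    simp
  have hω3 : ω * ω * ω = 1 := by linear_combination (ω - 1) * hω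
  have hω0 : ω ≠ 0 := by
    rintro rfl
    simp at hω
  let z : SL(2, F) := mk2 (ω ^ 2) 0 ω ω (by linear_combination hω3)
  let t' : SL(2, F) := compS 1
  let y : SL(2, F) := z⁻¹ * t'
  have t00 : t' 0 0 = 0 := rfl
  have t01 : t' 0 1 = -1 := rfl
  have t10 : t' 1 0 = 1 := rfl
  have t11 : t' 1 1 = 1 := rfl
  have z00 : z 0 0 = ω ^ 2 := rfl
  have z01 : z 0 1 = 0 := rfl
  have z10 : z 1 0 = ω := rfl
  have z11 : z 1 1 = ω := rfl
  have trt : t' 0 0 + t' 1 1 = 1 := by rw [t00, t11, zero_add]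
  have trz : z 0 0 + z 1 1 = 1 := by rw [z00, z11]; linear_combination hω - h2
  have try' : y 0 0 + y 1 1 = 1 := by
    show (z⁻¹ * t') 0 0 + (z⁻¹ * t') 1 1 = 1
    rw [sl_mul00, sl_mul11, sl_inv00, sl_inv01, sl_inv10, sl_inv11, t00, t01, t10, t11, z00, z01, z10,
      z11]
    linear_combination hω - h2
  have hzns : ¬ IsSc (z : M2) := not_sc_of_tr (by rw [trz]; exact h1F)
  have hyns : ¬ IsSc (y : M2) := not_sc_of_tr (by rw [try']; exact h1F)
  have htns' : ¬ IsSc (t' : M2) := compS_not_sc 1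
  obtain ⟨b, hb⟩ := exists_conj_of_trace htns' hzns (trz.trans trt.symm) (by rw [trt]; exact h1F)
  obtain ⟨c', hc⟩ := exists_conj_of_trace htns' hyns (try'.trans trt.symm) (by rw [trt]; exact h1F)
  refine cyc_core hS' h1 h3 htns' hb hc (by show t' = z * (z⁻¹ * t'); group) ?_
  intro h
  have e00 := congrFun (congrFun (congrArg Subtype.val h) 0) 0
  change (t' * z : SL(2, F)) 0 0 = (z * t' : SL(2, F)) 0 0 at e00
  rw [sl_mul00, sl_mul00, t00, t01, t10, z00, z01, z10] at e00
  apply hω0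
  linear_combination (-1 : F) * e00

end Fin

/-- In characteristic two a group in the centraliser of `t`, all of whose non-trivial elements have
trace one, has order three. -/
theorem cyc_three {H : Subgroup (SL(2, F))} (h2 : (2 : F) = 0) {t : SL(2, F)} (ht : t ∈ H)
    (hcomm : ∀ S ∈ H, S * t = t * S) (htns : ¬ IsSc (t : M2))
    (htr : ∀ S ∈ H, ¬ IsSc (S : M2) → S 0 0 + S 1 1 = 1) : Nat.card H = 3 := by
  have htt := htr t ht htns
  have hdt := sl_det t
  have hneg : ∀ x : F, - x = x := fun x => by linear_combination (-x) * h2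
  have hone : ∀ x : F, x ^ 2 = 1 → x = 1 := by
    intro x hx
    have h3 : (x - 1) ^ 2 = 0 := by linear_combination hx + (1 - x) * h2
    have h4 := pow_eq_zero_iff (two_ne_zero) |>.1 h3
    linear_combination h4
  have hsc : ∀ S : SL(2, F), IsSc (S : M2) → S = 1 := by
    rintro S ⟨h01, h10, h00⟩
    have hd := sl_det S
    rw [h01, ← h00] at hd
    have h5 : S 0 0 = 1 := hone _ (by linear_combination hd)
    apply sl_ext
    · rw [h5]; rfl
    · rw [h01]; rfl
    · rw [h10]; rfl
    · rw [← h00, h5]; rfl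
  have h1' : t 1 1 = 1 - t 0 0 := by linear_combination htt
  have e00 : (t * t : SL(2, F)) 0 0 = t 0 0 - 1 := by
    rw [sl_mul00]
    rw [h1'] at hdt
    linear_combination (-1 : F) * hdt
  have e01 : (t * t : SL(2, F)) 0 1 = t 0 1 := by
    rw [sl_mul01]
    linear_combination (t 0 1) * htt
  have e10 : (t * t : SL(2, F)) 1 0 = t 1 0 := by
    rw [sl_mul10]
    linear_combination (t 1 0) * htt
  have e11 : (t * t : SL(2, F)) 1 1 = t 1 1 - 1 := by
    rw [sl_mul11]
    linear_combination (t 1 1) * htt - hdt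
  have hmem : ∀ S ∈ H, S = 1 ∨ S = t ∨ S = t * t := by
    intro S hS
    by_cases hSc : IsSc (S : M2)
    · exact Or.inl (hsc S hSc)
    · right
      obtain ⟨x, y, h00, h01, h10, h11⟩ := comm_poly htns (congrArg Subtype.val (hcomm S hS))
      have htS := htr S hS hSc
      have hdS := sl_det S
      have hy : y = 1 := by
        rw [h00, h11] at htS
        linear_combination htS - y * htt - x * h2
      rw [hy] at h00 h01 h10 h11
      rw [h00, h01, h10, h11] at hdS
      have hx : x * (x + 1) = 0 := by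
        linear_combination hdS - hdt - x * htt
      rcases mul_eq_zero.1 hx with hx0 | hx0
      · left
        subst hx0
        apply sl_ext
        · rw [h00]; ring
        · rw [h01]; ring
        · rw [h10]; ring
        · rw [h11]; ring
      · right
        have hx1 : x = -1 := by linear_combination hx0
        subst hx1
        apply sl_ext
        · rw [h00, e00]; ring
        · rw [h01, e01]; ring
        · rw [h10, e10]; ring
        · rw [h11, e11]; ring
  have hne1 : (1 : SL(2, F)) ≠ t := by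
    intro h
    apply htns
    rw [← h]
    exact ⟨rfl, rfl, rfl⟩
  have hne2 : (1 : SL(2, F)) ≠ t * t := by
    intro h
    apply htns
    have h01 : t 0 1 = 0 := by rw [← e01, ← h]; rfl
    have h10 : t 1 0 = 0 := by rw [← e10, ← h]; rfl
    have h00 : t 0 0 - 1 = 1 := by rw [← e00, ← h]; rfl
    have h11 : t 1 1 - 1 = 1 := by rw [← e11, ← h]; rfl
    exact ⟨h01, h10, by linear_combination h00 - h11⟩
  have hne3 : t ≠ t * t := by
    intro h
    apply hne1
    have : t * 1 = t * t := by rw [mul_one]; exact h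
    exact mul_left_cancel this
  rw [show Nat.card H = Set.ncard (H : Set (SL(2, F))) from Nat.card_coe_set_eq _, Set.ncard_eq_three]
  refine ⟨1, t, t * t, hne1, hne2, hne3, ?_⟩
  ext S
  constructor
  · intro hS
    exact hmem S hS
  · rintro (rfl | rfl | rfl)
    · exact H.one_mem
    · exact ht
    · exact H.mul_mem ht ht

end Cfsg.Agent.Lib.Classical.SL2.Binary
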