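import Cfsg.Agent.Lib.Classical.SL2.Binary.Frame

/-!
Subgroups of `SL₂(F)` normalising a torus.
-/

set_option autoImplicit false
set_option linter.unusedSectionVars false
set_option linter.unusedSimpArgs false

open scoped MatrixGroups Quaternion
open Matrix

namespace Cfsg.Agent.Lib.Classical.SL2.Binary

open Cfsg.Agent.Lib.Classical.SL2.QuatStd Cfsg.Agent.Lib.Classical.SL2.Klein4

variable {F : Type*} [Field F]

local notation "M2" => Matrix (Fin 2) (Fin 2) F

/-- A conjugate of a subgroup under `GL₂`. -/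
lemma exists_conj_sub {H : Subgroup (SL(2, F))} (hS : RStar ⊤ H) (c : GL (Fin 2) F) :
    ∃ H' : Subgroup (SL(2, F)), RStar ⊤ H' ∧ ∀ S, S ∈ H' ↔ cjS c S ∈ H := by
  let σ : SL(2, F) ≃* SL(2, F) := (cjS c).symm
  have hσ : ∀ S, S ∈ H.map σ.toMonoidHom ↔ cjS c S ∈ H := by
    intro S
    constructor
    · rintro ⟨y, hy, rfl⟩
      have : cjS c (σ y) = y := (cjS c).apply_symm_apply y
      show cjS c (σ y) ∈ H
      rwa [this]
    · intro h
      exact ⟨_, h, (cjS c).symm_apply_apply S⟩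
  have hS' : RStar ⊤ (H.map σ.toMonoidHom) := by
    have := RStar.map_equiv σ hS
    rwa [Subgroup.map_top_of_surjective _ σ.surjective] at this
  exact ⟨_, hS', hσ⟩

lemma swap_conj {R : Type*} [Monoid R] {c c' S B D : R} (h1 : c' * c = 1) (h2 : c * c' = 1) :
    c * S * c' * B = D * (c * S * c') ↔ S * (c' * B * c) = (c' * D * c) * S := by
  have e1 : ∀ X, c' * (c * X) = X := fun X => by rw [← mul_assoc, h1, one_mul]
  have e2 : ∀ X, c * (c' * X) = X := fun X => by rw [← mul_assoc, h2, one_mul]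
  constructor
  · intro h
    have := congrArg (fun x => c' * x * c) h
    simpa only [mul_assoc, e1, h1, mul_one] using this
  · intro h
    have := congrArg (fun x => c * x * c') h
    simpa only [mul_assoc, e2, h2, mul_one] using this

/-- Conjugated matrices. -/
noncomputable def conjM (c : GL (Fin 2) F) (A : M2) : M2 := ((c⁻¹ : GL (Fin 2) F) : M2) * A * (c : M2)

lemma cjS_eq_iff (c : GL (Fin 2) F) (S : SL(2, F)) (B D : M2) :
    ((cjS c S : SL(2, F)) : M2) * B = D * ((cjS c S : SL(2, F)) : M2) ↔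
      (S : M2) * conjM c B = conjM c D * (S : M2) := by
  rw [cjS_coe, conjM, conjM]
  exact swap_conj (gl_inv_mul c) (gl_mul_inv c)

lemma conjM_neg (c : GL (Fin 2) F) (A : M2) : conjM c (-A) = - conjM c A := by
  simp [conjM, mul_neg, neg_mul]

lemma conjM_sub_smul (c : GL (Fin 2) F) (τ : F) (A : M2) :
    conjM c (τ • 1 - A) = τ • 1 - conjM c A := by
  rw [conjM, conjM, mul_sub, sub_mul]
  congr 1
  rw [mul_smul_comm, mul_one, smul_mul_assoc, gl_inv_mul]

lemma conjM_trace (c : GL (Fin 2) F) (A : M2) :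
    conjM c A 0 0 + conjM c A 1 1 = A 0 0 + A 1 1 := by
  have h := Matrix.trace_mul_comm (((c⁻¹ : GL (Fin 2) F) : M2) * A) (c : M2)
  rw [Matrix.trace_fin_two, Matrix.trace_fin_two] at h
  rw [conjM, h, ← mul_assoc, gl_mul_inv, one_mul]

lemma conjM_det (c : GL (Fin 2) F) (A : M2) : (conjM c A).det = A.det := by
  rw [conjM, Matrix.det_mul, Matrix.det_mul, mul_comm _ A.det, mul_assoc, ← Matrix.det_mul, gl_inv_mul]
  simp

/-- The matrix `c d; d -c`. -/
def Vm (c d : F) : M2 := !![c, d; d, -c]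

section Frame

variable [Fintype F]

/-- The existence of a frame in general position to a given non-singular vector. -/
lemma exists_frame (h2 : (2 : F) ≠ 0) (hq : 7 ≤ Fintype.card F) {c d : F} (hcd : c ^ 2 + d ^ 2 ≠ 0) :
    ∃ s : AB F, c * s.a + d * s.b ≠ 0 ∧ d * s.a - c * s.b ≠ 0 := by
  obtain ⟨p, hp⟩ := CharP.exists F
  haveI : Fact p.Prime := ⟨CharP.char_is_prime F p⟩
  have hp2 : p ≠ 2 := by
    rintro rfl
    apply h2
    exact_mod_cast CharP.cast_eq_zero F 2
  obtain ⟨s₀, -, -⟩ := exists_AB (F := F) p hp2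
  set a₀ := s₀.a
  set b₀ := s₀.b
  have h0 : a₀ ^ 2 + b₀ ^ 2 = -1 := s₀.hab
  set A := c * a₀ + d * b₀ with hA
  set B := d * a₀ - c * b₀ with hB
  have hAB : A ^ 2 + B ^ 2 = - (c ^ 2 + d ^ 2) := by
    rw [hA, hB]
    linear_combination (c ^ 2 + d ^ 2) * h0
  have hAB0 : ¬ (A = 0 ∧ B = 0) := by
    rintro ⟨h3, h4⟩
    rw [h3, h4] at hAB
    apply hcd
    linear_combination hAB
  let P₁ : Polynomial F := 1 + Polynomial.X ^ 2
  let P₂ : Polynomial F := Polynomial.C A * (1 - Polynomial.X ^ 2) + Polynomial.C (2 * B) * Polynomial.X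
  let P₃ : Polynomial F := Polynomial.C B * (1 - Polynomial.X ^ 2) - Polynomial.C (2 * A) * Polynomial.X
  have hP₁ : P₁ ≠ 0 := by
    intro h
    have := congrArg (fun f => Polynomial.eval 0 f) h
    simp [P₁] at this
  have hP₂ : P₂ ≠ 0 := by
    intro h
    have e0 := congrArg (fun f => Polynomial.eval 0 f) h
    have e1 := congrArg (fun f => Polynomial.eval 1 f) h
    simp [P₂] at e0 e1
    exact hAB0 ⟨e0, e1.resolve_left h2⟩
  have hP₃ : P₃ ≠ 0 := by
    intro h
    have e0 := congrArg (fun f => Polynomial.eval 0 f) h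
    have e1 := congrArg (fun f => Polynomial.eval 1 f) h
    simp [P₃] at e0 e1
    exact hAB0 ⟨e1.resolve_left h2, e0⟩
  have hdeg : (P₁ * P₂ * P₃).natDegree < Cardinal.mk F := by
    have h1 : (P₁ * P₂ * P₃).natDegree ≤ 6 := by
      simp only [P₁, P₂, P₃]
      compute_degree
    rw [Cardinal.mk_fintype]
    exact_mod_cast lt_of_le_of_lt h1 (by omega)
  obtain ⟨t, ht⟩ := Polynomial.exists_eval_ne_zero_of_natDegree_lt_card (P₁ * P₂ * P₃)
    (mul_ne_zero (mul_ne_zero hP₁ hP₂) hP₃) hdeg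
  simp only [Polynomial.eval_mul] at ht
  have h1t : Polynomial.eval t P₁ ≠ 0 := fun h => ht (by rw [h]; ring)
  have h2t : Polynomial.eval t P₂ ≠ 0 := fun h => ht (by rw [h]; ring)
  have h3t : Polynomial.eval t P₃ ≠ 0 := fun h => ht (by rw [h]; ring)
  simp [P₁, P₂, P₃] at h1t h2t h3t
  set u := (1 - t ^ 2) / (1 + t ^ 2) with hu
  set w := 2 * t / (1 + t ^ 2) with hw
  have huw : u ^ 2 + w ^ 2 = 1 := by
    rw [hu, hw]
    field_simp
    ring
  refine ⟨⟨a₀ * u - b₀ * w, a₀ * w + b₀ * u, ?_, h2⟩, ?_, ?_⟩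
  · linear_combination (u ^ 2 + w ^ 2) * h0 - huw
  · show c * (a₀ * u - b₀ * w) + d * (a₀ * w + b₀ * u) ≠ 0
    have : c * (a₀ * u - b₀ * w) + d * (a₀ * w + b₀ * u) = (A * (1 - t ^ 2) + 2 * B * t) / (1 + t ^ 2) := by
      rw [hu, hw, hA, hB]
      field_simp
      ring
    rw [this]
    exact div_ne_zero h2t h1t
  · show d * (a₀ * u - b₀ * w) - c * (a₀ * w + b₀ * u) ≠ 0
    have : d * (a₀ * u - b₀ * w) - c * (a₀ * w + b₀ * u) = (B * (1 - t ^ 2) - 2 * A * t) / (1 + t ^ 2) := by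
      rw [hu, hw, hA, hB]
      field_simp
      ring
    rw [this]
    exact div_ne_zero h3t h1t

/-- The dihedral case, odd characteristic, standard form. -/
theorem dih_odd_std (h2 : (2 : F) ≠ 0) (hq : 7 ≤ Fintype.card F) {H : Subgroup (SL(2, F))}
    (hS : RStar ⊤ H) (hm : mS ∈ H) {c d : F} (hcd : c ^ 2 + d ^ 2 ≠ 0)
    (hN : ∀ S ∈ H, (S : M2) * Vm c d = Vm c d * (S : M2) ∨ (S : M2) * Vm c d = -(Vm c d * (S : M2)))
    (hX : compS 0 ∈ H) : False := by
  obtain ⟨s, h1, h3⟩ := exists_frame h2 hq hcd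
  set β := -(c * s.a + d * s.b) with hβ
  set γ := d * s.a - c * s.b with hγ
  have hab := s.hab
  have hpsi : psi s (qq 0 0 β γ) = Vm c d := by
    apply m2_ext
    · rw [psi_00]
      show 0 + β * s.a + γ * s.b = c
      rw [hβ, hγ]
      linear_combination (-c) * hab
    · rw [psi_01]
      show 0 + β * s.b - γ * s.a = d
      rw [hβ, hγ]
      linear_combination (-d) * hab
    · rw [psi_10]
      show - 0 + β * s.b - γ * s.a = d
      rw [hβ, hγ]
      linear_combination (-d) * hab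
    · rw [psi_11]
      show 0 - β * s.a - γ * s.b = - c
      rw [hβ, hγ]
      linear_combination (c) * hab
  have hi : sq s qI (by rw [qI, normSq_qq]; norm_num) ∈ H := by
    have : sq s qI (by rw [qI, normSq_qq]; norm_num) = mS * compS 0 := by
      apply Subtype.ext
      rw [sq_coe, psi_qI]
      apply m2_ext <;> simp [Xm, mS, compS, sl_mul00, sl_mul01, sl_mul10, sl_mul11]
    rw [this]
    exact H.mul_mem hm hX
  refine dih_quat s hS hi (β := β) (γ := γ) (neg_ne_zero.2 h1) h3 ?_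
  intro q hq' hqH
  rcases hN _ hqH with h | h
  · left
    apply psi_injective s
    rw [map_mul, map_mul, hpsi]
    exact h
  · right
    apply psi_injective s
    rw [map_neg, map_mul, map_mul, hpsi]
    exact h

/-- The dihedral case, odd characteristic. -/
theorem dih_odd (h2 : (2 : F) ≠ 0) (hq : 7 ≤ Fintype.card F) {H : Subgroup (SL(2, F))}
    (hS : RStar ⊤ H) (hm : mS ∈ H) {v : M2} (htr : v 0 0 + v 1 1 = 0)
    (hv2 : v 0 0 ^ 2 + v 0 1 * v 1 0 ≠ 0)
    (hN : ∀ S ∈ H, (S : M2) * v = v * (S : M2) ∨ (S : M2) * v = -(v * (S : M2)))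
    {s : SL(2, F)} (hs : s ∈ H) (hodd : (s : M2) * v = -(v * (s : M2))) : False := by
  -- `s` has trace zero
  have e00 := congrFun (congrFun hodd 0) 0
  have e01 := congrFun (congrFun hodd 0) 1
  have e10 := congrFun (congrFun hodd 1) 0
  have e11 := congrFun (congrFun hodd 1) 1
  simp only [Matrix.neg_apply, m2_mul00, m2_mul01, m2_mul10, m2_mul11] at e00 e01 e10 e11
  have hv11 : v 1 1 = - v 0 0 := by linear_combination htr
  rw [hv11] at e01 e10 e11
  have hd := sl_det s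
  have hts : s 0 0 + s 1 1 = 0 := by
    by_contra hne
    have h5 : v 0 1 = 0 := by
      have : v 0 1 * (s 0 0 + s 1 1) = 0 := by linear_combination e01
      exact (mul_eq_zero.1 this).resolve_right hne
    have h6 : v 1 0 = 0 := by
      have : v 1 0 * (s 0 0 + s 1 1) = 0 := by linear_combination e10
      exact (mul_eq_zero.1 this).resolve_right hne
    have h7 : v 0 0 = 0 := by
      have : 2 * (v 0 0 * (s 0 0 + s 1 1)) = 0 := by linear_combination e00 - e11
      exact (mul_eq_zero.1 ((mul_eq_zero.1 this).resolve_left h2)).resolve_right hne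
    apply hv2
    rw [h5, h7]
    ring
  have hns : ¬ IsSc (s : M2) := by
    rintro ⟨h5, h6, h7⟩
    have h8 : s 0 0 = 0 := by
      have : 2 * s 0 0 = 0 := by rw [← hts, ← h7]; ring
      exact (mul_eq_zero.1 this).resolve_left h2
    rw [h5, h8] at hd
    simp at hd
  obtain ⟨P, hP, hsP⟩ := exists_companion hns
  rw [hd, hts] at hsP
  let c : GL (Fin 2) F := glOfDet P hP
  obtain ⟨H', hS', hmem⟩ := exists_conj_sub hS c
  have hcs : cjS c (compS 0) = s := by
    apply Subtype.ext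
    rw [cjS_coe]
    have h1 : (c : M2) = P := rfl
    have h3 : ((compS 0 : SL(2, F)) : M2) = compM 0 1 := by
      apply m2_ext <;> simp [compS, compM]
    rw [h3, h1, ← hsP, mul_assoc, ← h1, gl_mul_inv, mul_one]
  have hcm : cjS c mS = mS := by
    apply Subtype.ext
    rw [cjS_coe]
    have h1 : ((mS : SL(2, F)) : M2) = -1 := by
      apply m2_ext <;> simp [mS]
    rw [h1, mul_neg, neg_mul, mul_one, gl_mul_inv]
  have hm' : mS ∈ H' := by
    rw [hmem, hcm]
    exact hm
  have hX' : compS 0 ∈ H' := by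
    rw [hmem, hcs]
    exact hs
  set v' := conjM c v with hv'
  have hN' : ∀ S ∈ H', (S : M2) * v' = v' * (S : M2) ∨ (S : M2) * v' = -(v' * (S : M2)) := by
    intro S hS1
    rcases hN _ ((hmem S).1 hS1) with h | h
    · left
      exact (cjS_eq_iff c S v v).1 h
    · right
      have h' := (cjS_eq_iff c S v (-v)).1 (by rw [h, neg_mul])
      rw [conjM_neg, neg_mul] at h'
      exact h'
  have hodd' : ((compS 0 : SL(2, F)) : M2) * v' = -(v' * ((compS 0 : SL(2, F)) : M2)) := by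
    have h' := (cjS_eq_iff c (compS 0) v (-v)).1 (by rw [hcs, hodd, neg_mul])
    rw [conjM_neg, neg_mul] at h'
    exact h'
  have f00 := congrFun (congrFun hodd' 0) 0
  have f01 := congrFun (congrFun hodd' 0) 1
  simp only [Matrix.neg_apply, m2_mul00, m2_mul01] at f00 f01
  have c00 : ((compS 0 : SL(2, F)) : M2) 0 0 = 0 := rfl
  have c01 : ((compS 0 : SL(2, F)) : M2) 0 1 = -1 := rfl
  have c10 : ((compS 0 : SL(2, F)) : M2) 1 0 = 1 := rfl
  have c11 : ((compS 0 : SL(2, F)) : M2) 1 1 = 0 := rfl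
  rw [c00, c01, c10] at f00
  rw [c00, c01, c11] at f01
  have hv10 : v' 1 0 = v' 0 1 := by linear_combination -f00
  have hv11' : v' 1 1 = - v' 0 0 := by linear_combination -f01
  have hVm : v' = Vm (v' 0 0) (v' 0 1) := by
    apply m2_ext <;> simp [Vm, hv10, hv11']
  have hdet : (v' 0 0) ^ 2 + (v' 0 1) ^ 2 ≠ 0 := by
    have h1 : v'.det = v.det := conjM_det c v
    rw [Matrix.det_fin_two, Matrix.det_fin_two, hv10, hv11', hv11] at h1
    intro h0
    apply hv2
    linear_combination h1 + h0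
  rw [hVm] at hN'
  exact dih_odd_std h2 hq hS' hm' hdet hN' hX'

end Frame

section Even

lemma dS_conj_inv (d : F) (hd : d ≠ 0) (S : SL(2, F)) :
    ((dS d hd)⁻¹ * S * dS d hd : SL(2, F)) 0 0 = S 0 0 ∧
    ((dS d hd)⁻¹ * S * dS d hd : SL(2, F)) 0 1 = S 0 1 / d ^ 2 ∧
    ((dS d hd)⁻¹ * S * dS d hd : SL(2, F)) 1 0 = S 1 0 * d ^ 2 ∧
    ((dS d hd)⁻¹ * S * dS d hd : SL(2, F)) 1 1 = S 1 1 := by
  have e00 : (dS d hd : SL(2, F)) 0 0 = d := rfl
  have e01 : (dS d hd : SL(2, F)) 0 1 = 0 := rfl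
  have e10 : (dS d hd : SL(2, F)) 1 0 = 0 := rfl
  have e11 : (dS d hd : SL(2, F)) 1 1 = d⁻¹ := rfl
  simp only [sl_mul00, sl_mul01, sl_mul10, sl_mul11, sl_inv00, sl_inv01, sl_inv10, sl_inv11, e00, e01, e10, e11]
  refine ⟨?_, ?_, ?_, ?_⟩ <;> field_simp <;> ring

lemma dS_conj_uS (d : F) (hd : d ≠ 0) (x : F) :
    dS d hd * uS x * (dS d hd)⁻¹ = uS (d ^ 2 * x) := by
  have e00 : (dS d hd : SL(2, F)) 0 0 = d := rfl
  have e01 : (dS d hd : SL(2, F)) 0 1 = 0 := rfl
  have e10 : (dS d hd : SL(2, F)) 1 0 = 0 := rfl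
  have e11 : (dS d hd : SL(2, F)) 1 1 = d⁻¹ := rfl
  have u00 : ∀ y : F, (uS y : SL(2, F)) 0 0 = 1 := fun _ => rfl
  have u01 : ∀ y : F, (uS y : SL(2, F)) 0 1 = y := fun _ => rfl
  have u10 : ∀ y : F, (uS y : SL(2, F)) 1 0 = 0 := fun _ => rfl
  have u11 : ∀ y : F, (uS y : SL(2, F)) 1 1 = 1 := fun _ => rfl
  apply sl_ext <;>
    simp only [sl_mul00, sl_mul01, sl_mul10, sl_mul11, sl_inv00, sl_inv01, sl_inv10, sl_inv11, e00, e01,
      e10, e11, u00, u01, u10, u11] <;> field_simp <;> ring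

/-- Normalising a torus. -/
def NormT (H : Subgroup (SL(2, F))) (θ : M2) (τ : F) : Prop :=
  ∀ S ∈ H, (S : M2) * θ = θ * (S : M2) ∨ (S : M2) * θ = (τ • 1 - θ) * (S : M2)

/-- An element of the torus which also normalises a conjugate of it by a diagonal element is trivial. -/
lemma key_even {θ : M2} {τ : F} (h2 : (2 : F) = 0) (hτ : τ ≠ 0) (htr : θ 0 0 + θ 1 1 = τ) (hC : θ 1 0 = τ)
    {k : SL(2, F)} {d : F} (hd : d ≠ 0) (hd1 : d ^ 2 ≠ 1) (h1 : (k : M2) * θ = θ * (k : M2))
    (h3 : (((dS d hd)⁻¹ * k * dS d hd : SL(2, F)) : M2) * θ = θ * (((dS d hd)⁻¹ * k * dS d hd : SL(2, F)) : M2) ∨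
      (((dS d hd)⁻¹ * k * dS d hd : SL(2, F)) : M2) * θ = (τ • 1 - θ) * (((dS d hd)⁻¹ * k * dS d hd : SL(2, F)) : M2)) :
    k = 1 := by
  have hθ : ¬ IsSc θ := by
    rintro ⟨-, h, -⟩
    exact hτ (hC.symm.trans h)
  obtain ⟨x, y, k00, k01, k10, k11⟩ := comm_poly hθ h1
  obtain ⟨K00, K01, K10, K11⟩ := dS_conj_inv d hd k
  set K : SL(2, F) := (dS d hd)⁻¹ * k * dS d hd with hK
  have hy : y = 0 := by
    rw [k00] at K00
    rw [k11] at K11
    rw [k10] at K10
    rcases h3 with h | h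
    · have e10 := congrFun (congrFun h 1) 0
      simp only [m2_mul10] at e10
      rw [K00, K10, K11, hC] at e10
      have hA : θ 0 0 - θ 1 1 = τ := by
        rw [← htr]
        linear_combination (- θ 1 1) * h2
      have : y * τ ^ 2 * (d ^ 2 - 1) = 0 := by
        have h5 : y * τ * d ^ 2 * (θ 0 0 - θ 1 1) + τ * y * (θ 1 1 - θ 0 0) = 0 := by
          linear_combination e10
        rw [hA] at h5
        have h6 : θ 1 1 - θ 0 0 = τ := by
          rw [← htr]
          linear_combination (- θ 0 0) * h2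
        rw [h6] at h5
        have h7 : y * τ ^ 2 * (d ^ 2 + 1) = 0 := by linear_combination h5
        linear_combination h7 - (y * τ ^ 2) * h2
      rcases mul_eq_zero.1 this with h5 | h5
      · rcases mul_eq_zero.1 h5 with h6 | h6
        · exact h6
        · exact absurd (pow_eq_zero_iff two_ne_zero |>.1 h6) hτ
      · exact absurd (sub_eq_zero.1 h5) hd1
    · have e10 := congrFun (congrFun h 1) 0
      simp only [m2_mul10, Matrix.sub_apply, Matrix.smul_apply, Matrix.one_apply_ne (one_ne_zero),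
        Matrix.one_apply_eq, smul_eq_mul, mul_zero, mul_one] at e10
      rw [K00, K10, K11, hC] at e10
      have h5 : τ * (y * τ) = 0 := by
        have h6 : τ * (2 * x + y * (θ 0 0 + θ 1 1)) = 0 := by
          linear_combination e10 + (y * τ * d ^ 2) * htr * (-1)
        rw [h2, zero_mul, zero_add, htr] at h6
        exact h6
      have h6 := (mul_eq_zero.1 h5).resolve_left hτ
      exact (mul_eq_zero.1 h6).resolve_right hτ
  rw [hy] at k00 k01 k10 k11
  simp only [zero_mul, add_zero] at k00 k01 k10 k11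
  have hdk := sl_det k
  rw [k00, k01, k10, k11] at hdk
  have hx : (x - 1) ^ 2 = 0 := by linear_combination hdk + (1 - x) * h2
  have hx1 : x = 1 := by
    have := pow_eq_zero_iff two_ne_zero |>.1 hx
    linear_combination this
  apply sl_ext
  · rw [k00, hx1]; rfl
  · rw [k01]; rfl
  · rw [k10]; rfl
  · rw [k11, hx1]; rfl

/-- The dihedral case in characteristic two, standard form. -/
theorem dih_even_std [Fintype F] {θ : M2} {τ : F} (h2 : (2 : F) = 0) {a : F} (ha0 : a ≠ 0) (ha1 : a ≠ 1)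
    {H : Subgroup (SL(2, F))} (hS : RStar ⊤ H) (hτ : τ ≠ 0) (htr : θ 0 0 + θ 1 1 = τ)
    (hN : NormT H θ τ) (hu : uS 1 ∈ H)
    (hodd : ((uS 1 : SL(2, F)) : M2) * θ ≠ θ * ((uS 1 : SL(2, F)) : M2)) : False := by
  have hch : ringChar F = 2 := CharP.ringChar_of_prime_eq_zero Nat.prime_two (by exact_mod_cast h2)
  obtain ⟨d, hd⟩ := FiniteField.isSquare_of_char_two hch a
  obtain ⟨e, he⟩ := FiniteField.isSquare_of_char_two hch (1 + a)
  have h1a : 1 + a ≠ 0 := fun h => ha1 (by linear_combination h - h2)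
  have hd0 : d ≠ 0 := by
    rintro rfl
    exact ha0 (by rw [hd]; ring)
  have he0 : e ≠ 0 := by
    rintro rfl
    exact h1a (by rw [he]; ring)
  have hd2 : d ^ 2 = a := by rw [hd]; ring
  have he2 : e ^ 2 = 1 + a := by rw [he]; ring
  have he1 : e ^ 2 ≠ 1 := fun h => ha0 (by rw [he2] at h; linear_combination h)
  have hd1 : d ^ 2 ≠ 1 := by rw [hd2]; exact ha1
  let b := dS d hd0
  let c := dS e he0
  have hz : uS a = b * uS 1 * b⁻¹ := by rw [dS_conj_uS, hd2, mul_one]
  have hy : uS (1 + a) = c * uS 1 * c⁻¹ := by rw [dS_conj_uS, he2, mul_one]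
  have hzy : uS 1 = uS a * uS (1 + a) := by
    rw [uS_mul]
    congr 1
    linear_combination (-a) * h2
  obtain ⟨k, hk, y', hy', hty⟩ := hS {1, b} c (uS 1) (fun _ _ => trivial) trivial trivial (by
    rintro x (rfl | rfl)
    · exact ⟨_, mem_Cj_one.2 hu, 1, Subgroup.one_mem _, by simp⟩
    · exact ⟨uS a, hz ▸ conj_mem_Cj _ hu, uS (1 + a), hy ▸ conj_mem_Cj _ hu, hzy⟩)
  have hkH : k ∈ H := mem_Cj_one.1 (hk 1 (by simp))
  have hkb : b⁻¹ * k * b ∈ H := mem_Cj.1 (hk b (by simp))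
  have hy'H : y' ∈ H := by
    have : y' = k⁻¹ * uS 1 := by rw [hty]; group
    rw [this]
    exact H.mul_mem (H.inv_mem hkH) hu
  have hy'c : c⁻¹ * y' * c ∈ H := mem_Cj.1 hy'
  -- `u` is odd
  have huodd := (hN _ hu).resolve_left hodd
  have u00 : ∀ y : F, ((uS y : SL(2, F)) : M2) 0 0 = 1 := fun _ => rfl
  have u01 : ∀ y : F, ((uS y : SL(2, F)) : M2) 0 1 = y := fun _ => rfl
  have u10 : ∀ y : F, ((uS y : SL(2, F)) : M2) 1 0 = 0 := fun _ => rfl
  have u11 : ∀ y : F, ((uS y : SL(2, F)) : M2) 1 1 = 1 := fun _ => rfl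
  have hC : θ 1 0 = τ := by
    have e00 := congrFun (congrFun huodd 0) 0
    simp only [m2_mul00, Matrix.sub_apply, Matrix.smul_apply, Matrix.one_apply_eq, smul_eq_mul, mul_one,
      u00, u01, u10] at e00
    have : θ 1 0 = τ - 2 * θ 0 0 := by linear_combination e00
    rw [this, h2, zero_mul, sub_zero]
  -- conjugates of `u 1`
  have hunip : ∀ f : F, f ≠ 0 → f ≠ 1 → uS f ∉ H := by
    intro f hf0 hf1 hfH
    rcases hN _ hfH with h | h
    · have e00 := congrFun (congrFun h 0) 0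
      simp only [m2_mul00, u00, u01, u10] at e00
      have : f * τ = 0 := by rw [← hC]; linear_combination e00
      exact (mul_ne_zero hf0 hτ) this
    · have e00 := congrFun (congrFun h 0) 0
      simp only [m2_mul00, Matrix.sub_apply, Matrix.smul_apply, Matrix.one_apply_eq, smul_eq_mul, mul_one,
        u00, u01, u10] at e00
      have : (f - 1) * τ = 0 := by
        rw [hC] at e00
        linear_combination e00 - (θ 0 0) * h2
      exact (mul_ne_zero (sub_ne_zero.2 hf1) hτ) this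
  have hconj : ∀ (g : F) (hg : g ≠ 0), (dS g hg)⁻¹ * uS 1 * dS g hg = uS (1 / g ^ 2) := by
    intro g hg
    obtain ⟨K00, K01, K10, K11⟩ := dS_conj_inv g hg (uS 1)
    apply sl_ext
    · rw [K00]; rfl
    · rw [K01]; rfl
    · rw [K10, u10, zero_mul]; rfl
    · rw [K11]; rfl
  have hinv : ∀ g : F, g ≠ 0 → g ^ 2 ≠ 1 → 1 / g ^ 2 ≠ 0 ∧ 1 / g ^ 2 ≠ 1 := by
    intro g hg hg1
    refine ⟨one_div_ne_zero (pow_ne_zero _ hg), ?_⟩
    intro h
    apply hg1
    rw [one_div, inv_eq_one] at h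
    exact h
  have hevenprod : ((uS 1 : SL(2, F)) : M2) = (k : M2) * (y' : M2) := congrArg Subtype.val hty
  rcases hN _ hkH with h1 | h1 <;> rcases hN _ hy'H with h3 | h3
  · apply hodd
    rw [hevenprod, mul_assoc, h3, ← mul_assoc, h1, mul_assoc]
  · -- `k` even
    have hk1 : k = 1 := key_even h2 hτ htr hC hd0 hd1 h1 (hN _ hkb)
    rw [hk1, one_mul] at hty
    rw [← hty, hconj] at hy'c
    exact hunip _ (hinv e he0 he1).1 (hinv e he0 he1).2 hy'c
  · -- `y'` even
    have hy1 : y' = 1 := key_even h2 hτ htr hC he0 he1 h3 (hN _ hy'c)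
    rw [hy1, mul_one] at hty
    rw [← hty, hconj] at hkb
    exact hunip _ (hinv d hd0 hd1).1 (hinv d hd0 hd1).2 hkb
  · apply hodd
    rw [hevenprod]
    calc (k : M2) * (y' : M2) * θ = (k : M2) * ((y' : M2) * θ) := mul_assoc _ _ _
      _ = (k : M2) * ((τ • 1 - θ) * (y' : M2)) := by rw [h3]
      _ = τ • ((k : M2) * (y' : M2)) - ((k : M2) * θ) * (y' : M2) := by
        rw [sub_mul, mul_sub, smul_mul_assoc, one_mul, mul_smul_comm, mul_assoc]
      _ = τ • ((k : M2) * (y' : M2)) - ((τ • 1 - θ) * (k : M2)) * (y' : M2) := by rw [h1]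
      _ = θ * ((k : M2) * (y' : M2)) := by
        rw [sub_mul, sub_mul, smul_mul_assoc, smul_mul_assoc, one_mul, sub_sub_cancel, mul_assoc]

/-- The dihedral case in characteristic two. -/
theorem dih_even [Fintype F] {θ : M2} {τ : F} (h2 : (2 : F) = 0) (hq : 4 ≤ Fintype.card F)
    {H : Subgroup (SL(2, F))} (hS : RStar ⊤ H) (hτ : τ ≠ 0) (htr : θ 0 0 + θ 1 1 = τ)
    (hN : NormT H θ τ) {s : SL(2, F)} (hs : s ∈ H)
    (hodd : (s : M2) * θ ≠ θ * (s : M2)) : False := by
  classical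
  have hsodd := (hN _ hs).resolve_left hodd
  have e00 := congrFun (congrFun hsodd 0) 0
  have e11 := congrFun (congrFun hsodd 1) 1
  simp only [m2_mul00, m2_mul11, Matrix.sub_apply, Matrix.smul_apply, Matrix.one_apply_eq,
    Matrix.one_apply_ne (zero_ne_one), Matrix.one_apply_ne (one_ne_zero), smul_eq_mul, mul_one,
    mul_zero, zero_sub, neg_mul] at e00 e11
  have hpw : s 0 0 = s 1 1 := by
    have : τ * (s 0 0 - s 1 1) = 0 := by
      linear_combination (-1 : F) * e00 + e11 + (θ 0 0 * s 0 0 - θ 1 1 * s 1 1) * h2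
    exact sub_eq_zero.1 ((mul_eq_zero.1 this).resolve_left hτ)
  have hd := sl_det s
  have hP : ∃ P : M2, P.det ≠ 0 ∧ (s : M2) * P = P * ((uS 1 : SL(2, F)) : M2) := by
    by_cases hq0 : s 0 1 = 0
    · by_cases hr0 : s 1 0 = 0
      · exfalso
        apply hodd
        apply m2_ext <;> simp [m2_mul00, m2_mul01, m2_mul10, m2_mul11, hq0, hr0, hpw] <;> ring
      · refine ⟨!![s 0 0 - 1, 1; s 1 0, 0], ?_, ?_⟩
        · rw [Matrix.det_fin_two_of]
          simpa using hr0
        · rw [hq0] at hd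
          rw [← hpw] at hd
          apply m2_ext <;> simp [m2_mul00, m2_mul01, m2_mul10, m2_mul11, uS, mk2, hq0]
          · linear_combination hd - (s 0 0 - 1) * h2
          · linear_combination (-(s 1 0)) * hpw + (s 1 0 * (s 0 0 - 1)) * h2
    · refine ⟨!![s 0 1, 0; s 0 0 - 1, 1], ?_, ?_⟩
      · rw [Matrix.det_fin_two_of]
        simpa using hq0
      · rw [← hpw] at hd
        apply m2_ext <;> simp [m2_mul00, m2_mul01, m2_mul10, m2_mul11, uS, mk2]
        · linear_combination (s 0 1 * (s 0 0 - 1)) * h2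
        · linear_combination (-1 : F) * hd + (s 0 0 - 1) * (-1) * hpw + (s 0 0 * (s 0 0 - 1)) * h2
        · exact hpw.symm
  obtain ⟨P, hP0, hsP⟩ := hP
  let c : GL (Fin 2) F := glOfDet P hP0
  obtain ⟨H', hS', hmem⟩ := exists_conj_sub hS c
  have hcs : cjS c (uS 1) = s := by
    apply Subtype.ext
    rw [cjS_coe]
    have h1 : (c : M2) = P := rfl
    rw [h1, ← hsP, mul_assoc, ← h1, gl_mul_inv, mul_one]
  have hN' : NormT H' (conjM c θ) τ := by
    intro S hS1
    rcases hN _ ((hmem S).1 hS1) with h | h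
    · left
      exact (cjS_eq_iff c S θ θ).1 h
    · right
      have h' := (cjS_eq_iff c S θ (τ • 1 - θ)).1 h
      rwa [conjM_sub_smul] at h'
  have ha : ∃ a : F, a ≠ 0 ∧ a ≠ 1 := by
    by_contra hcon
    push Not at hcon
    have hsub : (Finset.univ : Finset F) ⊆ {0, 1} := by
      intro x _
      by_cases hx : x = 0
      · simp [hx]
      · simp [hcon x hx]
    have := Finset.card_le_card hsub
    rw [Finset.card_univ] at this
    have h3 : ({0, 1} : Finset F).card ≤ 2 := Finset.card_le_two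
    omega
  obtain ⟨a, ha0, ha1⟩ := ha
  refine dih_even_std h2 ha0 ha1 hS' hτ ?_ hN' ?_ ?_
  · rw [conjM_trace, htr]
  · rw [hmem, hcs]
    exact hs
  · intro h
    apply hodd
    have := (cjS_eq_iff c (uS 1) θ θ).2 h
    rwa [hcs] at this

end Even

end Cfsg.Agent.Lib.Classical.SL2.Binary
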