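import Cfsg.Agent.Lib.Classical.SL2.Binary.Borel

/-!
The binary subgroups: the trivial group, Sylow 2-subgroups in characteristic two, and groups of order
three in characteristic two when `x² + x + 1` has no root.
-/

set_option autoImplicit false
set_option linter.unusedSectionVars false
set_option linter.unusedSimpArgs false

open scoped MatrixGroups
open Matrix

namespace Cfsg.Agent.Lib.Classical.SL2.Binary

section Triv

variable {G : Type*} [Group G]

theorem rstar_bot : RStar (⊤ : Subgroup G) ⊥ := by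
  intro S γ t _ _ _ hall
  by_cases hne : S.Nonempty
  · obtain ⟨b, hb⟩ := hne
    obtain ⟨z, hz, y, hy, rfl⟩ := hall b hb
    have hz1 : z = 1 := by
      have h1 := mem_Cj.1 hz
      rw [Subgroup.mem_bot] at h1
      have : z = b * (b⁻¹ * z * b) * b⁻¹ := by group
      rw [this, h1]
      group
    exact ⟨1, fun b _ => Subgroup.one_mem _, y, hy, by simp [hz1]⟩
  · exact ⟨t, fun b hb => (hne ⟨b, hb⟩).elim, 1, Subgroup.one_mem _, by simp⟩

lemma card_Cj (K : Subgroup G) (b : G) : Nat.card (Cj K b) = Nat.card K :=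
  Nat.card_congr (K.equivMapOfInjective _ (MulAut.conj b).injective).toEquiv.symm

lemma eq_of_card_three [Finite G] {K₁ K₂ : Subgroup G} (h1 : Nat.card K₁ = 3) (h2 : Nat.card K₂ = 3) {x : G}
    (hx1 : x ∈ K₁) (hx2 : x ∈ K₂) (hx : x ≠ 1) : K₁ = K₂ := by
  have key : ∀ K : Subgroup G, Nat.card K = 3 → x ∈ K → K = Subgroup.zpowers x := by
    intro K hK hxK
    have hle : Subgroup.zpowers x ≤ K := (Subgroup.zpowers_le).2 hxK
    have hd : Nat.card (Subgroup.zpowers x) ∣ 3 := by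
      rw [← hK]
      exact Subgroup.card_dvd_of_le hle
    have h3 : Nat.card (Subgroup.zpowers x) = 1 ∨ Nat.card (Subgroup.zpowers x) = 3 :=
      (Nat.dvd_prime Nat.prime_three).1 hd
    rcases h3 with h3 | h3
    · exfalso
      rw [Nat.card_zpowers, orderOf_eq_one_iff] at h3
      exact hx h3
    · exact (Subgroup.eq_of_le_of_card_ge hle (by rw [hK, h3])).symm
  rw [key K₁ h1 hx1, key K₂ h2 hx2]

end Triv

variable {F : Type*} [Field F]

local notation "M2" => Matrix (Fin 2) (Fin 2) F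

/-- The upper unipotent subgroup: the stabiliser of the first basis vector. -/
def EU : Subgroup (SL(2, F)) where
  carrier := {S | S 0 0 = 1 ∧ S 1 0 = 0}
  one_mem' := ⟨rfl, rfl⟩
  mul_mem' := by
    rintro S T ⟨h1, h2⟩ ⟨h3, h4⟩
    constructor
    · show (S * T : SL(2, F)) 0 0 = 1
      rw [sl_mul00, h1, h3, h4]
      ring
    · show (S * T : SL(2, F)) 1 0 = 0
      rw [sl_mul10, h2, h3, h4]
      ring
  inv_mem' := by
    rintro S ⟨h1, h2⟩
    have hd := sl_det S
    rw [h1, h2] at hd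
    constructor
    · show (S⁻¹ : SL(2, F)) 0 0 = 1
      rw [sl_inv00]
      linear_combination hd
    · show (S⁻¹ : SL(2, F)) 1 0 = 0
      rw [sl_inv10, h2, neg_zero]

lemma mem_EU {S : SL(2, F)} : S ∈ (EU : Subgroup (SL(2, F))) ↔ S 0 0 = 1 ∧ S 1 0 = 0 := Iff.rfl

lemma mem_Cj_EU {x b : SL(2, F)} :
    x ∈ Cj (EU : Subgroup (SL(2, F))) b ↔
      x 0 0 * b 0 0 + x 0 1 * b 1 0 = b 0 0 ∧ x 1 0 * b 0 0 + x 1 1 * b 1 0 = b 1 0 := by
  rw [mem_Cj, mem_EU]
  have hd := sl_det b
  simp only [sl_mul00, sl_mul01, sl_mul10, sl_mul11, sl_inv00, sl_inv01, sl_inv10, sl_inv11]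
  constructor
  · rintro ⟨h1, h2⟩
    constructor
    · linear_combination (b 0 0) * h1 + (b 0 1) * h2 - (x 0 0 * b 0 0 + x 0 1 * b 1 0) * hd
    · linear_combination (b 1 0) * h1 + (b 1 1) * h2 - (x 1 0 * b 0 0 + x 1 1 * b 1 0) * hd
  · rintro ⟨h1, h2⟩
    constructor
    · linear_combination (b 1 1) * h1 - (b 0 1) * h2 + hd
    · linear_combination (- b 1 0) * h1 + (b 0 0) * h2

/-- The transvection with direction `α`. -/
def trV (c α0 α1 : F) : SL(2, F) :=
  mk2 (1 + c * α1 * α0) (- (c * α0 * α0)) (c * α1 * α1) (1 - c * α0 * α1) (by ring)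

/-- The unipotent group is binary. -/
theorem rstar_EU : RStar ⊤ (EU : Subgroup (SL(2, F))) := by
  intro S γ t _ _ _ hall
  by_cases hne : S.Nonempty
  swap
  · exact ⟨t, fun b hb => (hne ⟨b, hb⟩).elim, 1, Subgroup.one_mem _, by simp⟩
  set w0 := γ 0 0 with hw0
  set w1 := γ 1 0 with hw1
  set T0 := t 0 0 * w0 + t 0 1 * w1 with hT0
  set T1 := t 1 0 * w0 + t 1 1 * w1 with hT1
  by_cases hfix : T0 = w0 ∧ T1 = w1
  · exact ⟨1, fun b _ => Subgroup.one_mem _, t, mem_Cj_EU.2 hfix, by simp⟩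
  set α0 := T0 - w0 with hα0
  set α1 := T1 - w1 with hα1
  have hαne : ¬ (α0 = 0 ∧ α1 = 0) := by
    rintro ⟨h1, h2⟩
    exact hfix ⟨sub_eq_zero.1 h1, sub_eq_zero.1 h2⟩
  -- `t w = z w` for a decomposition
  have hdecomp : ∀ z y : SL(2, F), y ∈ Cj (EU : Subgroup (SL(2, F))) γ → t = z * y →
      T0 = z 0 0 * w0 + z 0 1 * w1 ∧ T1 = z 1 0 * w0 + z 1 1 * w1 := by
    intro z y hy hty
    obtain ⟨h1, h2⟩ := mem_Cj_EU.1 hy
    have h1' : y 0 0 * w0 + y 0 1 * w1 = w0 := h1
    have h2' : y 1 0 * w0 + y 1 1 * w1 = w1 := h2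
    rw [hT0, hT1, hty]
    simp only [sl_mul00, sl_mul01, sl_mul10, sl_mul11]
    constructor
    · linear_combination (z 0 0) * h1' + (z 0 1) * h2'
    · linear_combination (z 1 0) * h1' + (z 1 1) * h2'
  have hdet : ∀ b ∈ S, α0 * b 1 0 - α1 * b 0 0 = 0 := by
    intro b hb
    obtain ⟨z, hz, y, hy, hty⟩ := hall b hb
    obtain ⟨h1, h2⟩ := mem_Cj_EU.1 hz
    obtain ⟨h3, h4⟩ := hdecomp z y hy hty
    have hd := sl_det z
    rw [hα0, hα1, h3, h4]
    have e : (z 0 0 * w0 + z 0 1 * w1) * (z 1 0 * b 0 0 + z 1 1 * b 1 0) -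
        (z 1 0 * w0 + z 1 1 * w1) * (z 0 0 * b 0 0 + z 0 1 * b 1 0) = w0 * b 1 0 - w1 * b 0 0 := by
      linear_combination (w0 * b 1 0 - w1 * b 0 0) * hd
    rw [h1, h2] at e
    linear_combination e
  obtain ⟨b₀, hb₀⟩ := hne
  have hγ := sl_det γ
  have hD : w0 * α1 - w1 * α0 ≠ 0 := by
    intro hD0
    obtain ⟨z, hz, y, hy, hty⟩ := hall b₀ hb₀
    obtain ⟨h1, h2⟩ := mem_Cj_EU.1 hz
    obtain ⟨h3, h4⟩ := hdecomp z y hy hty
    have hv := sl_det b₀
    set v0 := b₀ 0 0
    set v1 := b₀ 1 0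
    have hd1 := hdet b₀ hb₀
    have hwv : w0 * v1 - w1 * v0 = 0 := by
      have e0 : α0 * (w0 * v1 - w1 * v0) = 0 := by linear_combination w0 * hd1 + v0 * hD0
      have e1 : α1 * (w0 * v1 - w1 * v0) = 0 := by linear_combination v1 * hD0 + w1 * hd1
      by_contra hne
      apply hαne
      exact ⟨(mul_eq_zero.1 e0).resolve_right hne, (mul_eq_zero.1 e1).resolve_right hne⟩
    -- `z` fixes `w`
    have a0 : α0 = (z 0 0 - 1) * w0 + z 0 1 * w1 := by rw [hα0, h3]; ring
    have a1 : α1 = z 1 0 * w0 + (z 1 1 - 1) * w1 := by rw [hα1, h4]; ring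
    have f0 : (z 0 0 - 1) * v0 + z 0 1 * v1 = 0 := by linear_combination h1
    have f1 : z 1 0 * v0 + (z 1 1 - 1) * v1 = 0 := by linear_combination h2
    have hv0 : v0 * α0 = 0 := by rw [a0]; linear_combination w0 * f0 - z 0 1 * hwv
    have hv1 : v1 * α0 = 0 := by rw [a0]; linear_combination w1 * f0 + (z 0 0 - 1) * hwv
    have hv2 : v0 * α1 = 0 := by rw [a1]; linear_combination w0 * f1 - (z 1 1 - 1) * hwv
    have hv3 : v1 * α1 = 0 := by rw [a1]; linear_combination w1 * f1 + z 1 0 * hwv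
    have hvne : ¬ (v0 = 0 ∧ v1 = 0) := by
      rintro ⟨h5, h6⟩
      rw [h5, h6] at hv
      simp at hv
    apply hαne
    by_cases h5 : v0 = 0
    · have h6 : v1 ≠ 0 := fun h => hvne ⟨h5, h⟩
      exact ⟨(mul_eq_zero.1 hv1).resolve_left h6, (mul_eq_zero.1 hv3).resolve_left h6⟩
    · exact ⟨(mul_eq_zero.1 hv0).resolve_left h5, (mul_eq_zero.1 hv2).resolve_left h5⟩
  set D := w0 * α1 - w1 * α0 with hDdef
  set c := D⁻¹ with hc
  have hcD : c * D = 1 := inv_mul_cancel₀ hD
  let k : SL(2, F) := trV c α0 α1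
  have k00 : k 0 0 = 1 + c * α1 * α0 := rfl
  have k01 : k 0 1 = - (c * α0 * α0) := rfl
  have k10 : k 1 0 = c * α1 * α1 := rfl
  have k11 : k 1 1 = 1 - c * α0 * α1 := rfl
  refine ⟨k, ?_, k⁻¹ * t, ?_, by group⟩
  · intro b hb
    apply mem_Cj_EU.2
    have h1 := hdet b hb
    rw [k00, k01, k10, k11]
    constructor
    · linear_combination (- c * α0) * h1
    · linear_combination (- c * α1) * h1
  · apply mem_Cj_EU.2
    have hkd := sl_det k
    simp only [sl_mul00, sl_mul01, sl_mul10, sl_mul11, sl_inv00, sl_inv01, sl_inv10, sl_inv11]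
    have e0 : k 0 0 * w0 + k 0 1 * w1 = T0 := by
      rw [k00, k01, hα0]
      rw [← hα0]
      have : c * α0 * D = α0 := by rw [mul_right_comm, hcD, one_mul]
      rw [hDdef] at this
      linear_combination this + (1 : F) * (hα0)
    have e1 : k 1 0 * w0 + k 1 1 * w1 = T1 := by
      rw [k10, k11]
      have : c * α1 * D = α1 := by rw [mul_right_comm, hcD, one_mul]
      rw [hDdef] at this
      linear_combination this + (1 : F) * (hα1)
    constructor
    · show (k 1 1 * t 0 0 + - k 0 1 * t 1 0) * w0 + (k 1 1 * t 0 1 + - k 0 1 * t 1 1) * w1 = w0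
      have : (k 1 1 * t 0 0 + - k 0 1 * t 1 0) * w0 + (k 1 1 * t 0 1 + - k 0 1 * t 1 1) * w1 = k 1 1 * T0 - k 0 1 * T1 := by
        rw [hT0, hT1]; ring
      rw [this, ← e0, ← e1]
      linear_combination w0 * hkd
    · show (- k 1 0 * t 0 0 + k 0 0 * t 1 0) * w0 + (- k 1 0 * t 0 1 + k 0 0 * t 1 1) * w1 = w1
      have : (- k 1 0 * t 0 0 + k 0 0 * t 1 0) * w0 + (- k 1 0 * t 0 1 + k 0 0 * t 1 1) * w1 = - k 1 0 * T0 + k 0 0 * T1 := by
        rw [hT0, hT1]; ring
      rw [this, ← e0, ← e1]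
      linear_combination w1 * hkd

/-- Key lemma for three-element groups. -/
lemma eq_of_traces (h2 : (2 : F) = 0) (hroot : ∀ x : F, x ^ 2 + x + 1 ≠ 0) {A B : SL(2, F)}
    (hA : A 0 0 + A 1 1 = 1) (hB : B 0 0 + B 1 1 = 1)
    (hAB : (A * B : SL(2, F)) 0 0 + (A * B : SL(2, F)) 1 1 = 1) : A = B := by
  have hdA := sl_det A
  have hdB := sl_det B
  rw [sl_mul00, sl_mul11] at hAB
  set a := A 0 0
  set b := A 0 1
  set c := A 1 0
  set d := A 1 1
  set e := B 0 0
  set f := B 0 1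
  set g := B 1 0
  set h := B 1 1
  have hd : d = 1 + a := by linear_combination hA - a * h2
  have hh : h = 1 + e := by linear_combination hB - e * h2
  rw [hd] at hdA hAB
  rw [hh] at hdB hAB
  have hbc : b * c = a ^ 2 + a + 1 := by linear_combination (-1 : F) * hdA - h2
  have hfg : f * g = e ^ 2 + e + 1 := by linear_combination (-1 : F) * hdB - h2
  have hbg : b * g + c * f = a + e := by linear_combination hAB - (a * e + a + e) * h2
  have hxyz : (a + e) ^ 2 = (b + f) * (c + g) := by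
    linear_combination (-1 : F) * hbc - hfg - hbg + (a * e - a - e - 1) * h2
  have hl : (a + e) + b * (c + g) + c * (b + f) = 0 := by
    linear_combination hbg + (a + e + b * c) * h2
  have hb0 : b ≠ 0 := by
    intro hb
    rw [hb, zero_mul] at hbc
    exact hroot a hbc.symm
  have hzero : a + e = 0 ∧ b + f = 0 ∧ c + g = 0 := by
    by_cases hy : b + f = 0
    · have hx : a + e = 0 := by
        rw [hy, zero_mul] at hxyz
        exact pow_eq_zero_iff two_ne_zero |>.1 hxyz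
      refine ⟨hx, hy, ?_⟩
      rw [hx, hy, mul_zero, zero_add, add_zero] at hl
      exact (mul_eq_zero.1 hl).resolve_left hb0
    · exfalso
      set y := b + f with hydef
      set s := b * (a + e) / y with hs
      have hsy : s * y = b * (a + e) := by rw [hs]; field_simp
      have h5 : (s ^ 2 + s + b * c) * y ^ 2 = 0 := by
        have h6 : (s ^ 2 + s + b * c) * y ^ 2 = (s * y) ^ 2 + (s * y) * y + b * c * y ^ 2 := by ring
        rw [h6, hsy]
        linear_combination (b ^ 2) * hxyz + (b * y) * hl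
      have h6 : s ^ 2 + s + b * c = 0 := (mul_eq_zero.1 h5).resolve_right (pow_ne_zero 2 hy)
      apply hroot (s + a)
      rw [hbc] at h6
      linear_combination h6 + (s * a) * h2
  obtain ⟨h3, h4, h5⟩ := hzero
  have e1 : a = e := by linear_combination h3 - e * h2
  have e2 : b = f := by linear_combination h4 - f * h2
  have e3 : c = g := by linear_combination h5 - g * h2
  apply sl_ext
  · exact e1
  · exact e2
  · exact e3
  · show d = h
    rw [hd, hh, e1]

section Three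

variable [Finite F]

/-- Elements of order three have trace one in characteristic two. -/
lemma trace_of_mem (h2 : (2 : F) = 0) (hroot : ∀ x : F, x ^ 2 + x + 1 ≠ 0) {K : Subgroup (SL(2, F))}
    (hK : Nat.card K = 3) {X : SL(2, F)} (hX : X ∈ K) (hX1 : X ≠ 1) : X 0 0 + X 1 1 = 1 := by
  have h3 : X ^ 3 = 1 := by
    have := pow_card_eq_one' (x := (⟨X, hX⟩ : K))
    rw [hK] at this
    exact congrArg Subtype.val this
  have h4 : X * X = X⁻¹ := by
    apply eq_inv_of_mul_eq_one_left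
    calc X * X * X = X ^ 3 := by rw [pow_three, mul_assoc]
      _ = 1 := h3
  have e00 := congrArg (fun S : SL(2, F) => S 0 0) h4
  have e01 := congrArg (fun S : SL(2, F) => S 0 1) h4
  have e10 := congrArg (fun S : SL(2, F) => S 1 0) h4
  simp only [sl_mul00, sl_mul01, sl_mul10, sl_inv00, sl_inv01, sl_inv10] at e00 e01 e10
  have hd := sl_det X
  by_contra hne
  have hne' : X 0 0 + X 1 1 + 1 ≠ 0 := by
    intro h
    apply hne
    linear_combination h - h2
  have h01 : X 0 1 = 0 := by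
    have : X 0 1 * (X 0 0 + X 1 1 + 1) = 0 := by linear_combination e01
    exact (mul_eq_zero.1 this).resolve_right hne'
  have h10 : X 1 0 = 0 := by
    have : X 1 0 * (X 0 0 + X 1 1 + 1) = 0 := by linear_combination e10
    exact (mul_eq_zero.1 this).resolve_right hne'
  rw [h01, h10] at e00 hd
  have h5 : X 1 1 = X 0 0 ^ 2 := by linear_combination (-1 : F) * e00
  rw [h5] at hd
  have h6 : (X 0 0 - 1) * (X 0 0 ^ 2 + X 0 0 + 1) = 0 := by linear_combination hd
  have h7 : X 0 0 = 1 := sub_eq_zero.1 ((mul_eq_zero.1 h6).resolve_right (hroot _))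
  apply hX1
  apply sl_ext
  · rw [h7]; rfl
  · rw [h01]; rfl
  · rw [h10]; rfl
  · rw [h5, h7]; simp [sl_one11]

/-- Groups of order three are binary in characteristic two, when `x² + x + 1` has no root. -/
theorem rstar_three (h2 : (2 : F) = 0) (hroot : ∀ x : F, x ^ 2 + x + 1 ≠ 0) {H : Subgroup (SL(2, F))}
    (hc : Nat.card H = 3) : RStar ⊤ H := by
  classical
  haveI : Finite (SL(2, F)) := by
    haveI : Fintype F := Fintype.ofFinite F
    infer_instance
  intro S γ t _ _ _ hall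
  by_cases htC : t ∈ Cj H γ
  · exact ⟨1, fun b _ => Subgroup.one_mem _, t, htC, by simp⟩
  by_cases hne : S.Nonempty
  swap
  · exact ⟨t, fun b hb => (hne ⟨b, hb⟩).elim, 1, Subgroup.one_mem _, by simp⟩
  obtain ⟨b₀, hb₀⟩ := hne
  obtain ⟨z₀, hz₀, y₀, hy₀, ht₀⟩ := hall b₀ hb₀
  have hcj : ∀ b, Nat.card (Cj H b) = 3 := fun b => by rw [card_Cj, hc]
  have hz₀1 : z₀ ≠ 1 := by
    rintro rfl
    apply htC
    rw [ht₀, one_mul]
    exact hy₀
  have hsame : ∀ b ∈ S, Cj H b = Cj H b₀ := by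
    intro b hb
    obtain ⟨z₁, hz₁, y₁, hy₁, ht₁⟩ := hall b hb
    have hz₁1 : z₁ ≠ 1 := by
      rintro rfl
      apply htC
      rw [ht₁, one_mul]
      exact hy₁
    set c := y₁ * y₀⁻¹ with hcdef
    have hcC : c ∈ Cj H γ := (Cj H γ).mul_mem hy₁ ((Cj H γ).inv_mem hy₀)
    have hz : z₀ = z₁ * c := by
      have h5 : z₁ * y₁ = z₀ * y₀ := ht₁.symm.trans ht₀
      rw [hcdef, ← mul_assoc, h5]
      group
    by_cases hc1 : c = 1
    · rw [hc1, mul_one] at hz
      subst hz
      exact eq_of_card_three (hcj _) (hcj _) hz₁ hz₀ hz₁1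
    · have t1 := trace_of_mem h2 hroot (hcj b) hz₁ hz₁1
      have t0 := trace_of_mem h2 hroot (hcj b₀) hz₀ hz₀1
      have tc := trace_of_mem h2 hroot (hcj γ) hcC hc1
      have tc' := trace_of_mem h2 hroot (hcj γ) ((Cj H γ).inv_mem hcC) (inv_ne_one.2 hc1)
      have e1 : z₁ = c := eq_of_traces h2 hroot t1 tc (by rw [← hz]; exact t0)
      have e2 : z₀ = c⁻¹ := eq_of_traces h2 hroot t0 tc' (by
        have : z₀ * c⁻¹ = z₁ := by rw [hz]; group
        rw [this]
        exact t1)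
      have h6 : Cj H b = Cj H γ := eq_of_card_three (hcj _) (hcj _) hz₁ (by rw [e1]; exact hcC) hz₁1
      have h7 : Cj H b₀ = Cj H γ :=
        eq_of_card_three (hcj _) (hcj _) hz₀ (by rw [e2]; exact (Cj H γ).inv_mem hcC) hz₀1
      rw [h6, h7]
  exact ⟨z₀, fun b hb => by rw [hsame b hb]; exact hz₀, y₀, hy₀, ht₀⟩

end Three

end Cfsg.Agent.Lib.Classical.SL2.Binary
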