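import Cfsg.Agent.Lib.Classical.SL2.Binary.Small
import Cfsg.Agent.Lib.Classical.SL2.Binary.Reverse
import Cfsg.Agent.Lib.Classical.SL2.A4S4

/-!
The final assembly of the classification of the binary coset actions of `PSL₂(F)`.
-/

set_option autoImplicit false
set_option linter.unusedSectionVars false
set_option linter.unusedSimpArgs false
set_option linter.style.haveILetI false

open scoped MatrixGroups
open Matrix OnePoint

namespace Cfsg.Agent.Lib.Classical.SL2.Binary

open Cfsg.Agent.Lib.Classical.SL2.Moebius Cfsg.Agent.Lib.Classical.SL2.Rational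
open Cfsg.Agent.Lib.Classical.SL2.SubfieldCase
open Cfsg.Agent.Lib.Classical.SL2.Dickson Cfsg.Agent.Lib.Classical.SL2.Precise
open Cfsg.Agent.Lib.Classical.SL2.Tori Cfsg.Agent.Lib.Classical.SL2.Coatom

local notation "PGL2" => ProjGenLinGroup (Fin 2)
local notation "PSL2" => ProjectiveSpecialLinearGroup (Fin 2)

variable {F : Type*} [Field F] [Fintype F]

/-- The quotient map. -/
noncomputable abbrev piS : SL(2, F) →* PSL2 F := QuotientGroup.mk' _

lemma piS_surj : Function.Surjective (piS (F := F)) := QuotientGroup.mk'_surjective _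

lemma tP_piS (S : SL(2, F)) : tP (piS S) = piP S := rfl

lemma fin_psl : Finite (PSL2 F) := Finite.of_surjective _ (piS_surj (F := F))

lemma piS_eq_one_of_isSc {S : SL(2, F)} (h : IsSc (S : Matrix (Fin 2) (Fin 2) F)) : piS S = 1 := by
  apply tP_injective
  rw [map_one, tP_piS, piP_apply]
  exact scalar_of_entries h.2.1 h.1 h.2.2

lemma piS_inj_of_two (h2 : (2 : F) = 0) : Function.Injective (piS (F := F)) := by
  rw [injective_iff_map_eq_one]
  intro S hS
  have h1 : piP S = 1 := by
    rw [← tP_piS, hS, map_one]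
  rcases piP_eq_one h1 with h3 | h3
  · exact h3
  · rw [h3]
    have hm : (-1 : F) = 1 := by linear_combination -h2
    apply Matrix.SpecialLinearGroup.ext
    intro i j
    fin_cases i <;> fin_cases j
    · exact hm
    · rfl
    · rfl
    · exact hm

lemma card_comap_piS (h2 : (2 : F) = 0) (H : Subgroup (PSL2 F)) :
    Nat.card (H.comap (piS (F := F))) = Nat.card H := by
  have h1 : (H.comap (piS (F := F))).map piS = H := Subgroup.map_comap_eq_self_of_surjective piS_surj H
  conv_rhs => rw [← h1]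
  exact (Subgroup.card_map_of_injective (piS_inj_of_two h2)).symm

/-- The main classification: a binary subgroup has one of the listed shapes. -/
theorem out_of_rstar (hq : 4 ≤ Fintype.card F) (hq5 : Fintype.card F ≠ 5) {H : Subgroup (PSL2 F)} (hH : H ≠ ⊤)
    (hS : RStar ⊤ H) : Out (H.comap (piS (F := F))) := by
  classical
  have hS' := rstar_comap_piP hS
  obtain ⟨p, hp⟩ := CharP.exists F
  haveI : Fact p.Prime := ⟨CharP.char_is_prime F p⟩
  haveI : CharP (AlgebraicClosure F) p :=
    charP_of_injective_algebraMap (algebraMap F (AlgebraicClosure F)).injective p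
  have hUL : H.map (tP (F := F)) ≤ Lp F := by
    rintro _ ⟨y, -, rfl⟩
    exact ⟨y, rfl⟩
  rw [← comap_map_tP]
  rcases precise_pgl (E := AlgebraicClosure F) (p := p) (H.map (tP (F := F))) with
    ⟨ω, h⟩ | ⟨a, b, hab, hp' | hp', h⟩ | ⟨h1, h2⟩ | ⟨h3, h4⟩ | ⟨C, F₀, h3, hU⟩
  · exact out_of_fix (AlgebraicClosure F) hq hq5 hS' h
  · exact out_of_split (AlgebraicClosure F) hq hq5 hS' hp' h
  · exact out_of_nonsplit (AlgebraicClosure F) hq hq5 hS' hp' h
  · exact (false_of_small (AlgebraicClosure F) hq hq5 hS (Or.inl ⟨h1, h2⟩)).elim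
  · subst h3
    have h30 : (3 : F) = 0 := by exact_mod_cast CharP.cast_eq_zero F 3
    exact (false_of_small (AlgebraicClosure F) hq hq5 hS (Or.inr ⟨h30, h4⟩)).elim
  · by_cases hF₀ : F₀ = ⊤
    · exfalso
      apply hH
      have h5 := Cfsg.Agent.Lib.Classical.SL2.A5Sub.eq_Lp_of_top hUL hF₀ hU
      apply Subgroup.map_injective (tP_injective (F := F))
      rw [h5, ← MonoidHom.range_eq_map]
    · exact (false_of_subfield hS' C F₀ hF₀ hU).elim

lemma fact_two {a m : ℕ} (hm : Odd m) : (2 ^ a * m).factorization 2 = a := by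
  have hm0 : m ≠ 0 := by
    rintro rfl
    simp at hm
  rw [Nat.factorization_mul (pow_ne_zero _ (by norm_num)) hm0, Finsupp.add_apply, Nat.Prime.factorization_pow Nat.prime_two,
    Finsupp.single_eq_same, Nat.factorization_eq_zero_of_not_dvd, add_zero]
  intro h
  exact (Nat.not_even_iff_odd.2 hm) (even_iff_two_dvd.2 h)

lemma card_psl_two {a : ℕ} (ha : Fintype.card F = 2 ^ a) (ha2 : 1 ≤ a) :
    (Nat.card (PSL2 F)).factorization 2 = a := by
  have hq1 := one_lt_card (F := F)
  have h := card_psl (F := F)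
  rcases gcd_two_cases hq1 with ⟨h2, h3⟩ | ⟨h2, h3⟩
  · rw [h3, mul_one] at h
    rw [h, ha]
    apply fact_two
    have h5 : (2 ^ a : ℕ) % 2 = 0 := by
      rw [← ha]
      exact h2
    have hodd1 : Odd (2 ^ a - 1) := by
      rw [Nat.odd_iff]
      omega
    have hodd2 : Odd (2 ^ a + 1) := by
      rw [Nat.odd_iff]
      omega
    exact hodd1.mul hodd2
  · rw [ha] at h2
    obtain ⟨b, rfl⟩ : ∃ b, a = b + 1 := ⟨a - 1, by omega⟩
    rw [pow_succ] at h2
    omega

/-- Elements of characteristic two with a primitive cube root of unity. -/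
lemma three_dvd_of_root {x : F} (hx : x ^ 2 + x + 1 = 0) (h2 : (2 : F) = 0) : 3 ∣ Fintype.card F - 1 := by
  have hx0 : x ≠ 0 := by
    rintro rfl
    simp at hx
  have hx1 : x ≠ 1 := by
    rintro rfl
    have : (1 : F) = 0 := by linear_combination hx - h2
    exact one_ne_zero this
  have hx3 : x ^ 3 = 1 := by linear_combination (x - 1) * hx
  let u : Fˣ := Units.mk0 x hx0
  have hu3 : u ^ 3 = 1 := by
    apply Units.ext
    simpa [u] using hx3
  have hu1 : u ≠ 1 := by
    intro h
    apply hx1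
    have := congrArg Units.val h
    simpa [u] using this
  have ho : orderOf u = 3 := orderOf_eq_prime hu3 hu1
  have h5 := orderOf_dvd_natCard u
  rw [ho, Nat.card_units, Nat.card_eq_fintype_card] at h5
  exact h5

lemma exists_root_of_even {a : ℕ} (ha : Fintype.card F = 2 ^ a) (hev : Even a) (hq : 1 < Fintype.card F) :
    ∃ x : F, x ^ 2 + x + 1 = 0 := by
  obtain ⟨k, rfl⟩ := hev
  have h3 : 3 ∣ Fintype.card F - 1 := by
    rw [ha, ← two_mul, pow_mul]
    have := Nat.sub_dvd_pow_sub_pow (2 ^ 2) 1 k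
    simpa using this
  have hcard : 3 ∣ Nat.card Fˣ := by
    rw [Nat.card_units, Nat.card_eq_fintype_card]
    exact h3
  haveI : Fact (Nat.Prime 3) := ⟨Nat.prime_three⟩
  obtain ⟨u, hu⟩ := exists_prime_orderOf_dvd_card' 3 hcard
  have hu3 : u ^ 3 = 1 := by
    rw [← hu]
    exact pow_orderOf_eq_one u
  have hu1 : u ≠ 1 := by
    intro h
    rw [h, orderOf_one] at hu
    omega
  have hx3 : (u : F) ^ 3 = 1 := by
    have := congrArg Units.val hu3
    simpa using this
  have hx1 : (u : F) - 1 ≠ 0 := by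
    intro h
    apply hu1
    apply Units.ext
    simpa using sub_eq_zero.1 h
  refine ⟨u, ?_⟩
  have : ((u : F) - 1) * ((u : F) ^ 2 + u + 1) = 0 := by linear_combination hx3
  exact (mul_eq_zero.1 this).resolve_left hx1

/-- The forward direction. -/
theorem forward (hq : 4 ≤ Fintype.card F) (hq5 : Fintype.card F ≠ 5) {H : Subgroup (PSL2 F)} (hH : H ≠ ⊤)
    (hS : RStar ⊤ H) :
    H = ⊥ ∨ ((∃ a : ℕ, Fintype.card F = 2 ^ a) ∧ ∃ P : Sylow 2 (PSL2 F), H = P) ∨
        ((∃ a : ℕ, Odd a ∧ Fintype.card F = 2 ^ a) ∧ Nat.card H = 3) := by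
  classical
  haveI : Finite (PSL2 F) := fin_psl
  rcases out_of_rstar hq hq5 hH hS with h | ⟨h2, hc⟩ | ⟨h2, hc, hroot⟩
  · left
    rw [eq_bot_iff]
    intro x hx
    obtain ⟨S, rfl⟩ := piS_surj x
    have := piS_eq_one_of_isSc (h S hx)
    rw [this]
    exact Subgroup.one_mem _
  · right
    left
    haveI : CharP F 2 := CharTwo.of_one_ne_zero_of_two_eq_zero one_ne_zero h2
    haveI : Fact (Nat.Prime 2) := ⟨Nat.prime_two⟩
    obtain ⟨k, -, hk⟩ := FiniteField.card F 2
    have hk1 : 1 ≤ (k : ℕ) := k.pos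
    refine ⟨⟨k, hk⟩, ?_⟩
    have hcH : Nat.card H = 2 ^ (Nat.card (PSL2 F)).factorization 2 := by
      rw [card_psl_two hk hk1, ← hk, ← hc, card_comap_piS h2]
    exact ⟨Sylow.ofCard H hcH, (Sylow.coe_ofCard H hcH).symm⟩
  · right
    right
    haveI : CharP F 2 := CharTwo.of_one_ne_zero_of_two_eq_zero one_ne_zero h2
    haveI : Fact (Nat.Prime 2) := ⟨Nat.prime_two⟩
    obtain ⟨k, -, hk⟩ := FiniteField.card F 2
    refine ⟨⟨k, ?_, hk⟩, ?_⟩
    · by_contra hodd
      rw [Nat.not_odd_iff_even] at hodd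
      obtain ⟨x, hx⟩ := exists_root_of_even hk hodd (one_lt_card (F := F))
      exact hroot x hx
    · rw [← hc, card_comap_piS h2]

lemma card_EU : Nat.card (EU : Subgroup (SL(2, F))) = Fintype.card F := by
  rw [← Nat.card_eq_fintype_card]
  symm
  refine Nat.card_congr (Equiv.ofBijective (fun e : F => (⟨uS e, rfl, rfl⟩ : (EU : Subgroup (SL(2, F))))) ⟨?_, ?_⟩)
  · intro e e' h
    have := congrArg (fun S : (EU : Subgroup (SL(2, F))) => (S : SL(2, F)) 0 1) h
    exact this
  · rintro ⟨S, h0, h1⟩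
    refine ⟨S 0 1, ?_⟩
    apply Subtype.ext
    have hd := sl_det S
    rw [h0, h1] at hd
    apply Matrix.SpecialLinearGroup.ext
    intro i j
    fin_cases i <;> fin_cases j
    · exact h0.symm
    · rfl
    · exact h1.symm
    · show (1 : F) = S 1 1
      linear_combination -hd

/-- The backward direction. -/
theorem backward (hq : 4 ≤ Fintype.card F) {H : Subgroup (PSL2 F)}
    (h : H = ⊥ ∨ ((∃ a : ℕ, Fintype.card F = 2 ^ a) ∧ ∃ P : Sylow 2 (PSL2 F), H = P) ∨
        ((∃ a : ℕ, Odd a ∧ Fintype.card F = 2 ^ a) ∧ Nat.card H = 3)) : RStar ⊤ H := by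
  classical
  haveI : Finite (PSL2 F) := fin_psl
  obtain ⟨p, hp⟩ := CharP.exists F
  have two_of : ∀ a : ℕ, Fintype.card F = 2 ^ a → (2 : F) = 0 := by
    intro a ha
    have ha0 : a ≠ 0 := by
      rintro rfl
      rw [ha] at hq
      norm_num at hq
    have hev : Even (Fintype.card F) := by
      rw [ha]
      exact (Nat.even_pow.2 ⟨even_two, ha0⟩)
    have := Cfsg.Agent.Lib.Classical.SL2.A4S4.char_two_of_even (p := p) hev
    subst this
    exact_mod_cast CharP.cast_eq_zero F 2
  rcases h with rfl | ⟨⟨a, ha⟩, P, rfl⟩ | ⟨⟨a, hodd, ha⟩, hc⟩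
  · exact rstar_bot
  · have h2 := two_of a ha
    haveI : Fact (Nat.Prime 2) := ⟨Nat.prime_two⟩
    have ha1 : 1 ≤ a := by
      rcases Nat.eq_zero_or_pos a with rfl | h
      · rw [ha] at hq
        norm_num at hq
      · exact h
    have hinj := piS_inj_of_two h2
    have hc0 : Nat.card ((EU : Subgroup (SL(2, F))).map (piS (F := F))) = 2 ^ (Nat.card (PSL2 F)).factorization 2 := by
      rw [Subgroup.card_map_of_injective hinj, card_EU, card_psl_two ha ha1, ha]
    obtain ⟨g, hg⟩ := MulAction.exists_smul_eq (PSL2 F) (Sylow.ofCard _ hc0) P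
    have hP0 : RStar ⊤ ((EU : Subgroup (SL(2, F))).map (piS (F := F))) := by
      apply RStar.of_comap_surj piS piS_surj
      rw [Subgroup.comap_map_eq_self_of_injective hinj]
      exact rstar_EU
    have h3 := RStar.map_equiv (MulAut.conj g) hP0
    have h4 : (⊤ : Subgroup (PSL2 F)).map (MulAut.conj g).toMonoidHom = ⊤ :=
      Subgroup.map_top_of_surjective _ (MulAut.conj g).surjective
    rw [h4] at h3
    have h5 : ((P : Sylow 2 (PSL2 F)) : Subgroup (PSL2 F)) = ((EU : Subgroup (SL(2, F))).map (piS (F := F))).map (MulAut.conj g).toMonoidHom := by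
      rw [← hg]
      rfl
    rw [h5]
    exact h3
  · have h2 := two_of a ha
    have hroot : ∀ x : F, x ^ 2 + x + 1 ≠ 0 := by
      intro x hx
      have h3 := three_dvd_of_root hx h2
      apply Cfsg.Agent.Lib.Classical.SL2.A4S4.num_three_mod hodd
      rw [← ha]
      exact Dvd.dvd.mul_left h3 _
    apply RStar.of_comap_surj piS piS_surj
    apply rstar_three h2 hroot
    rw [card_comap_piS h2, hc]

end Cfsg.Agent.Lib.Classical.SL2.Binary
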