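import Cfsg.Agent.Lib.Classical.SL2.Binary.SubF
import Cfsg.Agent.Lib.Classical.SL2.A5Sub

/-!
From the geometric Dickson theorem to normal forms in `SL₂(F)`.
-/

set_option autoImplicit false
set_option linter.unusedSectionVars false
set_option linter.unusedSimpArgs false
set_option linter.style.haveILetI false

open scoped MatrixGroups
open Matrix OnePoint

namespace Cfsg.Agent.Lib.Classical.SL2.Binary

open Cfsg.Agent.Lib.Classical.SL2.Moebius Cfsg.Agent.Lib.Classical.SL2.Rational
open Cfsg.Agent.Lib.Classical.SL2.SubfieldCase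
open Cfsg.Agent.Lib.Classical.SL2.Dickson Cfsg.Agent.Lib.Classical.SL2.Precise
open Cfsg.Agent.Lib.Classical.SL2.Tori

local notation "PGL2" => ProjGenLinGroup (Fin 2)
local notation "PSL2" => ProjectiveSpecialLinearGroup (Fin 2)

variable {F : Type*} [Field F]

local notation "M2" => Matrix (Fin 2) (Fin 2) F

/-- The projection of `SL₂(F)` to `PGL₂(F)`. -/
noncomputable def piP : SL(2, F) →* PGL2 F := ProjGenLinGroup.mk.comp SpecialLinearGroup.toGL

lemma piP_apply (S : SL(2, F)) : piP S = ProjGenLinGroup.mk (SpecialLinearGroup.toGL S) := rfl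

lemma piP_cjS (c : GL (Fin 2) F) (S : SL(2, F)) :
    piP (cjS c S) = ProjGenLinGroup.mk c * piP S * (ProjGenLinGroup.mk c)⁻¹ := by
  rw [piP_apply, piP_apply, ← map_inv, ← map_mul, ← map_mul]
  congr 1
  apply Units.ext
  rfl

lemma toGL_cjS (c : GL (Fin 2) F) (S : SL(2, F)) :
    SpecialLinearGroup.toGL (cjS c S) * c = c * SpecialLinearGroup.toGL S :=
  Units.ext (intertwine_cjS c S)

lemma piP_mS : piP (mS : SL(2, F)) = 1 := by
  rw [piP_apply]
  exact scalar_of_entries rfl rfl rfl

section Main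

variable [Fintype F] [DecidableEq F]

lemma gl_smul_zero_eq_zero {g : GL (Fin 2) F} (h : g • ((0 : F) : OnePoint F) = ((0 : F) : OnePoint F)) :
    g 0 1 = 0 := by
  rw [smul_coe] at h
  split_ifs at h with hd
  · simp at h
  · rw [OnePoint.coe_eq_coe] at h
    simp only [mul_zero, zero_add] at h hd
    exact (div_eq_zero_iff.1 h).resolve_right hd

lemma gl_smul_infty_eq_zero {g : GL (Fin 2) F} (h : g • (∞ : OnePoint F) = ((0 : F) : OnePoint F)) :
    g 0 0 = 0 := by
  rw [smul_infty] at h
  split_ifs at h with hd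
  · simp at h
  · rw [OnePoint.coe_eq_coe] at h
    exact (div_eq_zero_iff.1 h).resolve_right hd

lemma gl_smul_zero_eq_infty {g : GL (Fin 2) F} (h : g • ((0 : F) : OnePoint F) = (∞ : OnePoint F)) :
    g 1 1 = 0 := by
  rw [smul_coe] at h
  split_ifs at h with hd
  · simpa using hd
  · simp at h

variable (E : Type*) [Field E] [Algebra F E] [DecidableEq E]

/-- A group fixing a rational point. -/
theorem out_of_fix (hq : 4 ≤ Fintype.card F) (hq5 : Fintype.card F ≠ 5) {U : Subgroup (PGL2 F)}
    (hS : RStar ⊤ (U.comap piP)) {ω : OnePoint F} (h : ∀ x ∈ U, toE E x • ιp E ω = ιp E ω) :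
    Out (U.comap piP) := by
  obtain ⟨c, hc⟩ := exists_smul_infty ω
  obtain ⟨H', hS', hmem⟩ := exists_conj_sub hS c
  apply Out.of_conj c hmem
  have hup : ∀ S ∈ H', S 1 0 = 0 := by
    intro S hSH
    have h1 : piP (cjS c S) ∈ U := (hmem S).1 hSH
    have h2 := h _ h1
    rw [piP_apply, toE_mk_smul_ιp] at h2
    have h3 := ιp_injective E h2
    rw [← hc, ← mul_smul, toGL_cjS, mul_smul] at h3
    have h5 := smul_left_cancel c h3
    exact fix_infty_iff.1 h5
  have hm : mS ∈ H' := by
    rw [hmem, cjS_mS]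
    show piP mS ∈ U
    rw [piP_mS]
    exact U.one_mem
  exact borel_case hq hq5 hS' hm hup

/-- The identity `toE x • (c • ω) = c • (...)`. -/
lemma toE_conj_smul (c : GL (Fin 2) F) (S : SL(2, F)) (ω : OnePoint E) :
    toE E (piP (cjS c S)) • (toE E (ProjGenLinGroup.mk c) • ω) =
      toE E (ProjGenLinGroup.mk c) • (toE E (piP S) • ω) := by
  rw [piP_cjS, ← mul_smul, ← mul_smul, ← map_mul, ← map_mul]
  congr 2
  group

/-- A group stabilising a split pair. -/
theorem out_of_split (hq : 4 ≤ Fintype.card F) (hq5 : Fintype.card F ≠ 5) {U : Subgroup (PGL2 F)}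
    (hS : RStar ⊤ (U.comap piP)) {a b : OnePoint E} (hp : SplitPair F a b)
    (h : ∀ x ∈ U, (toE E x • a = a ∧ toE E x • b = b) ∨ (toE E x • a = b ∧ toE E x • b = a)) :
    Out (U.comap piP) := by
  obtain ⟨C, hC1, hC2⟩ := exists_conj_split hp
  obtain ⟨c, rfl⟩ := ProjGenLinGroup.mk_surjective C
  obtain ⟨H', hS', hmem⟩ := exists_conj_sub hS c
  apply Out.of_conj c hmem
  have hm : mS ∈ H' := by
    rw [hmem, cjS_mS]
    show piP mS ∈ U
    rw [piP_mS]
    exact U.one_mem
  have hinf : (∞ : OnePoint E) = ιp E (∞ : OnePoint F) := rfl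
  have hN : NormT H' (!![1, 0; 0, 0] : M2) 1 := by
    intro S hSH
    have h1 : piP (cjS c S) ∈ U := (hmem S).1 hSH
    have h2 := h _ h1
    rw [← hC1, ← hC2, toE_conj_smul, toE_conj_smul] at h2
    simp only [smul_left_cancel_iff] at h2
    rw [piP_apply, hinf, toE_mk_smul_ιp, toE_mk_smul_ιp] at h2
    simp only [(ιp_injective E).eq_iff] at h2
    rcases h2 with ⟨h3, h4⟩ | ⟨h3, h4⟩
    · left
      have h10 : S 1 0 = 0 := fix_infty_iff.1 h3
      have h01 : S 0 1 = 0 := gl_smul_zero_eq_zero h4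
      apply m2_ext <;> simp [m2_mul00, m2_mul01, m2_mul10, m2_mul11, h10, h01]
    · right
      have h00 : S 0 0 = 0 := gl_smul_infty_eq_zero h3
      have h11 : S 1 1 = 0 := gl_smul_zero_eq_infty h4
      apply m2_ext <;> simp [m2_mul00, m2_mul01, m2_mul10, m2_mul11, h00, h11]
  rcases torus_case hq hq5 hS' hm (θ := !![1, 0; 0, 0]) (τ := 1) (by simp) (by simp) hN with h5 | h5
  · exact Or.inl h5
  · exact Or.inr (Or.inr h5)

/-- A group stabilising a non-split pair. -/
theorem out_of_nonsplit [IsAlgClosed E] (hq : 4 ≤ Fintype.card F) (hq5 : Fintype.card F ≠ 5) {U : Subgroup (PGL2 F)}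
    (hS : RStar ⊤ (U.comap piP)) {a b : OnePoint E} (hp : NonsplitPair F a b)
    (h : ∀ x ∈ U, (toE E x • a = a ∧ toE E x • b = b) ∨ (toE E x • a = b ∧ toE E x • b = a)) :
    Out (U.comap piP) := by
  obtain ⟨z, rfl, rfl, hz1, hz2⟩ := hp
  obtain ⟨τ, hτ⟩ := frob_sum (F := F) hz2
  obtain ⟨δ, hδ⟩ := frob_prod (F := F) hz2
  have hnot := notMem_range (F := F) hz1
  set z' := z ^ Fintype.card F with hz'
  let ι := algebraMap F E
  have hlin : ∀ A B : F, ι A * z + ι B = 0 → A = 0 ∧ B = 0 := by
    intro A B h0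
    have hA : A = 0 := by
      by_contra hA
      apply hnot
      refine ⟨- B / A, ?_⟩
      have hA' : ι A ≠ 0 := (map_ne_zero ι).2 hA
      rw [map_div₀, map_neg]
      show - ι B / ι A = z
      field_simp
      linear_combination (-1 : E) * h0
    refine ⟨hA, ?_⟩
    rw [hA, map_zero, zero_mul, zero_add] at h0
    exact (map_eq_zero ι).1 h0
  have hzz : z ^ 2 = ι τ * z - ι δ := by
    show z ^ 2 = algebraMap F E τ * z - algebraMap F E δ
    rw [hτ, hδ]
    ring
  have hzz' : z' * z = ι δ := by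
    show z' * z = algebraMap F E δ
    rw [hδ]
    ring
  have hz'τ : z' = ι τ - z := by
    show z' = algebraMap F E τ - z
    rw [hτ]
    ring
  have hdisc : τ ^ 2 - 4 * δ ≠ 0 := by
    intro h0
    have h1 := congrArg ι h0
    simp only [map_sub, map_mul, map_pow, map_zero] at h1
    have h2 : (z - z') ^ 2 = 0 := by
      have e4 : ι 4 = 4 := map_ofNat ι 4
      rw [e4] at h1
      have e1 : ι τ = z + z' := hτ
      have e2 : ι δ = z * z' := hδ
      rw [e1, e2] at h1
      linear_combination h1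
    have h3 := pow_eq_zero_iff two_ne_zero |>.1 h2
    exact hz1 (sub_eq_zero.1 h3).symm
  let θ : M2 := !![τ, -δ; 1, 0]
  have hN : NormT (U.comap piP) θ τ := by
    intro S hSH
    have hdS := sl_det S
    rcases h _ hSH with ⟨h1, -⟩ | ⟨h1, -⟩
    · left
      rw [piP_apply, toE_mk, mk_smul, smul_coe] at h1
      simp only [map_entry] at h1
      split_ifs at h1 with hd
      · simp at h1
      · rw [OnePoint.coe_eq_coe, div_eq_iff hd] at h1
        have e : ι (S 0 0 - S 1 0 * τ - S 1 1) * z + ι (S 0 1 + S 1 0 * δ) = 0 := by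
          simp only [map_sub, map_add, map_mul]
          have e00 : algebraMap F E ((SpecialLinearGroup.toGL S) 0 0) = ι (S 0 0) := rfl
          have e01 : algebraMap F E ((SpecialLinearGroup.toGL S) 0 1) = ι (S 0 1) := rfl
          have e10 : algebraMap F E ((SpecialLinearGroup.toGL S) 1 0) = ι (S 1 0) := rfl
          have e11 : algebraMap F E ((SpecialLinearGroup.toGL S) 1 1) = ι (S 1 1) := rfl
          rw [e00, e01, e10, e11] at h1
          linear_combination h1 + (ι (S 1 0)) * hzz
        obtain ⟨h3, h4⟩ := hlin _ _ e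
        apply m2_ext <;> simp only [m2_mul00, m2_mul01, m2_mul10, m2_mul11, θ, Matrix.of_apply,
          Matrix.cons_val_zero, Matrix.cons_val_one, Matrix.cons_val', Matrix.cons_val_fin_one, Matrix.head_cons,
          Matrix.head_fin_const]
        · linear_combination h4
        · linear_combination (-δ) * h3 - τ * h4
        · linear_combination (-1 : F) * h3
        · linear_combination (-1 : F) * h4
    · right
      rw [piP_apply, toE_mk, mk_smul, smul_coe] at h1
      simp only [map_entry] at h1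
      split_ifs at h1 with hd
      · simp at h1
      · rw [OnePoint.coe_eq_coe, div_eq_iff hd] at h1
        have e : ι (S 0 0 + S 1 1) * z + ι (S 0 1 - S 1 0 * δ - S 1 1 * τ) = 0 := by
          simp only [map_sub, map_add, map_mul]
          have e00 : algebraMap F E ((SpecialLinearGroup.toGL S) 0 0) = ι (S 0 0) := rfl
          have e01 : algebraMap F E ((SpecialLinearGroup.toGL S) 0 1) = ι (S 0 1) := rfl
          have e10 : algebraMap F E ((SpecialLinearGroup.toGL S) 1 0) = ι (S 1 0) := rfl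
          have e11 : algebraMap F E ((SpecialLinearGroup.toGL S) 1 1) = ι (S 1 1) := rfl
          rw [e00, e01, e10, e11] at h1
          rw [hz'τ] at h1
          linear_combination h1 - (ι (S 1 0)) * hzz
        obtain ⟨h3, h4⟩ := hlin _ _ e
        apply m2_ext <;> simp only [m2_mul00, m2_mul01, m2_mul10, m2_mul11, θ, Matrix.of_apply, Matrix.sub_apply, Matrix.smul_apply, Matrix.one_apply_eq, Matrix.one_apply_ne (zero_ne_one), Matrix.one_apply_ne (one_ne_zero), smul_eq_mul,
          Matrix.cons_val_zero, Matrix.cons_val_one, Matrix.cons_val', Matrix.cons_val_fin_one, Matrix.head_cons,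
          Matrix.head_fin_const]
        · linear_combination τ * h3 + h4
        · linear_combination (-δ) * h3
        · linear_combination h3
        · linear_combination h4
  have hm : mS ∈ U.comap piP := by
    show piP mS ∈ U
    rw [piP_mS]
    exact U.one_mem
  rcases torus_case hq hq5 hS hm (θ := θ) (τ := τ) (by simp [θ]) (by simpa [θ] using hdisc) hN with h5 | h5
  · exact Or.inl h5
  · exact Or.inr (Or.inr h5)

/-- The subfield case. -/
theorem false_of_subfield {U : Subgroup (PGL2 F)} (hS : RStar ⊤ (U.comap piP)) (C : PGL2 F) (F₀ : Subfield F)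
    (hF₀ : F₀ ≠ ⊤) (hU : U = ((φ₀ F₀).range).map (MulAut.conj C).toMonoidHom ∨
        U = ((φ₁ F₀).range).map (MulAut.conj C).toMonoidHom) : False := by
  obtain ⟨c, rfl⟩ := ProjGenLinGroup.mk_surjective C
  obtain ⟨H', hS', hmem⟩ := exists_conj_sub hS c
  have hmem' : ∀ S, S ∈ H' ↔ piP S ∈ U.map (MulAut.conj (ProjGenLinGroup.mk c)).symm.toMonoidHom := by
    intro S
    rw [hmem]
    show piP (cjS c S) ∈ U ↔ _
    rw [piP_cjS]
    constructor
    · intro h
      exact ⟨_, h, by simp [MulAut.conj_symm_apply, mul_assoc]⟩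
    · rintro ⟨y, hy, h1⟩
      have : y = ProjGenLinGroup.mk c * piP S * (ProjGenLinGroup.mk c)⁻¹ := by
        rw [← h1]
        simp [MulAut.conj_symm_apply, mul_assoc]
      rwa [← this]
  have hR : ∀ R : Subgroup (PGL2 F), U = R.map (MulAut.conj (ProjGenLinGroup.mk c)).toMonoidHom →
      U.map (MulAut.conj (ProjGenLinGroup.mk c)).symm.toMonoidHom = R := by
    intro R h
    rw [h, Subgroup.map_map]
    ext x
    simp [Subgroup.mem_map, MulAut.conj_symm_apply, mul_assoc]
  have hφ : (φ₁ F₀).range ≤ (φ₀ F₀).range := by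
    rintro _ ⟨x, rfl⟩
    exact ⟨ProjectiveSpecialLinearGroup.toPGL x, rfl⟩
  have hle : ∀ S : SL(2, F), S ∈ H' → piP S ∈ (φ₀ F₀).range := by
    intro S hSH
    have h1 := (hmem' S).1 hSH
    rcases hU with h | h
    · rwa [hR _ h] at h1
    · rw [hR _ h] at h1
      exact hφ h1
  have hge : ∀ S : SL(2, F), piP S ∈ (φ₁ F₀).range → S ∈ H' := by
    intro S h2
    rw [hmem']
    rcases hU with h | h
    · rw [hR _ h]
      exact hφ h2
    · rwa [hR _ h]
  refine subfield_case F₀ hF₀ hS' ?_ ?_
  · intro S hSH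
    obtain ⟨y, hy⟩ := hle S hSH
    obtain ⟨g₀, rfl⟩ := ProjGenLinGroup.mk_surjective y
    rw [toE_mk, piP_apply, ProjGenLinGroup.mk_eq_mk_iff] at hy
    obtain ⟨u, hu⟩ := hy
    refine ⟨u, u.ne_zero, fun i j => ⟨(g₀ i j : F), (g₀ i j).2, ?_⟩⟩
    have h1 := congrArg (fun g : GL (Fin 2) F => g i j) hu
    simp only [mul_scalar_apply, map_entry] at h1
    rw [mul_comm]
    exact h1.symm
  · intro S hS1
    apply hge
    let M₀ : Matrix (Fin 2) (Fin 2) F₀ := fun i j => ⟨S i j, hS1 i j⟩
    have hd : M₀.det = 1 := by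
      rw [Matrix.det_fin_two]
      apply Subtype.ext
      simpa [M₀] using sl_det S
    refine ⟨QuotientGroup.mk ⟨M₀, hd⟩, ?_⟩
    show ProjGenLinGroup.mk _ = ProjGenLinGroup.mk _
    congr 1
    apply gl_ext <;> simp only [GeneralLinearGroup.map_apply] <;> rfl

end Main

end Cfsg.Agent.Lib.Classical.SL2.Binary
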