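import Cfsg.Agent.Lib.Classical.SL2.Binary.Cyc
import Cfsg.Agent.Lib.Classical.SL2.Klein4

/-!
Quaternion frames in `SL₂(F)`, `F` of odd characteristic: `i = j k` with `j`, `k` conjugate to `i`
under an element of order three (modulo `±1`).
-/

set_option autoImplicit false
set_option linter.unusedSectionVars false
set_option linter.unusedSimpArgs false

open scoped MatrixGroups Quaternion
open Matrix

namespace Cfsg.Agent.Lib.Classical.SL2.Binary

open Cfsg.Agent.Lib.Classical.SL2.QuatStd Cfsg.Agent.Lib.Classical.SL2.Klein4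

variable {F : Type*} [Field F]

local notation "M2" => Matrix (Fin 2) (Fin 2) F

variable (s : AB F)

/-- A quaternion of norm one as an element of `SL₂`. -/
noncomputable def sq (q : ℍ[F]) (hq : Quaternion.normSq q = 1) : SL(2, F) :=
  ⟨psi s q, by rw [psi_det]; exact hq⟩

lemma sq_coe (q : ℍ[F]) (hq : Quaternion.normSq q = 1) : ((sq s q hq : SL(2, F)) : M2) = psi s q := rfl

lemma sq_mul {p q r : ℍ[F]} (hp : Quaternion.normSq p = 1) (hq : Quaternion.normSq q = 1)
    (hr : Quaternion.normSq r = 1) (h : p * q = r) : sq s p hp * sq s q hq = sq s r hr := by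
  apply Subtype.ext
  show psi s p * psi s q = psi s r
  rw [← map_mul, h]

lemma sq_congr {p q : ℍ[F]} (hp : Quaternion.normSq p = 1) (hq : Quaternion.normSq q = 1)
    (h : p = q) : sq s p hp = sq s q hq := by
  subst h
  rfl

lemma exists_sq (S : SL(2, F)) : ∃ (q : ℍ[F]) (hq : Quaternion.normSq q = 1), S = sq s q hq := by
  obtain ⟨q, hq⟩ := psi_surjective s (S : M2)
  have h1 : Quaternion.normSq q = 1 := by
    rw [← psi_det, hq]
    exact S.2
  exact ⟨q, h1, Subtype.ext hq.symm⟩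

lemma sq_one (h : Quaternion.normSq (1 : ℍ[F]) = 1) : sq s 1 h = 1 := by
  apply Subtype.ext
  show psi s 1 = 1
  rw [map_one]

/-- The quaternion `(1 + i + j + k) / 2`. -/
noncomputable def qR : ℍ[F] := qq 2⁻¹ 2⁻¹ 2⁻¹ 2⁻¹
/-- Its inverse. -/
noncomputable def qR' : ℍ[F] := qq 2⁻¹ (-2⁻¹) (-2⁻¹) (-2⁻¹)

/-- Cyclic permutation of coordinates. -/
def rot (q : ℍ[F]) : ℍ[F] := qq q.re q.imJ q.imK q.imI
/-- The inverse cyclic permutation of coordinates. -/
def rot' (q : ℍ[F]) : ℍ[F] := qq q.re q.imK q.imI q.imJ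

lemma norm_rot (q : ℍ[F]) : Quaternion.normSq (rot q) = Quaternion.normSq q := by
  rw [rot, normSq_qq, Quaternion.normSq_def']
  show _ = q.re ^ 2 + q.imI ^ 2 + q.imJ ^ 2 + q.imK ^ 2
  ring

lemma norm_rot' (q : ℍ[F]) : Quaternion.normSq (rot' q) = Quaternion.normSq q := by
  rw [rot', normSq_qq, Quaternion.normSq_def']
  show _ = q.re ^ 2 + q.imI ^ 2 + q.imJ ^ 2 + q.imK ^ 2
  ring

include s in
lemma norm_qR : Quaternion.normSq (qR : ℍ[F]) = 1 := by
  have h2 := s.h2
  rw [qR, normSq_qq]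
  field_simp
  norm_num

include s in
lemma norm_qR' : Quaternion.normSq (qR' : ℍ[F]) = 1 := by
  have h2 := s.h2
  rw [qR', normSq_qq]
  field_simp
  norm_num

lemma qR_mul_rot (q : ℍ[F]) : qR * rot q = q * qR := by
  ext <;> simp [qR, rot] <;> ring

include s in
lemma qR_mul_qR' : (qR : ℍ[F]) * qR' = 1 := by
  have h2 := s.h2
  ext <;> simp [qR, qR'] <;> field_simp <;> norm_num

include s in
lemma qR'_mul_qR : (qR' : ℍ[F]) * qR = 1 := by
  have h2 := s.h2
  ext <;> simp [qR, qR'] <;> field_simp <;> norm_num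

/-- Conjugation by the frame element. -/
noncomputable def sR : SL(2, F) := sq s qR (norm_qR s)

lemma sR_inv : (sR s)⁻¹ = sq s qR' (norm_qR' s) := by
  apply inv_eq_of_mul_eq_one_right
  rw [sR, sq_mul s _ _ (by simp) (qR_mul_qR' s), sq_one]

lemma conj_sR (q : ℍ[F]) (hq : Quaternion.normSq q = 1) :
    (sR s)⁻¹ * sq s q hq * sR s = sq s (rot q) (by rw [norm_rot]; exact hq) := by
  have h1 : sq s q hq * sR s = sR s * sq s (rot q) (by rw [norm_rot]; exact hq) := by
    rw [sR, sq_mul s _ _ (by rw [map_mul, hq, norm_qR s, mul_one]) rfl,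
      sq_mul s _ _ (by rw [map_mul, norm_rot, hq, norm_qR s, mul_one]) rfl]
    exact sq_congr s _ _ (qR_mul_rot q).symm
  rw [mul_assoc, h1]
  group

lemma rot'_rot (q : ℍ[F]) : rot' (rot q) = q := by
  ext <;> rfl

lemma rot_rot' (q : ℍ[F]) : rot (rot' q) = q := by
  ext <;> rfl

lemma conj_sR' (q : ℍ[F]) (hq : Quaternion.normSq q = 1) :
    sR s * sq s q hq * (sR s)⁻¹ = sq s (rot' q) (by rw [norm_rot']; exact hq) := by
  have h1 := conj_sR s (rot' q) (by rw [norm_rot']; exact hq)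
  have h2 : sq s (rot (rot' q)) (by rw [norm_rot, norm_rot']; exact hq) = sq s q hq :=
    sq_congr s _ _ (rot_rot' q)
  rw [h2] at h1
  rw [← h1]
  group

/-- **The frame lemma**. -/
theorem frame_lemma {H : Subgroup (SL(2, F))} (hS : RStar ⊤ H)
    (hi : sq s qI (by rw [qI, normSq_qq]; norm_num) ∈ H) :
    ∃ (q₁ q₂ : ℍ[F]) (h₁ : Quaternion.normSq q₁ = 1) (h₂ : Quaternion.normSq q₂ = 1),
      sq s q₁ h₁ ∈ H ∧ sq s (rot q₁) (by rw [norm_rot]; exact h₁) ∈ H ∧
      sq s q₂ h₂ ∈ H ∧ sq s (rot' q₂) (by rw [norm_rot']; exact h₂) ∈ H ∧ q₁ * q₂ = qI := by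
  have nI : Quaternion.normSq (qI : ℍ[F]) = 1 := by rw [qI, normSq_qq]; norm_num
  have nJ : Quaternion.normSq (qJ : ℍ[F]) = 1 := by rw [qJ, normSq_qq]; norm_num
  have nK : Quaternion.normSq (qK : ℍ[F]) = 1 := by rw [qK, normSq_qq]; norm_num
  obtain ⟨k, hk, y, hy, hty⟩ := hS {1, sR s} (sR s)⁻¹ (sq s qI nI) (fun _ _ => trivial) trivial trivial (by
    rintro a (rfl | rfl)
    · exact ⟨_, mem_Cj_one.2 hi, 1, Subgroup.one_mem _, by simp⟩
    · refine ⟨sq s qJ nJ, ?_, sq s qK nK, ?_, ?_⟩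
      · rw [mem_Cj, conj_sR, sq_congr s _ nI (show rot (qJ : ℍ[F]) = qI from rfl)]
        exact hi
      · rw [mem_Cj, inv_inv, conj_sR', sq_congr s _ nI (show rot' (qK : ℍ[F]) = qI from rfl)]
        exact hi
      · rw [sq_mul s nJ nK nI]
        ext <;> simp [qI, qJ, qK])
  have hkH : k ∈ H := mem_Cj_one.1 (hk 1 (by simp))
  have hkR : (sR s)⁻¹ * k * sR s ∈ H := mem_Cj.1 (hk (sR s) (by simp))
  have hyH : y ∈ H := by
    have : y = k⁻¹ * sq s qI nI := by rw [hty]; group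
    rw [this]
    exact H.mul_mem (H.inv_mem hkH) hi
  have hyR : sR s * y * (sR s)⁻¹ ∈ H := by
    have := mem_Cj.1 hy
    rwa [inv_inv] at this
  obtain ⟨q₁, h₁, rfl⟩ := exists_sq s k
  obtain ⟨q₂, h₂, rfl⟩ := exists_sq s y
  refine ⟨q₁, q₂, h₁, h₂, hkH, ?_, hyH, ?_, ?_⟩
  · rwa [conj_sR] at hkR
  · rwa [conj_sR'] at hyR
  · apply psi_injective s
    have := congrArg Subtype.val hty
    rw [map_mul]
    exact this.symm

/-- The dihedral case in quaternion form: a subgroup normalising a torus with axis `β j + γ k`,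
`β γ ≠ 0`, and containing `i`. -/
theorem dih_quat {H : Subgroup (SL(2, F))} (hS : RStar ⊤ H)
    (hi : sq s qI (by rw [qI, normSq_qq]; norm_num) ∈ H) {β γ : F} (hβ : β ≠ 0) (hγ : γ ≠ 0)
    (hN : ∀ (q : ℍ[F]) (hq : Quaternion.normSq q = 1), sq s q hq ∈ H →
      q * qq 0 0 β γ = qq 0 0 β γ * q ∨ q * qq 0 0 β γ = -(qq 0 0 β γ * q)) : False := by
  have h2 := s.h2
  obtain ⟨q₁, q₂, h₁, h₂, hq₁, hr₁, hq₂, hr₂, hprod⟩ := frame_lemma s hS hi
  -- the coordinates of commuting and anticommuting elements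
  have heven : ∀ q : ℍ[F], q * qq 0 0 β γ = qq 0 0 β γ * q → q.imI = 0 ∧ q.imJ * γ = q.imK * β := by
    intro q hq
    have e1 := congrArg (fun x : ℍ[F] => x.imI) hq
    have e2 := congrArg (fun x : ℍ[F] => x.imJ) hq
    simp at e1 e2
    constructor
    · have : 2 * (q.imI * γ) = 0 := by linear_combination -e2
      exact ((mul_eq_zero.1 ((mul_eq_zero.1 this).resolve_left h2)).resolve_right hγ)
    · have : 2 * (q.imJ * γ - q.imK * β) = 0 := by linear_combination e1
      exact sub_eq_zero.1 ((mul_eq_zero.1 this).resolve_left h2)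
  have hodd : ∀ q : ℍ[F], q * qq 0 0 β γ = -(qq 0 0 β γ * q) → q.re = 0 ∧ q.imJ * β + q.imK * γ = 0 := by
    intro q hq
    have e0 := congrArg (fun x : ℍ[F] => x.re) hq
    have e2 := congrArg (fun x : ℍ[F] => x.imJ) hq
    simp at e0 e2
    constructor
    · have : 2 * (q.re * β) = 0 := by linear_combination e2
      exact ((mul_eq_zero.1 ((mul_eq_zero.1 this).resolve_left h2)).resolve_right hβ)
    · have : 2 * (q.imJ * β + q.imK * γ) = 0 := by linear_combination -e0
      exact (mul_eq_zero.1 this).resolve_left h2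
  -- an even element with an admissible rotation is scalar
  have hsc1 : q₁ * qq 0 0 β γ = qq 0 0 β γ * q₁ → q₁.imI = 0 ∧ q₁.imJ = 0 ∧ q₁.imK = 0 := by
    intro he
    obtain ⟨e1, e2⟩ := heven q₁ he
    rcases hN _ _ hr₁ with h | h
    · obtain ⟨e3, e4⟩ := heven _ h
      have e3' : q₁.imJ = 0 := e3
      have e4' : q₁.imK * γ = q₁.imI * β := e4
      rw [e1, zero_mul] at e4'
      exact ⟨e1, e3', (mul_eq_zero.1 e4').resolve_right hγ⟩
    · exfalso
      obtain ⟨e3, e4⟩ := hodd _ h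
      have e3' : q₁.re = 0 := e3
      have e4' : q₁.imK * β + q₁.imI * γ = 0 := e4
      rw [e1, zero_mul, add_zero] at e4'
      have e5 : q₁.imK = 0 := (mul_eq_zero.1 e4').resolve_right hβ
      rw [e5, zero_mul] at e2
      have e6 : q₁.imJ = 0 := (mul_eq_zero.1 e2).resolve_right hγ
      have := h₁
      rw [Quaternion.normSq_def'] at this
      rw [e3', e1, e5, e6] at this
      norm_num at this
  have hsc2 : q₂ * qq 0 0 β γ = qq 0 0 β γ * q₂ → q₂.imI = 0 ∧ q₂.imJ = 0 ∧ q₂.imK = 0 := by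
    intro he
    obtain ⟨e1, e2⟩ := heven q₂ he
    rcases hN _ _ hr₂ with h | h
    · obtain ⟨e3, e4⟩ := heven _ h
      have e3' : q₂.imK = 0 := e3
      rw [e3', zero_mul] at e2
      exact ⟨e1, (mul_eq_zero.1 e2).resolve_right hγ, e3'⟩
    · exfalso
      obtain ⟨e3, e4⟩ := hodd _ h
      have e3' : q₂.re = 0 := e3
      have e4' : q₂.imI * β + q₂.imJ * γ = 0 := e4
      rw [e1, zero_mul, zero_add] at e4'
      have e5 : q₂.imJ = 0 := (mul_eq_zero.1 e4').resolve_right hγ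
      rw [e5, zero_mul] at e2
      have e6 : q₂.imK = 0 := (mul_eq_zero.1 e2.symm).resolve_right hβ
      have := h₂
      rw [Quaternion.normSq_def'] at this
      rw [e3', e1, e5, e6] at this
      norm_num at this
  -- `i` is odd
  have hI : (qI : ℍ[F]) * qq 0 0 β γ ≠ qq 0 0 β γ * qI := by
    intro h
    have e2 := congrArg (fun x : ℍ[F] => x.imJ) h
    simp [qI] at e2
    have : 2 * γ = 0 := by linear_combination -e2
    exact hγ ((mul_eq_zero.1 this).resolve_left h2)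
  rcases hN _ _ hq₁ with h1 | h1 <;> rcases hN _ _ hq₂ with h3 | h3
  · apply hI
    rw [← hprod, mul_assoc, h3, ← mul_assoc, h1, mul_assoc]
  · -- `q₁` even
    obtain ⟨a1, a2, a3⟩ := hsc1 h1
    have e1 := congrArg (fun x : ℍ[F] => x.imI) hprod
    have e2 := congrArg (fun x : ℍ[F] => x.imJ) hprod
    have e3 := congrArg (fun x : ℍ[F] => x.imK) hprod
    simp [qI, a1, a2, a3] at e1 e2 e3
    have hr0 : q₁.re ≠ 0 := by
      rintro h0
      rw [h0, zero_mul] at e1
      exact zero_ne_one e1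
    have c2 : q₂.imJ = 0 := e2.resolve_left hr0
    have c3 : q₂.imK = 0 := e3.resolve_left hr0
    have c1 : q₂.imI ≠ 0 := by
      rintro h0
      rw [h0, mul_zero] at e1
      exact zero_ne_one e1
    rcases hN _ _ hr₂ with h | h
    · obtain ⟨e3, e4⟩ := heven _ h
      have e4' : q₂.imI * γ = q₂.imJ * β := e4
      rw [c2, zero_mul] at e4'
      exact (mul_ne_zero c1 hγ) e4'
    · obtain ⟨e3, e4⟩ := hodd _ h
      have e4' : q₂.imI * β + q₂.imJ * γ = 0 := e4
      rw [c2, zero_mul, add_zero] at e4'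
      exact (mul_ne_zero c1 hβ) e4'
  · -- `q₂` even
    obtain ⟨a1, a2, a3⟩ := hsc2 h3
    have e1 := congrArg (fun x : ℍ[F] => x.imI) hprod
    have e2 := congrArg (fun x : ℍ[F] => x.imJ) hprod
    have e3 := congrArg (fun x : ℍ[F] => x.imK) hprod
    simp [qI, a1, a2, a3] at e1 e2 e3
    have hr0 : q₂.re ≠ 0 := by
      rintro h0
      rw [h0, mul_zero] at e1
      exact zero_ne_one e1
    have c2 : q₁.imJ = 0 := e2.resolve_right hr0
    have c3 : q₁.imK = 0 := e3.resolve_right hr0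
    have c1 : q₁.imI ≠ 0 := by
      rintro h0
      rw [h0, zero_mul] at e1
      exact zero_ne_one e1
    rcases hN _ _ hr₁ with h | h
    · obtain ⟨e3, e4⟩ := heven _ h
      have e4' : q₁.imK * γ = q₁.imI * β := e4
      rw [c3, zero_mul] at e4'
      exact (mul_ne_zero c1 hβ) e4'.symm
    · obtain ⟨e3, e4⟩ := hodd _ h
      have e4' : q₁.imK * β + q₁.imI * γ = 0 := e4
      rw [c3, zero_mul, zero_add] at e4'
      exact (mul_ne_zero c1 hγ) e4'
  · apply hI
    rw [← hprod, mul_assoc, h3]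
    have : q₁ * -(qq 0 0 β γ * q₂) = -(q₁ * qq 0 0 β γ * q₂) := by noncomm_ring
    rw [this, h1]
    noncomm_ring

end Cfsg.Agent.Lib.Classical.SL2.Binary
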