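import Cfsg.Agent.Lib.Classical.SL2.Binary.Star
import Cfsg.Agent.Lib.Classical.BinaryForms

/-!
Explicit elements of `SL₂(F)`, conjugation by `GL₂(F)`, companion forms, and conjugacy of regular
elements with the same trace.
-/

set_option autoImplicit false
set_option linter.unusedSectionVars false

open scoped MatrixGroups
open Matrix

namespace Cfsg.Agent.Lib.Classical.SL2.Binary

variable {F : Type*} [Field F]

local notation "M2" => Matrix (Fin 2) (Fin 2) F

lemma m2_ext {S T : M2} (h00 : S 0 0 = T 0 0) (h01 : S 0 1 = T 0 1) (h10 : S 1 0 = T 1 0)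
    (h11 : S 1 1 = T 1 1) : S = T := by
  ext i j
  fin_cases i <;> fin_cases j <;> assumption

lemma sl_ext {S T : SL(2, F)} (h00 : S 0 0 = T 0 0) (h01 : S 0 1 = T 0 1) (h10 : S 1 0 = T 1 0)
    (h11 : S 1 1 = T 1 1) : S = T :=
  Subtype.ext (m2_ext h00 h01 h10 h11)

lemma sl_det (S : SL(2, F)) : S 0 0 * S 1 1 - S 0 1 * S 1 0 = 1 := by
  have := S.2
  rwa [Matrix.det_fin_two] at this

lemma m2_mul00 (S T : M2) : (S * T) 0 0 = S 0 0 * T 0 0 + S 0 1 * T 1 0 := by
  simp [Matrix.mul_apply, Fin.sum_univ_two]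
lemma m2_mul01 (S T : M2) : (S * T) 0 1 = S 0 0 * T 0 1 + S 0 1 * T 1 1 := by
  simp [Matrix.mul_apply, Fin.sum_univ_two]
lemma m2_mul10 (S T : M2) : (S * T) 1 0 = S 1 0 * T 0 0 + S 1 1 * T 1 0 := by
  simp [Matrix.mul_apply, Fin.sum_univ_two]
lemma m2_mul11 (S T : M2) : (S * T) 1 1 = S 1 0 * T 0 1 + S 1 1 * T 1 1 := by
  simp [Matrix.mul_apply, Fin.sum_univ_two]

lemma sl_mul00 (S T : SL(2, F)) : (S * T) 0 0 = S 0 0 * T 0 0 + S 0 1 * T 1 0 :=
  m2_mul00 S.1 T.1
lemma sl_mul01 (S T : SL(2, F)) : (S * T) 0 1 = S 0 0 * T 0 1 + S 0 1 * T 1 1 :=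
  m2_mul01 S.1 T.1
lemma sl_mul10 (S T : SL(2, F)) : (S * T) 1 0 = S 1 0 * T 0 0 + S 1 1 * T 1 0 :=
  m2_mul10 S.1 T.1
lemma sl_mul11 (S T : SL(2, F)) : (S * T) 1 1 = S 1 0 * T 0 1 + S 1 1 * T 1 1 :=
  m2_mul11 S.1 T.1

lemma sl_inv00 (S : SL(2, F)) : (S⁻¹) 0 0 = S 1 1 := by
  show adjugate S.1 0 0 = _
  rw [Matrix.adjugate_fin_two]; rfl
lemma sl_inv01 (S : SL(2, F)) : (S⁻¹) 0 1 = - S 0 1 := by
  show adjugate S.1 0 1 = _
  rw [Matrix.adjugate_fin_two]; rfl
lemma sl_inv10 (S : SL(2, F)) : (S⁻¹) 1 0 = - S 1 0 := by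
  show adjugate S.1 1 0 = _
  rw [Matrix.adjugate_fin_two]; rfl
lemma sl_inv11 (S : SL(2, F)) : (S⁻¹) 1 1 = S 0 0 := by
  show adjugate S.1 1 1 = _
  rw [Matrix.adjugate_fin_two]; rfl

lemma sl_one00 : (1 : SL(2, F)) 0 0 = 1 := rfl
lemma sl_one01 : (1 : SL(2, F)) 0 1 = 0 := rfl
lemma sl_one10 : (1 : SL(2, F)) 1 0 = 0 := rfl
lemma sl_one11 : (1 : SL(2, F)) 1 1 = 1 := rfl

/-- An element of `SL₂` from its entries. -/
def mk2 (a b c d : F) (h : a * d - b * c = 1) : SL(2, F) :=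
  ⟨!![a, b; c, d], by rw [Matrix.det_fin_two_of]; exact h⟩

section
variable {a b c d : F} {h : a * d - b * c = 1}
@[simp] lemma mk2_00 : (mk2 a b c d h) 0 0 = a := rfl
@[simp] lemma mk2_01 : (mk2 a b c d h) 0 1 = b := rfl
@[simp] lemma mk2_10 : (mk2 a b c d h) 1 0 = c := rfl
@[simp] lemma mk2_11 : (mk2 a b c d h) 1 1 = d := rfl
end

/-- Upper unipotent. -/
def uS (a : F) : SL(2, F) := mk2 1 a 0 1 (by ring)
/-- Lower unipotent. -/
def lS (a : F) : SL(2, F) := mk2 1 0 a 1 (by ring)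
/-- Diagonal. -/
noncomputable def dS (d : F) (hd : d ≠ 0) : SL(2, F) := mk2 d 0 0 d⁻¹ (by field_simp; ring)
/-- The Weyl element. -/
def wS : SL(2, F) := mk2 0 1 (-1) 0 (by ring)
/-- The scalar `-1`. -/
def mS : SL(2, F) := mk2 (-1) 0 0 (-1) (by ring)

/-- Simplification set for explicit computations. -/
lemma uS_mul (a b : F) : uS a * uS b = uS (a + b) := by
  apply sl_ext <;> simp [sl_mul00, sl_mul01, sl_mul10, sl_mul11, uS, add_comm]

lemma uS_zero : uS (0 : F) = 1 := by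
  apply sl_ext <;> simp [uS]

lemma uS_inv (a : F) : (uS a)⁻¹ = uS (-a) := by
  apply eq_comm.1
  apply eq_inv_of_mul_eq_one_left
  rw [uS_mul]
  simp [uS_zero]

lemma mS_mul_mS : (mS : SL(2, F)) * mS = 1 := by
  apply sl_ext <;> simp [sl_mul00, sl_mul01, sl_mul10, sl_mul11, mS]

lemma mS_inv : (mS : SL(2, F))⁻¹ = mS := inv_eq_of_mul_eq_one_left mS_mul_mS

lemma mS_mul00 (S : SL(2, F)) : (mS * S : SL(2, F)) 0 0 = - S 0 0 := by simp [sl_mul00, mS]
lemma mS_mul01 (S : SL(2, F)) : (mS * S : SL(2, F)) 0 1 = - S 0 1 := by simp [sl_mul01, mS]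
lemma mS_mul10 (S : SL(2, F)) : (mS * S : SL(2, F)) 1 0 = - S 1 0 := by simp [sl_mul10, mS]
lemma mS_mul11 (S : SL(2, F)) : (mS * S : SL(2, F)) 1 1 = - S 1 1 := by simp [sl_mul11, mS]

lemma mS_comm (S : SL(2, F)) : mS * S = S * mS := by
  apply sl_ext <;> simp [sl_mul00, sl_mul01, sl_mul10, sl_mul11, mS]

/-- Scalar matrices. -/
def IsSc (A : M2) : Prop := A 0 1 = 0 ∧ A 1 0 = 0 ∧ A 0 0 = A 1 1

/-- Elements commuting with a non-scalar matrix are polynomials in it. -/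
lemma comm_poly {t k : M2} (ht : ¬ IsSc t) (hk : k * t = t * k) :
    ∃ x y : F, k 0 0 = x + y * t 0 0 ∧ k 0 1 = y * t 0 1 ∧ k 1 0 = y * t 1 0 ∧ k 1 1 = x + y * t 1 1 := by
  have e00 := congrFun (congrFun hk 0) 0
  have e01 := congrFun (congrFun hk 0) 1
  have e10 := congrFun (congrFun hk 1) 0
  have e11 := congrFun (congrFun hk 1) 1
  rw [m2_mul00, m2_mul00] at e00
  rw [m2_mul01, m2_mul01] at e01
  rw [m2_mul10, m2_mul10] at e10
  rw [m2_mul11, m2_mul11] at e11
  by_cases h1 : t 0 1 = 0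
  · by_cases h2 : t 1 0 = 0
    · have h3 : t 0 0 - t 1 1 ≠ 0 := by
        intro h
        exact ht ⟨h1, h2, sub_eq_zero.1 h⟩
      refine ⟨k 0 0 - (k 0 0 - k 1 1) / (t 0 0 - t 1 1) * t 0 0, (k 0 0 - k 1 1) / (t 0 0 - t 1 1), by ring, ?_, ?_, ?_⟩
      · rw [h1, mul_zero]
        rw [h1] at e01
        have : k 0 1 * (t 0 0 - t 1 1) = 0 := by linear_combination -e01
        exact (mul_eq_zero.1 this).resolve_right h3
      · rw [h2, mul_zero]
        rw [h2] at e10
        have : k 1 0 * (t 0 0 - t 1 1) = 0 := by linear_combination e10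
        exact (mul_eq_zero.1 this).resolve_right h3
      · field_simp
        ring
    · refine ⟨k 1 1 - k 1 0 / t 1 0 * t 1 1, k 1 0 / t 1 0, ?_, ?_, ?_, by ring⟩
      · field_simp
        linear_combination (-1 : F) * e10
      · rw [h1, mul_zero]
        rw [h1] at e00
        have : k 0 1 * t 1 0 = 0 := by linear_combination e00
        exact (mul_eq_zero.1 this).resolve_right h2
      · field_simp
  · refine ⟨k 0 0 - k 0 1 / t 0 1 * t 0 0, k 0 1 / t 0 1, by ring, ?_, ?_, ?_⟩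
    · field_simp
    · field_simp
      linear_combination (-1 : F) * e00
    · field_simp
      linear_combination (-1 : F) * e01

lemma isSc_of_comm {t z k : M2} (ht : ¬ IsSc t) (hk : k * t = t * k) (hkz : k * z = z * k)
    (hnc : t * z ≠ z * t) : IsSc k := by
  obtain ⟨x, y, h00, h01, h10, h11⟩ := comm_poly ht hk
  have hk' : k = x • 1 + y • t := by
    apply m2_ext <;> simp [h00, h01, h10, h11]
  by_cases hy : y = 0
  · subst hy
    refine ⟨by simp [h01], by simp [h10], by simp [h00, h11]⟩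
  · exfalso
    apply hnc
    rw [hk'] at hkz
    simp only [add_mul, mul_add, smul_mul_assoc, mul_smul_comm, one_mul, mul_one] at hkz
    have h1 : y • (t * z) = y • (z * t) := by
      have := add_left_cancel hkz
      exact this
    exact smul_right_injective _ hy h1

/-- The companion matrix of `X² - τ X + δ`. -/
def compM (τ δ : F) : M2 := !![0, -δ; 1, τ]

/-- Traces and determinants of 2×2 matrices, by hand. -/
lemma cayley2 (A : M2) :
    A * A = (A 0 0 + A 1 1) • A - (A 0 0 * A 1 1 - A 0 1 * A 1 0) • 1 := by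
  apply m2_ext <;> simp [m2_mul00, m2_mul01, m2_mul10, m2_mul11] <;> ring

/-- Companion form of a non-scalar matrix. -/
lemma exists_companion {A : M2} (hA : ¬ IsSc A) :
    ∃ P : M2, P.det ≠ 0 ∧ A * P = P * compM (A 0 0 + A 1 1) (A 0 0 * A 1 1 - A 0 1 * A 1 0) := by
  by_cases h1 : A 1 0 = 0
  · by_cases h2 : A 0 1 = 0
    · have h3 : A 0 0 - A 1 1 ≠ 0 := fun h => hA ⟨h2, h1, sub_eq_zero.1 h⟩
      refine ⟨!![1, A 0 0; 1, A 1 1], ?_, ?_⟩
      · rw [Matrix.det_fin_two_of]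
        intro h
        exact h3 (by linear_combination -h)
      · apply m2_ext <;> simp [m2_mul00, m2_mul01, m2_mul10, m2_mul11, compM, h1, h2] <;> ring
    · refine ⟨!![0, A 0 1; 1, A 1 1], ?_, ?_⟩
      · rw [Matrix.det_fin_two_of]
        intro h
        exact h2 (by linear_combination -h)
      · apply m2_ext <;> simp [m2_mul00, m2_mul01, m2_mul10, m2_mul11, compM, h1] <;> ring
  · refine ⟨!![1, A 0 0; 0, A 1 0], ?_, ?_⟩
    · rw [Matrix.det_fin_two_of]
      intro h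
      exact h1 (by linear_combination h)
    · apply m2_ext <;> simp [m2_mul00, m2_mul01, m2_mul10, m2_mul11, compM] <;> ring

section Conj

lemma gl_inv_mul (c : GL (Fin 2) F) : ((c⁻¹ : GL (Fin 2) F) : M2) * (c : M2) = 1 := by
  rw [← Units.val_mul]; simp

lemma gl_mul_inv (c : GL (Fin 2) F) : (c : M2) * ((c⁻¹ : GL (Fin 2) F) : M2) = 1 := by
  rw [← Units.val_mul]; simp

/-- Conjugation by `GL₂(F)` on `SL₂(F)`. -/
noncomputable def cjS (c : GL (Fin 2) F) : SL(2, F) ≃* SL(2, F) where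
  toFun S := ⟨(c : M2) * S * ((c⁻¹ : GL (Fin 2) F) : M2), by
    rw [Matrix.det_mul, Matrix.det_mul, S.2, mul_one, ← Matrix.det_mul, gl_mul_inv, Matrix.det_one]⟩
  invFun S := ⟨((c⁻¹ : GL (Fin 2) F) : M2) * S * (c : M2), by
    rw [Matrix.det_mul, Matrix.det_mul, S.2, mul_one, ← Matrix.det_mul, gl_inv_mul, Matrix.det_one]⟩
  left_inv S := by
    apply Subtype.ext
    have h : ((c⁻¹ : GL (Fin 2) F) : M2) * (c : M2) = 1 := by
      rw [← Units.val_mul]; simp
    show ((c⁻¹ : GL (Fin 2) F) : M2) * ((c : M2) * S * ((c⁻¹ : GL (Fin 2) F) : M2)) * (c : M2) = S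
    calc _ = (((c⁻¹ : GL (Fin 2) F) : M2) * (c : M2)) * S * (((c⁻¹ : GL (Fin 2) F) : M2) * (c : M2)) := by
          noncomm_ring
      _ = S := by rw [h]; simp
  right_inv S := by
    apply Subtype.ext
    have h : (c : M2) * ((c⁻¹ : GL (Fin 2) F) : M2) = 1 := by
      rw [← Units.val_mul]; simp
    show (c : M2) * (((c⁻¹ : GL (Fin 2) F) : M2) * S * (c : M2)) * ((c⁻¹ : GL (Fin 2) F) : M2) = S
    calc _ = ((c : M2) * ((c⁻¹ : GL (Fin 2) F) : M2)) * S * ((c : M2) * ((c⁻¹ : GL (Fin 2) F) : M2)) := by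
          noncomm_ring
      _ = S := by rw [h]; simp
  map_mul' S T := by
    apply Subtype.ext
    have h : ((c⁻¹ : GL (Fin 2) F) : M2) * (c : M2) = 1 := by
      rw [← Units.val_mul]; simp
    show (c : M2) * (S * T : M2) * ((c⁻¹ : GL (Fin 2) F) : M2) =
      ((c : M2) * S * ((c⁻¹ : GL (Fin 2) F) : M2)) * ((c : M2) * T * ((c⁻¹ : GL (Fin 2) F) : M2))
    calc _ = (c : M2) * S * 1 * T * ((c⁻¹ : GL (Fin 2) F) : M2) := by simp [mul_assoc]
      _ = _ := by rw [← h]; noncomm_ring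

lemma cjS_coe (c : GL (Fin 2) F) (S : SL(2, F)) :
    ((cjS c S : SL(2, F)) : M2) = (c : M2) * S * ((c⁻¹ : GL (Fin 2) F) : M2) := rfl

/-- The invertible matrix attached to a non-zero determinant. -/
noncomputable def glOfDet (P : M2) (h : P.det ≠ 0) : GL (Fin 2) F :=
  Matrix.GeneralLinearGroup.mkOfDetNeZero P h

lemma glOfDet_coe (P : M2) (h : P.det ≠ 0) : ((glOfDet P h : GL (Fin 2) F) : M2) = P := rfl

/-- `RStar` under conjugation by `GL₂`. -/
theorem rstar_cjS {H : Subgroup (SL(2, F))} (c : GL (Fin 2) F) (h : RStar ⊤ H) :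
    RStar ⊤ (H.map (cjS c).toMonoidHom) := by
  have := RStar.map_equiv (cjS c) h
  rwa [Subgroup.map_top_of_surjective _ (cjS c).surjective] at this

lemma mem_map_cjS {H : Subgroup (SL(2, F))} {c : GL (Fin 2) F} {S : SL(2, F)} :
    S ∈ H.map (cjS c).toMonoidHom ↔ (cjS c).symm S ∈ H := by
  constructor
  · rintro ⟨y, hy, rfl⟩
    simpa using hy
  · intro h
    exact ⟨_, h, by simp⟩

lemma cjS_symm_coe (c : GL (Fin 2) F) (S : SL(2, F)) :
    (((cjS c).symm S : SL(2, F)) : M2) = ((c⁻¹ : GL (Fin 2) F) : M2) * S * (c : M2) := rfl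

end Conj

section Conjugacy

variable [Fintype F]

/-- The norm form of a regular element is universal. -/
lemma form_universal {τ : F} (hτ : τ ^ 2 ≠ 4) (n : F) : ∃ x y : F, x ^ 2 + τ * x * y + y ^ 2 = n := by
  by_cases h : ∀ z₁ z₂ : F, z₁ ^ 2 + τ * z₁ * z₂ + 1 * z₂ ^ 2 = 0 → z₁ = 0 ∧ z₂ = 0
  · obtain ⟨x, y, hxy⟩ := BinaryForms.exists_norm_eq h n
    exact ⟨x, y, by linear_combination hxy⟩
  · push Not at h
    obtain ⟨z₁, z₂, h1, h2⟩ := h
    have hz₂ : z₂ ≠ 0 := by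
      rintro rfl
      have : z₁ = 0 := by
        have h3 : z₁ ^ 2 = 0 := by linear_combination h1
        exact pow_eq_zero_iff (two_ne_zero) |>.1 h3
      exact h2 this rfl
    set r := z₁ / z₂ with hr
    have hr2 : r ^ 2 + τ * r + 1 = 0 := by
      rw [hr]
      field_simp
      linear_combination h1
    have hr0 : r ≠ 0 := by
      rintro h0
      rw [h0] at hr2
      simp at hr2
    set r' := - τ - r with hr'
    have hrr' : r * r' = 1 := by rw [hr']; linear_combination -hr2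
    have hne : r' - r ≠ 0 := by
      intro h0
      apply hτ
      have h3 : r' = r := sub_eq_zero.1 h0
      have h4 : τ = - 2 * r := by
        have : r' = - τ - r := hr'
        rw [h3] at this
        linear_combination this
      rw [h4]
      have h5 : r * r = 1 := by
        have := hrr'
        rw [h3] at this
        exact this
      linear_combination 4 * h5
    refine ⟨n + r * ((n - 1) / (r' - r)), (n - 1) / (r' - r), ?_⟩
    set y := (n - 1) / (r' - r) with hy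
    have hy2 : (r' - r) * y = n - 1 := by rw [hy]; field_simp
    have hτ' : τ = - r - r' := by rw [hr']; ring
    rw [hτ']
    have : (n + r * y) ^ 2 + (-r - r') * (n + r * y) * y + y ^ 2 =
        n * (n - (r' - r) * y) + (1 - r * r') * y ^ 2 := by ring
    rw [this, hy2, hrr']
    ring

/-- Conjugacy of regular elements of `SL₂` with the same trace. -/
theorem exists_conj_of_trace {t z : SL(2, F)} (ht : ¬ IsSc (t : M2)) (hz : ¬ IsSc (z : M2))
    (htr : z 0 0 + z 1 1 = t 0 0 + t 1 1) (hτ : (t 0 0 + t 1 1) ^ 2 ≠ 4) :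
    ∃ b : SL(2, F), z = b * t * b⁻¹ := by
  obtain ⟨P, hP, hPt⟩ := exists_companion ht
  obtain ⟨Q, hQ, hQz⟩ := exists_companion hz
  have hdt := sl_det t
  have hdz := sl_det z
  rw [hdt] at hPt
  rw [hdz, htr] at hQz
  set τ := t 0 0 + t 1 1 with hτdef
  have hPd : IsUnit P.det := isUnit_iff_ne_zero.2 hP
  have hQd : IsUnit Q.det := isUnit_iff_ne_zero.2 hQ
  -- an intertwiner
  set g : M2 := Q * P⁻¹ with hg
  have hgd : g.det ≠ 0 := by
    rw [hg, Matrix.det_mul, Matrix.det_nonsing_inv]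
    exact mul_ne_zero hQ (by simpa [Ring.inverse_eq_inv'] using hP)
  have hPP : P * P⁻¹ = 1 := Matrix.mul_nonsing_inv _ hPd
  have hPP' : P⁻¹ * P = 1 := Matrix.nonsing_inv_mul _ hPd
  have hint : (z : M2) * g = g * t := by
    have h1 : P⁻¹ * (t : M2) = compM τ 1 * P⁻¹ := by
      calc P⁻¹ * (t : M2) = P⁻¹ * (t : M2) * (P * P⁻¹) := by rw [hPP, mul_one]
        _ = P⁻¹ * ((t : M2) * P) * P⁻¹ := by simp only [mul_assoc]
        _ = P⁻¹ * (P * compM τ 1) * P⁻¹ := by rw [hPt]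
        _ = (P⁻¹ * P) * compM τ 1 * P⁻¹ := by simp only [mul_assoc]
        _ = compM τ 1 * P⁻¹ := by rw [hPP', one_mul]
    rw [hg, ← mul_assoc, hQz, mul_assoc, mul_assoc, h1]
  obtain ⟨x, y, hxy⟩ := form_universal (τ := τ) hτ (g.det)⁻¹
  set m : M2 := x • 1 + y • (t : M2) with hm
  have hmdet : m.det = x ^ 2 + τ * x * y + y ^ 2 := by
    rw [Matrix.det_fin_two, hm]
    simp only [Matrix.add_apply, Matrix.smul_apply, Matrix.one_apply_eq, smul_eq_mul,
      Matrix.one_apply_ne (zero_ne_one), Matrix.one_apply_ne (one_ne_zero), mul_one, mul_zero, zero_add]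
    rw [hτdef]
    linear_combination y ^ 2 * hdt
  have hmt : m * (t : M2) = (t : M2) * m := by
    rw [hm]
    simp only [add_mul, mul_add, smul_mul_assoc, mul_smul_comm, one_mul, mul_one]
  have hb : (g * m).det = 1 := by
    rw [Matrix.det_mul, hmdet, hxy]
    exact mul_inv_cancel₀ hgd
  let b : SL(2, F) := ⟨g * m, hb⟩
  have key : z * b = b * t := by
    apply Subtype.ext
    show (z : M2) * (g * m) = (g * m) * (t : M2)
    calc (z : M2) * (g * m) = ((z : M2) * g) * m := (mul_assoc _ _ _).symm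
      _ = g * (t : M2) * m := by rw [hint]
      _ = g * ((t : M2) * m) := mul_assoc _ _ _
      _ = g * (m * (t : M2)) := by rw [hmt]
      _ = (g * m) * (t : M2) := (mul_assoc _ _ _).symm
  exact ⟨b, eq_mul_inv_of_mul_eq key⟩

end Conjugacy

end Cfsg.Agent.Lib.Classical.SL2.Binary
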