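import Cfsg.Agent.Lib.Classical.SL2.Binary.Forms
import Cfsg.Agent.Lib.Classical.SL2.Binary.Abs
import Cfsg.Agent.Lib.Classical.SL2.Klein4
import Cfsg.Agent.Lib.Classical.FieldTransfer

/-!
The subgroups `A₄` and `S₄` of `PSL₂(7)` are not binary.
-/

set_option autoImplicit false
set_option linter.unusedSectionVars false
set_option linter.unusedSimpArgs false
set_option linter.style.haveILetI false

open scoped MatrixGroups
open Matrix OnePoint

namespace Cfsg.Agent.Lib.Classical.SL2.Binary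

open Cfsg.Agent.Lib.Classical.SL2.Moebius Cfsg.Agent.Lib.Classical.SL2.Rational
open Cfsg.Agent.Lib.Classical.SL2.Dickson Cfsg.Agent.Lib.Classical.SL2.Tori
open Cfsg.Agent.Lib.Classical.SL2.QuatStd

local notation "PGL2" => ProjGenLinGroup (Fin 2)
local notation "PSL2" => ProjectiveSpecialLinearGroup (Fin 2)

section Gen

variable {F : Type*} [Field F]

local notation "M2" => Matrix (Fin 2) (Fin 2) F

/-- Elements of `SL₂(F)` with the same image in `PGL₂(F)`. -/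
lemma piP_eq_one {S : SL(2, F)} (h : piP S = 1) : S = 1 ∨ S = mS := by
  obtain ⟨h10, h01, h00⟩ := entries_of_scalar h
  have h10' : S 1 0 = 0 := h10
  have h01' : S 0 1 = 0 := h01
  have h00' : S 0 0 = S 1 1 := h00
  have hd := sl_det S
  rw [h10', mul_zero, sub_zero, ← h00'] at hd
  have : (S 0 0 - 1) * (S 0 0 + 1) = 0 := by linear_combination hd
  rcases mul_eq_zero.1 this with h1 | h1
  · left
    have h2 : S 0 0 = 1 := sub_eq_zero.1 h1
    apply sl_ext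
    · rw [h2]; rfl
    · rw [h01']; rfl
    · rw [h10']; rfl
    · rw [← h00', h2]; rfl
  · right
    have h2 : S 0 0 = -1 := by linear_combination h1
    apply sl_ext
    · rw [h2]; rfl
    · rw [h01']; rfl
    · rw [h10']; rfl
    · rw [← h00', h2]; rfl

lemma piP_eq_iff {S T : SL(2, F)} (h : piP S = piP T) : S = T ∨ S = mS * T := by
  have h1 : piP (S * T⁻¹) = 1 := by rw [map_mul, map_inv, h, mul_inv_cancel]
  rcases piP_eq_one h1 with h2 | h2
  · left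
    exact mul_inv_eq_one.1 h2
  · right
    exact mul_inv_eq_iff_eq_mul.1 h2

variable [DecidableEq F] [Fintype F]

/-- A scalar multiple of the image of a quaternion. -/
lemma piP_eq_pQ (s : AB F) {S : SL(2, F)} {q : Quaternion F} (hq : Quaternion.normSq q ≠ 0) {c : F} (hc : c ≠ 0)
    (h : ∀ i j, S i j = psi s q i j * c) : piP S = pQ s q hq := by
  rw [piP_apply, pQ]
  rw [ProjGenLinGroup.mk_eq_mk_iff]
  refine ⟨(Units.mk0 c hc)⁻¹, ?_⟩
  apply Units.ext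
  ext i j
  have h1 := Moebius.mul_scalar_apply (SpecialLinearGroup.toGL S) (Units.mk0 c hc)⁻¹ i j
  show ((SpecialLinearGroup.toGL S * GeneralLinearGroup.scalar (Fin 2) (Units.mk0 c hc)⁻¹ : GL (Fin 2) F)) i j = psi s q i j
  rw [h1]
  have h2 : (SpecialLinearGroup.toGL S) i j = S i j := rfl
  rw [h2, h]
  simp [hc]

end Gen

section Seven

instance fact_prime_seven' : Fact (Nat.Prime 7) := ⟨by norm_num⟩

local notation "Z7" => ZMod 7
local notation "T7" => (Z7 × Z7 × Z7 × Z7)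

/-- Explicit arithmetic in `SL₂(F₇)`. -/
def mulT (x y : T7) : T7 :=
  (x.1 * y.1 + x.2.1 * y.2.2.1, x.1 * y.2.1 + x.2.1 * y.2.2.2,
    x.2.2.1 * y.1 + x.2.2.2 * y.2.2.1, x.2.2.1 * y.2.1 + x.2.2.2 * y.2.2.2)

/-- The inverse in `SL₂(F₇)`. -/
def invT (x : T7) : T7 := (x.2.2.2, -x.2.1, -x.2.2.1, x.1)

/-- The code of an element of `SL₂(F₇)`. -/
def code (S : SL(2, Z7)) : T7 := (S 0 0, S 0 1, S 1 0, S 1 1)

lemma code_mul (S T : SL(2, Z7)) : code (S * T) = mulT (code S) (code T) := by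
  simp only [code, mulT, sl_mul00, sl_mul01, sl_mul10, sl_mul11]

lemma code_inv (S : SL(2, Z7)) : code S⁻¹ = invT (code S) := by
  simp only [code, invT, sl_inv00, sl_inv01, sl_inv10, sl_inv11]

/-- The standard solution of `a² + b² = -1` over `F₇`. -/
def s7 : AB Z7 := ⟨2, 3, by decide, by decide⟩

def I7 : SL(2, Z7) := mk2 0 1 6 0 (by decide)
def J7 : SL(2, Z7) := mk2 2 3 3 5 (by decide)
def W7 : SL(2, Z7) := mk2 2 1 0 4 (by decide)
def S7 : SL(2, Z7) := mk2 5 5 2 5 (by decide)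
def ρA : SL(2, Z7) := mk2 0 1 6 3 (by decide)
def γ7 : SL(2, Z7) := mk2 0 1 6 4 (by decide)
def ρS : SL(2, Z7) := mk2 0 1 6 2 (by decide)

lemma code_I7 : code I7 = (0, 1, 6, 0) := rfl
lemma code_J7 : code J7 = (2, 3, 3, 5) := rfl
lemma code_W7 : code W7 = (2, 1, 0, 4) := rfl
lemma code_S7 : code S7 = (5, 5, 2, 5) := rfl
lemma code_mS : code (mS : SL(2, Z7)) = (6, 0, 0, 6) := rfl
lemma code_ρA : code ρA = (0, 1, 6, 3) := rfl
lemma code_γ7 : code γ7 = (0, 1, 6, 4) := rfl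
lemma code_ρS : code ρS = (0, 1, 6, 2) := rfl

/-- The binary tetrahedral group, coded. -/
def LA : List T7 := [(0, 1, 6, 0), (0, 2, 3, 1), (0, 3, 2, 1), (0, 4, 5, 6), (0, 5, 4, 6), (0, 6, 1, 0), (1, 0, 0, 1), (1, 4, 5, 0), (1, 5, 4, 0), (2, 0, 1, 4), (2, 1, 0, 4), (2, 3, 3, 5), (3, 0, 1, 5), (3, 1, 0, 5), (3, 5, 5, 4), (4, 0, 6, 2), (4, 2, 2, 3), (4, 6, 0, 2), (5, 0, 6, 3), (5, 4, 4, 2), (5, 6, 0, 3), (6, 0, 0, 6), (6, 2, 3, 0), (6, 3, 2, 0)]

/-- The binary octahedral group, coded. -/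
def LS : List T7 := [(0, 1, 6, 0), (0, 2, 3, 1), (0, 3, 2, 1), (0, 4, 5, 6), (0, 5, 4, 6), (0, 6, 1, 0), (1, 0, 0, 1), (1, 1, 1, 2), (1, 2, 6, 6), (1, 3, 3, 3), (1, 4, 5, 0), (1, 5, 4, 0), (1, 6, 2, 6), (2, 0, 1, 4), (2, 1, 0, 4), (2, 2, 5, 2), (2, 3, 3, 5), (2, 4, 4, 5), (2, 5, 2, 2), (2, 6, 6, 1), (3, 0, 1, 5), (3, 1, 0, 5), (3, 2, 2, 4), (3, 3, 6, 4), (3, 4, 4, 1), (3, 5, 5, 4), (3, 6, 3, 4), (4, 0, 6, 2), (4, 1, 4, 3), (4, 2, 2, 3), (4, 3, 3, 6), (4, 4, 1, 3), (4, 5, 5, 3), (4, 6, 0, 2), (5, 0, 6, 3), (5, 1, 1, 6), (5, 2, 5, 5), (5, 3, 3, 2), (5, 4, 4, 2), (5, 5, 2, 5), (5, 6, 0, 3), (6, 0, 0, 6), (6, 1, 5, 1), (6, 2, 3, 0), (6, 3, 2, 0), (6, 4, 4, 4), (6, 5, 1, 1), (6, 6, 6, 5)]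

set_option maxRecDepth 100000 in
lemma LA_closed : ∀ c ∈ LA, ∀ g ∈ [((0, 1, 6, 0) : T7), (2, 3, 3, 5), (2, 1, 0, 4), (6, 0, 0, 6)],
    mulT c g ∈ LA ∧ mulT c (invT g) ∈ LA := by decide

set_option maxRecDepth 100000 in
lemma LS_closed : ∀ c ∈ LS, ∀ g ∈ [((0, 1, 6, 0) : T7), (2, 3, 3, 5), (2, 1, 0, 4), (5, 5, 2, 5), (6, 0, 0, 6)],
    mulT c g ∈ LS ∧ mulT c (invT g) ∈ LS := by decide

set_option maxRecDepth 100000 in
lemma LA_wit : ∀ c ∈ LA, mulT (mulT (invT (0, 1, 6, 3)) c) (0, 1, 6, 3) ∈ LA →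
    mulT (mulT (invT (0, 1, 6, 4)) (mulT (invT c) (0, 1, 6, 0))) (0, 1, 6, 4) ∈ LA → False := by decide

set_option maxRecDepth 100000 in
lemma LS_wit : ∀ c ∈ LS, mulT (mulT (invT (0, 1, 6, 2)) c) (0, 1, 6, 2) ∈ LS →
    mulT (mulT (invT (0, 1, 6, 4)) (mulT (invT c) (2, 1, 0, 4))) (0, 1, 6, 4) ∈ LS → False := by decide

lemma dec_A : I7 = (ρA * J7 * ρA⁻¹) * (γ7 * W7 * γ7⁻¹) := by
  apply Subtype.ext
  decide

lemma dec_S : W7 = (ρS * S7 * ρS⁻¹) * (γ7 * (S7 * J7) * γ7⁻¹) := by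
  apply Subtype.ext
  decide

lemma piP_I7 : piP I7 = x₀ s7 := by
  refine piP_eq_pQ s7 n_qI (c := 1) one_ne_zero ?_
  intro i j
  fin_cases i <;> fin_cases j
  · show I7 0 0 = psi s7 qI 0 0 * 1
    rw [psi_00]; decide
  · show I7 0 1 = psi s7 qI 0 1 * 1
    rw [psi_01]; decide
  · show I7 1 0 = psi s7 qI 1 0 * 1
    rw [psi_10]; decide
  · show I7 1 1 = psi s7 qI 1 1 * 1
    rw [psi_11]; decide

lemma piP_J7 : piP J7 = y₀ s7 := by
  refine piP_eq_pQ s7 n_qJ (c := 1) one_ne_zero ?_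
  intro i j
  fin_cases i <;> fin_cases j
  · show J7 0 0 = psi s7 qJ 0 0 * 1
    rw [psi_00]; decide
  · show J7 0 1 = psi s7 qJ 0 1 * 1
    rw [psi_01]; decide
  · show J7 1 0 = psi s7 qJ 1 0 * 1
    rw [psi_10]; decide
  · show J7 1 1 = psi s7 qJ 1 1 * 1
    rw [psi_11]; decide

lemma piP_W7 : piP W7 = ω₀ s7 := by
  refine piP_eq_pQ s7 (n_qW s7) (c := 4) (by decide) ?_
  intro i j
  fin_cases i <;> fin_cases j
  · show W7 0 0 = psi s7 qW 0 0 * 4
    rw [psi_00]; decide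
  · show W7 0 1 = psi s7 qW 0 1 * 4
    rw [psi_01]; decide
  · show W7 1 0 = psi s7 qW 1 0 * 4
    rw [psi_10]; decide
  · show W7 1 1 = psi s7 qW 1 1 * 4
    rw [psi_11]; decide

lemma piP_S7 : piP S7 = s₀ s7 := by
  refine piP_eq_pQ s7 (n_qS s7) (c := 5) (by decide) ?_
  intro i j
  fin_cases i <;> fin_cases j
  · show S7 0 0 = psi s7 qS 0 0 * 5
    rw [psi_00]; decide
  · show S7 0 1 = psi s7 qS 0 1 * 5
    rw [psi_01]; decide
  · show S7 1 0 = psi s7 qS 1 0 * 5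
    rw [psi_10]; decide
  · show S7 1 1 = psi s7 qS 1 1 * 5
    rw [psi_11]; decide

lemma code_of_closure_A {S : SL(2, Z7)} (h : S ∈ Subgroup.closure ({I7, J7, W7, mS} : Set (SL(2, Z7)))) :
    code S ∈ LA := by
  have hg : ∀ y ∈ ({I7, J7, W7, mS} : Set (SL(2, Z7))),
      code y ∈ [((0, 1, 6, 0) : T7), (2, 3, 3, 5), (2, 1, 0, 4), (6, 0, 0, 6)] := by
    rintro y (rfl | rfl | rfl | rfl)
    · rw [code_I7]; decide
    · rw [code_J7]; decide
    · rw [code_W7]; decide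
    · rw [code_mS]; decide
  induction h using Subgroup.closure_induction_right with
  | one => decide
  | mul_right x hx y hy ih =>
    rw [code_mul]
    exact (LA_closed _ ih _ (hg y hy)).1
  | mul_inv_cancel x hx y hy ih =>
    rw [code_mul, code_inv]
    exact (LA_closed _ ih _ (hg y hy)).2

lemma code_of_closure_S {S : SL(2, Z7)} (h : S ∈ Subgroup.closure ({I7, J7, W7, S7, mS} : Set (SL(2, Z7)))) :
    code S ∈ LS := by
  have hg : ∀ y ∈ ({I7, J7, W7, S7, mS} : Set (SL(2, Z7))),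
      code y ∈ [((0, 1, 6, 0) : T7), (2, 3, 3, 5), (2, 1, 0, 4), (5, 5, 2, 5), (6, 0, 0, 6)] := by
    rintro y (rfl | rfl | rfl | rfl | rfl)
    · rw [code_I7]; decide
    · rw [code_J7]; decide
    · rw [code_W7]; decide
    · rw [code_S7]; decide
    · rw [code_mS]; decide
  induction h using Subgroup.closure_induction_right with
  | one => decide
  | mul_right x hx y hy ih =>
    rw [code_mul]
    exact (LS_closed _ ih _ (hg y hy)).1
  | mul_inv_cancel x hx y hy ih =>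
    rw [code_mul, code_inv]
    exact (LS_closed _ ih _ (hg y hy)).2

theorem not_binary_A₀ : ¬ RStar ⊤ ((A₀ s7).comap piP) := by
  intro hS
  have hCL : ∀ S ∈ (A₀ s7).comap piP, code S ∈ LA := by
    intro S hS1
    have h1 : A₀ s7 ≤ (Subgroup.closure ({I7, J7, W7, mS} : Set (SL(2, Z7)))).map piP :=
      A₀_le_of s7 (V₀_le_of s7 ⟨I7, Subgroup.subset_closure (by simp), piP_I7⟩
        ⟨J7, Subgroup.subset_closure (by simp), piP_J7⟩) ⟨W7, Subgroup.subset_closure (by simp), piP_W7⟩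
    obtain ⟨T, hT, hTS⟩ := h1 hS1
    apply code_of_closure_A
    rcases piP_eq_iff hTS.symm with h2 | h2
    · rw [h2]
      exact hT
    · rw [h2]
      exact Subgroup.mul_mem _ (Subgroup.subset_closure (by simp)) hT
  have hI : I7 ∈ (A₀ s7).comap piP := by
    show piP I7 ∈ A₀ s7
    rw [piP_I7]
    exact V₀_le_A₀ s7 (x₀_mem s7)
  have hJ : J7 ∈ (A₀ s7).comap piP := by
    show piP J7 ∈ A₀ s7
    rw [piP_J7]
    exact V₀_le_A₀ s7 (y₀_mem s7)
  have hW : W7 ∈ (A₀ s7).comap piP := by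
    show piP W7 ∈ A₀ s7
    rw [piP_W7]
    exact ω₀_mem_A₀ s7
  obtain ⟨k, hk, h1, h2⟩ := rstar_pair hS (g₁ := ρA) (g₂ := γ7) hI dec_A
    (by
      have : ρA⁻¹ * (ρA * J7 * ρA⁻¹) * ρA = J7 := by group
      rw [this]; exact hJ)
    (by
      have : γ7⁻¹ * (γ7 * W7 * γ7⁻¹) * γ7 = W7 := by group
      rw [this]; exact hW)
  have e1 := hCL _ h1
  have e2 := hCL _ h2
  rw [code_mul, code_mul, code_inv, code_ρA] at e1
  rw [code_mul, code_mul, code_mul, code_inv, code_inv, code_I7, code_γ7] at e2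
  exact LA_wit _ (hCL k hk) e1 e2

theorem not_binary_N₀ : ¬ RStar ⊤ ((N₀ s7).comap piP) := by
  intro hS
  have hCL : ∀ S ∈ (N₀ s7).comap piP, code S ∈ LS := by
    intro S hS1
    have h1 : N₀ s7 ≤ (Subgroup.closure ({I7, J7, W7, S7, mS} : Set (SL(2, Z7)))).map piP :=
      N₀_le_of_gens s7 (V₀_le_of s7 ⟨I7, Subgroup.subset_closure (by simp), piP_I7⟩
        ⟨J7, Subgroup.subset_closure (by simp), piP_J7⟩) ⟨W7, Subgroup.subset_closure (by simp), piP_W7⟩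
        ⟨S7, Subgroup.subset_closure (by simp), piP_S7⟩
    obtain ⟨T, hT, hTS⟩ := h1 hS1
    apply code_of_closure_S
    rcases piP_eq_iff hTS.symm with h2 | h2
    · rw [h2]
      exact hT
    · rw [h2]
      exact Subgroup.mul_mem _ (Subgroup.subset_closure (by simp)) hT
  have hJ : J7 ∈ (N₀ s7).comap piP := by
    show piP J7 ∈ N₀ s7
    rw [piP_J7]
    exact le_N₀ s7 (y₀_mem s7)
  have hW : W7 ∈ (N₀ s7).comap piP := by
    show piP W7 ∈ N₀ s7
    rw [piP_W7]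
    exact ω₀_mem_N₀ s7
  have hS7 : S7 ∈ (N₀ s7).comap piP := by
    show piP S7 ∈ N₀ s7
    rw [piP_S7]
    exact s₀_mem_N₀ s7
  obtain ⟨k, hk, h1, h2⟩ := rstar_pair hS (g₁ := ρS) (g₂ := γ7) hW dec_S
    (by
      have : ρS⁻¹ * (ρS * S7 * ρS⁻¹) * ρS = S7 := by group
      rw [this]; exact hS7)
    (by
      have : γ7⁻¹ * (γ7 * (S7 * J7) * γ7⁻¹) * γ7 = S7 * J7 := by group
      rw [this]; exact Subgroup.mul_mem _ hS7 hJ)
  have e1 := hCL _ h1
  have e2 := hCL _ h2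
  rw [code_mul, code_mul, code_inv, code_ρS] at e1
  rw [code_mul, code_mul, code_mul, code_inv, code_inv, code_W7, code_γ7] at e2
  exact LS_wit _ (hCL k hk) e1 e2

end Seven

section Transfer

variable {F : Type*} [Field F]

/-- The lift of a subgroup of `PSL₂` to `SL₂`. -/
lemma comap_map_tP (H : Subgroup (PSL2 F)) :
    (H.map (tP (F := F))).comap piP = H.comap (QuotientGroup.mk' _) := by
  ext S
  constructor
  · rintro ⟨y, hy, hyS⟩
    have : y = (QuotientGroup.mk S : PSL2 F) := tP_injective (by rw [hyS]; rfl)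
    rw [this] at hy
    exact hy
  · intro h
    exact ⟨_, h, rfl⟩

theorem rstar_comap_piP {H : Subgroup (PSL2 F)} (hS : RStar ⊤ H) : RStar ⊤ ((H.map (tP (F := F))).comap piP) := by
  rw [comap_map_tP]
  have hsurj : Function.Surjective (QuotientGroup.mk' (Subgroup.center (SL(2, F)))) := QuotientGroup.mk'_surjective _
  refine hS.comap _ le_top ?_ le_top
  rw [Subgroup.map_top_of_surjective _ hsurj]

/-- Conjugating a lifted subgroup. -/
theorem rstar_conj_comap {U R : Subgroup (PGL2 F)} (C : PGL2 F) (hU : U = R.map (MulAut.conj C).toMonoidHom)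
    (hS : RStar ⊤ (U.comap piP)) : RStar ⊤ (R.comap piP) := by
  obtain ⟨c, rfl⟩ := ProjGenLinGroup.mk_surjective C
  obtain ⟨H', hS', hmem⟩ := exists_conj_sub hS c
  have : H' = R.comap piP := by
    ext S
    rw [hmem]
    show piP (cjS c S) ∈ U ↔ piP S ∈ R
    rw [piP_cjS, hU]
    constructor
    · rintro ⟨y, hy, h1⟩
      have : y = piP S := by
        have h2 : ProjGenLinGroup.mk c * y * (ProjGenLinGroup.mk c)⁻¹ =
            ProjGenLinGroup.mk c * piP S * (ProjGenLinGroup.mk c)⁻¹ := h1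
        simpa using h2
      rwa [← this]
    · intro h
      exact ⟨_, h, rfl⟩
  rwa [← this]

end Transfer

section Final

/-- `A₄` and `S₄` in `PSL₂(7)`. -/
theorem false_q7_zmod {H : Subgroup (PSL2 (ZMod 7))} (hS : RStar ⊤ H)
    (h : Nonempty (H ≃* alternatingGroup (Fin 4)) ∨ Nonempty (H ≃* Equiv.Perm (Fin 4))) : False := by
  have hS' := rstar_comap_piP hS
  let e₀ : H ≃* H.map (tP (F := ZMod 7)) := H.equivMapOfInjective _ tP_injective
  rcases h with ⟨⟨e⟩⟩ | ⟨⟨e⟩⟩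
  · obtain ⟨C, hC⟩ := conj_of_A4 s7 (e₀.symm.trans e)
    exact not_binary_A₀ (rstar_conj_comap C hC hS')
  · obtain ⟨C, hC⟩ := conj_of_S4 s7 (e₀.symm.trans e)
    exact not_binary_N₀ (rstar_conj_comap C hC hS')

/-- `A₄` and `S₄` in `PSL₂(F)`, `F` with seven elements. -/
theorem false_q7 {F : Type*} [Field F] [Fintype F] (hq : Fintype.card F = 7) {H : Subgroup (PSL2 F)} (hS : RStar ⊤ H)
    (h : Nonempty (H ≃* alternatingGroup (Fin 4)) ∨ Nonempty (H ≃* Equiv.Perm (Fin 4))) : False := by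
  classical
  have hch : CharP F 7 := by
    obtain ⟨p, hp⟩ := CharP.exists F
    haveI : Fact p.Prime := ⟨CharP.char_is_prime F p⟩
    obtain ⟨n, hpn, hn⟩ := FiniteField.card F p
    rw [hq] at hn
    have h7 : p ∣ 7 := by
      rw [hn]
      exact dvd_pow_self p n.ne_zero
    have := (Nat.prime_dvd_prime_iff_eq hpn (by norm_num)).1 h7
    rwa [this] at hp
  let e : F ≃+* ZMod 7 := (ZMod.ringEquivOfPrime F (by norm_num) hq).symm
  let σ : PSL2 F ≃* PSL2 (ZMod 7) := FieldTransfer.pslCongr e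
  have hS₁ : RStar ⊤ (H.map σ.toMonoidHom) := by
    have := RStar.map_equiv σ hS
    have e' : (⊤ : Subgroup (PSL2 F)).map σ.toMonoidHom = ⊤ :=
      Subgroup.map_top_of_surjective σ.toMonoidHom σ.surjective
    rwa [e'] at this
  refine false_q7_zmod hS₁ ?_
  let e₀ : H ≃* H.map σ.toMonoidHom := H.equivMapOfInjective _ σ.injective
  rcases h with ⟨⟨e₁⟩⟩ | ⟨⟨e₁⟩⟩
  · exact Or.inl ⟨e₀.symm.trans e₁⟩
  · exact Or.inr ⟨e₀.symm.trans e₁⟩

end Final

end Cfsg.Agent.Lib.Classical.SL2.Binary
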