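import Cfsg.Agent.Lib.Classical.SL2.Binary.Q7
import Cfsg.Agent.Lib.Classical.SL2.MaxList

/-!
The subgroups `A₄`, `S₄`, `A₅` of `PSL₂(F)` are not binary.
-/

set_option autoImplicit false
set_option linter.unusedSectionVars false
set_option linter.unusedSimpArgs false
set_option linter.style.haveILetI false

open scoped MatrixGroups
open Matrix OnePoint

namespace Cfsg.Agent.Lib.Classical.SL2.Binary

open Cfsg.Agent.Lib.Classical.SL2.Moebius Cfsg.Agent.Lib.Classical.SL2.Rational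
open Cfsg.Agent.Lib.Classical.SL2.SubfieldCase
open Cfsg.Agent.Lib.Classical.SL2.Dickson Cfsg.Agent.Lib.Classical.SL2.Precise
open Cfsg.Agent.Lib.Classical.SL2.Tori Cfsg.Agent.Lib.Classical.SL2.QuatStd
open Cfsg.Agent.Lib.Classical.SL2.EvenList Cfsg.Agent.Lib.Classical.SL2.Coatom
open Cfsg.Agent.Lib.Classical.SL2.MaxList

local notation "PGL2" => ProjGenLinGroup (Fin 2)
local notation "PSL2" => ProjectiveSpecialLinearGroup (Fin 2)

section Mat

variable {F : Type*} [Field F]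

local notation "M2" => Matrix (Fin 2) (Fin 2) F

lemma exists_lift {x : PGL2 F} (hx : x ∈ Lp F) : ∃ S : SL(2, F), piP S = x := by
  obtain ⟨y, rfl⟩ := hx
  obtain ⟨S, rfl⟩ := QuotientGroup.mk_surjective y
  exact ⟨S, rfl⟩

lemma piP_mem_Lp (S : SL(2, F)) : piP S ∈ Lp F := ⟨QuotientGroup.mk S, rfl⟩

lemma mS_ne_one (h2 : (2 : F) ≠ 0) : (mS : SL(2, F)) ≠ 1 := by
  intro h
  have := congrArg (fun S : SL(2, F) => S 0 0) h
  simp only [mS_00, sl_one00] at this
  apply h2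
  linear_combination (-1 : F) * this

lemma mS_mul_cube (X : SL(2, F)) : (mS * X) ^ 3 = mS * X ^ 3 := by
  have h := (mS_comm X)
  simp only [pow_succ, pow_zero, one_mul]
  calc mS * X * (mS * X) * (mS * X) = (mS * mS) * (X * X) * (mS * X) := by
        rw [mul_assoc mS X, ← mul_assoc X mS, ← h]; group
    _ = X * X * (mS * X) := by rw [mS_mul_mS, one_mul]
    _ = mS * (X * X * X) := by
        rw [← mul_assoc, mul_assoc X X mS, ← mS_comm X, ← mul_assoc X mS X, ← mS_comm X]; group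

/-- An inverted element inverts its centraliser: a matrix computation. -/
theorem inv_of_comm (h2 : (2 : F) ≠ 0) {x a τ : PGL2 F} (hx : x ∈ Lp F) (ha : a ∈ Lp F) (hτ : τ ∈ Lp F)
    (hx1 : x ≠ 1) (hx3 : x ^ 3 = 1) (hax : a * x = x * a) (hτx : τ * x * τ⁻¹ = x⁻¹) : τ * a * τ⁻¹ = a⁻¹ := by
  obtain ⟨X₀, rfl⟩ := exists_lift hx
  obtain ⟨A, rfl⟩ := exists_lift ha
  obtain ⟨W, rfl⟩ := exists_lift hτ
  obtain ⟨X, hXeq, hX3⟩ : ∃ X, piP X = piP X₀ ∧ X ^ 3 = 1 := by
    have h1 : piP (X₀ ^ 3) = 1 := by rw [map_pow]; exact hx3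
    rcases piP_eq_one h1 with h3 | h3
    · exact ⟨X₀, rfl, h3⟩
    · refine ⟨mS * X₀, by rw [map_mul, piP_mS, one_mul], ?_⟩
      rw [mS_mul_cube, h3, mS_mul_mS]
  rw [← hXeq] at hx1 hax hτx
  have hmS := mS_ne_one h2
  have hAX : A * X = X * A := by
    have h1 : piP (A * X * A⁻¹ * X⁻¹) = 1 := by
      rw [map_mul, map_mul, map_mul, map_inv, map_inv, hax]
      group
    rcases piP_eq_one h1 with h3 | h3
    · have h4 : A * X * A⁻¹ = X := by
        rwa [mul_inv_eq_one] at h3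
      exact mul_inv_eq_iff_eq_mul.1 h4
    · exfalso
      have h4 : A * X * A⁻¹ = mS * X := mul_inv_eq_iff_eq_mul.1 h3
      have h5 : (A * X * A⁻¹) ^ 3 = 1 := by
        rw [conj_pow, hX3]
        group
      rw [h4, mS_mul_cube, hX3, mul_one] at h5
      exact hmS h5
  have hWX : W * X * W⁻¹ = X⁻¹ := by
    have h1 : piP (W * X * W⁻¹ * X) = 1 := by
      rw [map_mul, map_mul, map_mul, map_inv, hτx]
      group
    rcases piP_eq_one h1 with h3 | h3
    · exact eq_inv_of_mul_eq_one_left h3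
    · exfalso
      have h4 : W * X * W⁻¹ = mS * X⁻¹ := eq_mul_inv_of_mul_eq h3
      have h5 : (W * X * W⁻¹) ^ 3 = 1 := by
        rw [conj_pow, hX3]
        group
      rw [h4, mS_mul_cube, inv_pow, hX3, inv_one, mul_one] at h5
      exact hmS h5
  have hns : ¬ IsSc (X : M2) := by
    rintro ⟨h3, h4, h5⟩
    exact hx1 (scalar_of_entries h4 h3 h5)
  obtain ⟨α, β, h00, h01, h10, h11⟩ := comm_poly hns (congrArg Subtype.val hAX : (A : M2) * X = X * A)
  have hAeq : (A : M2) = α • 1 + β • (X : M2) := by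
    apply m2_ext <;> simp [h00, h01, h10, h11]
  have hB : ((W * A * W⁻¹ : SL(2, F)) : M2) = α • 1 + β • ((X⁻¹ : SL(2, F)) : M2) := by
    have e1 : (W : M2) * ((W⁻¹ : SL(2, F)) : M2) = 1 := congrArg Subtype.val (mul_inv_cancel W)
    have e2 : (W : M2) * (X : M2) * ((W⁻¹ : SL(2, F)) : M2) = ((X⁻¹ : SL(2, F)) : M2) := congrArg Subtype.val hWX
    calc ((W * A * W⁻¹ : SL(2, F)) : M2) = (W : M2) * (A : M2) * ((W⁻¹ : SL(2, F)) : M2) := rfl
      _ = α • ((W : M2) * ((W⁻¹ : SL(2, F)) : M2)) + β • ((W : M2) * (X : M2) * ((W⁻¹ : SL(2, F)) : M2)) := by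
        rw [hAeq, mul_add, add_mul, mul_smul_comm, mul_smul_comm, smul_mul_assoc, smul_mul_assoc, mul_one]
      _ = _ := by rw [e1, e2]
  have b00 : (W * A * W⁻¹ : SL(2, F)) 0 0 = α + β * X 1 1 := by
    have := congrFun (congrFun hB 0) 0
    simp only [Matrix.add_apply, Matrix.smul_apply, Matrix.one_apply_eq, smul_eq_mul, mul_one] at this
    have e : ((X⁻¹ : SL(2, F)) : M2) 0 0 = X 1 1 := sl_inv00 X
    rw [e] at this
    exact this
  have b01 : (W * A * W⁻¹ : SL(2, F)) 0 1 = - (β * X 0 1) := by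
    have := congrFun (congrFun hB 0) 1
    simp only [Matrix.add_apply, Matrix.smul_apply, Matrix.one_apply_ne (zero_ne_one), smul_eq_mul, mul_zero, zero_add] at this
    have e : ((X⁻¹ : SL(2, F)) : M2) 0 1 = - X 0 1 := sl_inv01 X
    rw [e] at this
    rw [this]
    ring
  have b10 : (W * A * W⁻¹ : SL(2, F)) 1 0 = - (β * X 1 0) := by
    have := congrFun (congrFun hB 1) 0
    simp only [Matrix.add_apply, Matrix.smul_apply, Matrix.one_apply_ne (one_ne_zero), smul_eq_mul, mul_zero, zero_add] at this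
    have e : ((X⁻¹ : SL(2, F)) : M2) 1 0 = - X 1 0 := sl_inv10 X
    rw [e] at this
    rw [this]
    ring
  have b11 : (W * A * W⁻¹ : SL(2, F)) 1 1 = α + β * X 0 0 := by
    have := congrFun (congrFun hB 1) 1
    simp only [Matrix.add_apply, Matrix.smul_apply, Matrix.one_apply_eq, smul_eq_mul, mul_one] at this
    have e : ((X⁻¹ : SL(2, F)) : M2) 1 1 = X 0 0 := sl_inv11 X
    rw [e] at this
    exact this
  have hdA := sl_det A
  rw [h00, h01, h10, h11] at hdA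
  have hinv : W * A * W⁻¹ = A⁻¹ := by
    apply eq_inv_of_mul_eq_one_left
    apply sl_ext
    · rw [sl_mul00, b00, b01, h00, h10, sl_one00]
      linear_combination hdA
    · rw [sl_mul01, b00, b01, h01, h11, sl_one01]
      ring
    · rw [sl_mul10, b10, b11, h00, h10, sl_one10]
      ring
    · rw [sl_mul11, b10, b11, h01, h11, sl_one11]
      linear_combination hdA
  rw [← map_inv, ← map_mul, ← map_mul, hinv]
  simp

end Mat

section Core

/-- The descent to the centraliser. -/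
theorem core_descent {G A : Type*} [Group G] [Group A] {L U : Subgroup G} (hUL : U ≤ L) (hS : RStar L U)
    (φ : U ≃* A) {x₀ : A} {a : G} (haL : a ∈ L)
    (hcomm : a * ((φ.symm x₀ : U) : G) = ((φ.symm x₀ : U) : G) * a) :
    ∃ K₀ : Subgroup A, RStar ⊤ K₀ ∧ x₀ ∈ K₀ ∧ ∀ y ∈ K₀, a⁻¹ * ((φ.symm y : U) : G) * a ∈ U := by
  refine ⟨(U ⊓ Cj U a).comap (U.subtype.comp φ.symm.toMonoidHom),
    (hS.descend hUL haL).toIso inf_le_left φ, ?_, ?_⟩
  · refine ⟨(φ.symm x₀).2, mem_Cj.2 ?_⟩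
    have : a⁻¹ * ((φ.symm x₀ : U) : G) * a = ((φ.symm x₀ : U) : G) := by
      rw [mul_assoc, ← hcomm]
      group
    show a⁻¹ * ((φ.symm x₀ : U) : G) * a ∈ U
    rw [this]
    exact (φ.symm x₀).2
  · rintro y ⟨-, hy⟩
    exact mem_Cj.1 hy

/-- An element of odd index. -/
theorem core_index {G : Type*} [Group G] [Finite G] {L U : Subgroup G} (hUL : U ≤ L) {a : G} (ha : a ∈ L)
    (hn : ∀ u ∈ U, a⁻¹ * u * a ∈ U) (hsq : a * a ∈ U) (hodd : ∀ k, Nat.card U * k ∣ Nat.card L → Odd k) : a ∈ U := by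
  have hnorm : a ∈ Subgroup.normalizer (U : Set G) := by
    rw [Subgroup.mem_normalizer_iff]
    have hle : U.map (MulAut.conj a⁻¹).toMonoidHom ≤ U := by
      rintro _ ⟨u, hu, rfl⟩
      have := hn u hu
      simpa [MulAut.conj_apply] using this
    have heq : U.map (MulAut.conj a⁻¹).toMonoidHom = U := by
      apply Subgroup.eq_of_le_of_card_ge hle
      rw [Nat.card_congr (U.equivMapOfInjective _ (MulAut.conj a⁻¹).injective).symm.toEquiv]
    intro h
    constructor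
    · intro hh
      rw [← heq] at hh
      obtain ⟨u, hu, hu2⟩ := hh
      have hu3 : a⁻¹ * u * a = h := by simpa [MulAut.conj_apply] using hu2
      have : a * h * a⁻¹ = u := by rw [← hu3]; group
      rw [this]
      exact hu
    · intro hh
      have := hn _ hh
      have e : a⁻¹ * (a * h * a⁻¹) * a = h := by group
      rwa [e] at this
  let N : Subgroup G := L ⊓ Subgroup.normalizer (U : Set G)
  have hUN : U ≤ N := le_inf hUL Subgroup.le_normalizer
  let U' : Subgroup N := U.subgroupOf N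
  haveI : U'.Normal := Subgroup.normal_subgroupOf_of_le_normalizer inf_le_right
  have hcard : Nat.card U * U'.index = Nat.card N := by
    have h1 := U'.card_mul_index
    rwa [Nat.card_congr (Subgroup.subgroupOfEquivOfLe hUN).toEquiv] at h1
  have hk : Odd U'.index := by
    apply hodd
    rw [hcard]
    exact Subgroup.card_dvd_of_le inf_le_left
  obtain ⟨j, hj⟩ := hk
  have h1 : ((⟨a, ha, hnorm⟩ : N) : G) ^ U'.index ∈ U := by
    have := Subgroup.pow_index_mem U' (⟨a, ha, hnorm⟩ : N)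
    rw [Subgroup.mem_subgroupOf] at this
    simpa using this
  have h2 : a ^ U'.index = (a * a) ^ j * a := by
    rw [hj, pow_succ, pow_mul, pow_two]
  have h3 : a ^ U'.index ∈ U := h1
  rw [h2] at h3
  have h4 := U.mul_mem (U.inv_mem (U.pow_mem hsq j)) h3
  simpa using h4

end Core

section Cent

variable {F : Type*} [Field F] [Fintype F] [DecidableEq F]

/-- The centraliser of a four-group and an element permuting it. -/
theorem centr_trivial (s : AB F) {x v₁ v₂ g : PGL2 F} (hv₁L : v₁ ∈ Lp F) (hv₂L : v₂ ∈ Lp F) (hv₁ : v₁ ≠ 1)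
    (hv₂ : v₂ ≠ 1) (hne : v₁ ≠ v₂) (h1 : v₁ * v₁ = 1) (h2 : v₂ * v₂ = 1) (hc : v₁ * v₂ = v₂ * v₁)
    (hx1 : x * v₁ * x⁻¹ = v₂) (hx2 : x * v₂ * x⁻¹ = v₁ * v₂) (hg1 : g * x = x * g) (hg2 : g * v₁ = v₁ * g) : g = 1 := by
  have hg1' : g * x⁻¹ = x⁻¹ * g := by
    rw [eq_inv_mul_iff_mul_eq, ← mul_assoc, ← hg1, mul_assoc, mul_inv_cancel, mul_one]
  have hg3 : g * v₂ = v₂ * g := by
    rw [← hx1]
    calc g * (x * v₁ * x⁻¹) = (g * x) * v₁ * x⁻¹ := by group
      _ = x * (g * v₁) * x⁻¹ := by rw [hg1]; group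
      _ = x * v₁ * (g * x⁻¹) := by rw [hg2]; group
      _ = x * v₁ * x⁻¹ * g := by rw [hg1']; group
  obtain ⟨C, hC1, hC2⟩ := exists_conj_pair s hv₁L hv₂L hv₁ hv₂ hne h1 h2 hc
  have hx₀ : x₀ s = C⁻¹ * v₁ * C := by rw [hC1]; group
  have hy₀ : y₀ s = C⁻¹ * v₂ * C := by rw [hC2]; group
  have hz₀ : z₀ s = C⁻¹ * (v₁ * v₂) * C := by rw [← x₀_mul_y₀, hx₀, hy₀]; group
  have hconj : ∀ v : PGL2 F, g * v = v * g → (C⁻¹ * g * C) * (C⁻¹ * v * C) * (C⁻¹ * g * C)⁻¹ = C⁻¹ * v * C := by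
    intro v hv
    have : (C⁻¹ * g * C) * (C⁻¹ * v * C) * (C⁻¹ * g * C)⁻¹ = C⁻¹ * (g * v) * g⁻¹ * C := by group
    rw [this, hv]
    group
  have hg' : C⁻¹ * g * C ∈ V₀ s := by
    apply selfcent₀
    intro v hv
    rcases (mem_V₀ s).1 hv with rfl | rfl | rfl | rfl
    · group
    · rw [hx₀]
      exact hconj _ hg2
    · rw [hy₀]
      exact hconj _ hg3
    · rw [hz₀]
      apply hconj
      rw [← mul_assoc, hg2, mul_assoc, hg3, mul_assoc]
  have hinj : ∀ u u' : PGL2 F, C⁻¹ * u * C = C⁻¹ * u' * C → u = u' := by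
    intro u u' h
    simpa using h
  rcases (mem_V₀ s).1 hg' with h | h | h | h
  · have : C⁻¹ * g * C = C⁻¹ * 1 * C := by rw [h]; group
    exact hinj _ _ this
  · exfalso
    rw [hx₀] at h
    have h3 := hinj _ _ h
    rw [h3] at hg1
    apply hne
    rw [← hx1, ← hg1]
    group
  · exfalso
    rw [hy₀] at h
    have h3 := hinj _ _ h
    rw [h3] at hg1
    apply hv₁
    have h4 : x * v₂ * x⁻¹ = v₂ := by rw [← hg1]; group
    rw [hx2] at h4
    exact mul_eq_right.1 h4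
  · exfalso
    rw [hz₀] at h
    have h3 := hinj _ _ h
    rw [h3] at hg1
    apply hv₂
    have h4 : x * (v₁ * v₂) * x⁻¹ = v₁ * v₂ := by rw [← hg1]; group
    have h5 : x * (v₁ * v₂) * x⁻¹ = (x * v₁ * x⁻¹) * (x * v₂ * x⁻¹) := by group
    rw [h5, hx1, hx2] at h4
    have h6 : v₂ * (v₁ * v₂) = v₁ := by
      rw [← mul_assoc, ← hc, mul_assoc, h2, mul_one]
    rw [h6] at h4
    exact (mul_eq_left.1 h4.symm)

variable {A : Type*} [Group A]

/-- Conclusion from an involution. -/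
theorem finish_v (s : AB F) (ψ : A →* PGL2 F) (hψ : Function.Injective ψ) (hL : ∀ y, ψ y ∈ Lp F) {x₀ v₀ : A}
    (hv1 : v₀ ≠ 1) (hv2 : v₀ * v₀ = 1) (hv3 : x₀ * v₀ * x₀⁻¹ ≠ v₀)
    (hv4 : v₀ * (x₀ * v₀ * x₀⁻¹) = (x₀ * v₀ * x₀⁻¹) * v₀)
    (hv5 : x₀ * (x₀ * v₀ * x₀⁻¹) * x₀⁻¹ = v₀ * (x₀ * v₀ * x₀⁻¹)) (hx3 : x₀ ^ 3 = 1)
    (hinv : ∀ w : A, w * w = 1 → w ≠ 1 → w * (x₀ * w * x₀⁻¹) = (x₀ * w * x₀⁻¹) * w →
      ∃ e : Fin 3, w = x₀ ^ (e : ℕ) * v₀ * (x₀ ^ (e : ℕ))⁻¹)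
    {a : PGL2 F} (hcomm : a * ψ x₀ = ψ x₀ * a) {w₀ : A} (hw : ψ w₀ = a⁻¹ * ψ v₀ * a) : ∃ n : ℕ, a = ψ x₀ ^ n := by
  set x := ψ x₀ with hx
  set v := ψ v₀ with hv
  have hcomm' : a⁻¹ * x = x * a⁻¹ := by
    rw [inv_mul_eq_iff_eq_mul, ← mul_assoc, hcomm, mul_assoc, mul_inv_cancel, mul_one]
  have hv' : v * v = 1 := by rw [hv, ← map_mul, hv2, map_one]
  have h1 : w₀ * w₀ = 1 := by
    apply hψ
    rw [map_mul, hw, map_one]
    have : a⁻¹ * v * a * (a⁻¹ * v * a) = a⁻¹ * (v * v) * a := by group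
    rw [this, hv']
    group
  have h2 : w₀ ≠ 1 := by
    rintro rfl
    rw [map_one] at hw
    apply hv1
    apply hψ
    rw [map_one]
    have : v = a * (a⁻¹ * v * a) * a⁻¹ := by group
    rw [← hv, this, ← hw]
    group
  have hxw : ψ (x₀ * w₀ * x₀⁻¹) = a⁻¹ * ψ (x₀ * v₀ * x₀⁻¹) * a := by
    rw [map_mul, map_mul, map_inv, hw, map_mul, map_mul, map_inv, ← hx, ← hv]
    calc x * (a⁻¹ * v * a) * x⁻¹ = (x * a⁻¹) * v * (a * x⁻¹) := by group
      _ = (a⁻¹ * x) * v * (x⁻¹ * a) := by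
        rw [← hcomm']
        have : a * x⁻¹ = x⁻¹ * a := by
          rw [eq_inv_mul_iff_mul_eq, ← mul_assoc, ← hcomm, mul_assoc, mul_inv_cancel, mul_one]
        rw [this]
      _ = _ := by group
  have h3 : w₀ * (x₀ * w₀ * x₀⁻¹) = (x₀ * w₀ * x₀⁻¹) * w₀ := by
    apply hψ
    rw [map_mul ψ w₀, map_mul ψ (x₀ * w₀ * x₀⁻¹), hxw, hw]
    have e1 : a⁻¹ * v * a * (a⁻¹ * ψ (x₀ * v₀ * x₀⁻¹) * a) = a⁻¹ * (ψ (v₀ * (x₀ * v₀ * x₀⁻¹))) * a := by
      rw [map_mul ψ v₀ (x₀ * v₀ * x₀⁻¹), ← hv]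
      generalize ψ (x₀ * v₀ * x₀⁻¹) = y
      group
    have e2 : a⁻¹ * ψ (x₀ * v₀ * x₀⁻¹) * a * (a⁻¹ * v * a) = a⁻¹ * (ψ ((x₀ * v₀ * x₀⁻¹) * v₀)) * a := by
      rw [map_mul ψ (x₀ * v₀ * x₀⁻¹) v₀, ← hv]
      generalize ψ (x₀ * v₀ * x₀⁻¹) = y
      group
    rw [e1, e2, hv4]
  obtain ⟨e, he⟩ := hinv w₀ h1 h2 h3
  have hw' : a⁻¹ * v * a = x ^ (e : ℕ) * v * (x ^ (e : ℕ))⁻¹ := by
    rw [← hw, he, map_mul, map_mul, map_inv, map_pow]
  set g := a * x ^ (e : ℕ) with hg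
  have hg1 : g * x = x * g := by
    rw [hg, mul_assoc, ← pow_succ, pow_succ', ← mul_assoc, hcomm, mul_assoc]
  have hg2 : g * v = v * g := by
    have h5 : v * a = a * (x ^ (e : ℕ) * v * (x ^ (e : ℕ))⁻¹) := by
      rw [← hw']
      group
    rw [hg, ← mul_assoc v, h5]
    group
  let v₂ := ψ (x₀ * v₀ * x₀⁻¹)
  have hg3 : g = 1 := by
    refine centr_trivial s (x := x) (v₁ := v) (v₂ := v₂) (hL v₀) (hL _) ?_ ?_ ?_ hv' ?_ ?_ ?_ ?_ hg1 hg2
    · intro h
      exact hv1 (hψ (by rw [map_one]; exact h))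
    · intro h
      apply hv1
      have h6 : x₀ * v₀ * x₀⁻¹ = 1 := hψ (by rw [map_one]; exact h)
      have h7 : v₀ = x₀⁻¹ * (x₀ * v₀ * x₀⁻¹) * x₀ := by group
      rw [h7, h6]
      group
    · intro h
      exact hv3 (hψ h.symm)
    · show ψ (x₀ * v₀ * x₀⁻¹) * ψ (x₀ * v₀ * x₀⁻¹) = 1
      rw [← map_mul]
      have : (x₀ * v₀ * x₀⁻¹) * (x₀ * v₀ * x₀⁻¹) = x₀ * (v₀ * v₀) * x₀⁻¹ := by group
      rw [this, hv2]
      simp
    · show ψ v₀ * ψ (x₀ * v₀ * x₀⁻¹) = ψ (x₀ * v₀ * x₀⁻¹) * ψ v₀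
      rw [← map_mul, ← map_mul, hv4]
    · show ψ x₀ * ψ v₀ * (ψ x₀)⁻¹ = ψ (x₀ * v₀ * x₀⁻¹)
      rw [map_mul, map_mul, map_inv]
    · show ψ x₀ * ψ (x₀ * v₀ * x₀⁻¹) * (ψ x₀)⁻¹ = ψ v₀ * ψ (x₀ * v₀ * x₀⁻¹)
      rw [← map_inv, ← map_mul, ← map_mul, ← map_mul, hv5]
  refine ⟨2 * (e : ℕ), ?_⟩
  have hx3' : x ^ 3 = 1 := by rw [hx, ← map_pow, hx3, map_one]
  have h5 : a = (x ^ (e : ℕ))⁻¹ := eq_inv_of_mul_eq_one_left hg3
  rw [h5]
  apply inv_eq_of_mul_eq_one_right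
  rw [← pow_add]
  have : (e : ℕ) + 2 * (e : ℕ) = 3 * (e : ℕ) := by ring
  rw [this, pow_mul, hx3', one_pow]

/-- Conclusion from an element inverting the three-cycle. -/
theorem finish_t (h2 : (2 : F) ≠ 0) (ψ : A →* PGL2 F) (hψ : Function.Injective ψ) (hL : ∀ y, ψ y ∈ Lp F) {x₀ t₀ : A}
    (hx1 : x₀ ≠ 1) (hx3 : x₀ ^ 3 = 1) (ht : t₀ * x₀ * t₀⁻¹ = x₀⁻¹)
    (hcent : ∀ u : A, u * x₀ = x₀ * u → ∃ e : Fin 3, u = x₀ ^ (e : ℕ))
    {a : PGL2 F} (haL : a ∈ Lp F) (hcomm : a * ψ x₀ = ψ x₀ * a) {w₀ : A} (hw : ψ w₀ = a⁻¹ * ψ t₀ * a) :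
    ∃ n : ℕ, a * a = ψ x₀ ^ n := by
  have hinv := inv_of_comm h2 (hL x₀) haL (hL t₀) (fun h => hx1 (hψ (by rw [map_one]; exact h)))
    (by rw [← map_pow, hx3, map_one]) hcomm (by rw [← map_inv, ← map_inv, ← map_mul, ← map_mul, ht])
  set τ := ψ t₀ with hτ
  have hu : ψ (t₀ * w₀⁻¹) = a * a := by
    rw [map_mul, map_inv, hw, ← hτ]
    have : τ * (a⁻¹ * τ * a)⁻¹ = (τ * a * τ⁻¹)⁻¹ * a := by group
    rw [this, hinv]
    group
  have hu2 : (t₀ * w₀⁻¹) * x₀ = x₀ * (t₀ * w₀⁻¹) := by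
    apply hψ
    rw [map_mul ψ _ x₀, map_mul ψ x₀, hu]
    rw [mul_assoc, hcomm, ← mul_assoc, hcomm, mul_assoc]
  obtain ⟨e, he⟩ := hcent _ hu2
  refine ⟨e, ?_⟩
  rw [← hu, he, map_pow]

end Cent

section Cores

variable {F : Type*} [Field F] [Fintype F] [DecidableEq F]

set_option maxRecDepth 100000 in
lemma a4_inv' : ∀ w : alternatingGroup (Fin 4), w * w = 1 → w ≠ 1 → w * (x4 * w * x4⁻¹) = (x4 * w * x4⁻¹) * w →
    ∃ e : Fin 3, w = x4 ^ (e : ℕ) * v4 * (x4 ^ (e : ℕ))⁻¹ := by decide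

set_option maxRecDepth 100000 in
lemma s4_inv' : ∀ w : Equiv.Perm (Fin 4), w * w = 1 → w ≠ 1 → w * (x4' * w * x4'⁻¹) = (x4' * w * x4'⁻¹) * w →
    ∃ e : Fin 3, w = x4' ^ (e : ℕ) * v4' * (x4' ^ (e : ℕ))⁻¹ := by decide

set_option maxRecDepth 100000 in
lemma s4_rel : v4' ≠ 1 ∧ v4' * v4' = 1 ∧ x4' * v4' * x4'⁻¹ ≠ v4' ∧ v4' * (x4' * v4' * x4'⁻¹) = (x4' * v4' * x4'⁻¹) * v4' ∧
    x4' * (x4' * v4' * x4'⁻¹) * x4'⁻¹ = v4' * (x4' * v4' * x4'⁻¹) ∧ x4' ≠ 1 ∧ x4' ^ 3 = 1 ∧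
    t4' * x4' * t4'⁻¹ = x4'⁻¹ := by decide

set_option maxRecDepth 100000 in
lemma s4_cent : ∀ u : Equiv.Perm (Fin 4), u * x4' = x4' * u → ∃ e : Fin 3, u = x4' ^ (e : ℕ) := by decide

set_option maxRecDepth 100000 in
lemma a5_rel : x5 ≠ 1 ∧ x5 ^ 3 = 1 := by decide

set_option maxRecDepth 100000 in
lemma a5_cent : ∀ u : alternatingGroup (Fin 5), u * x5 = x5 * u → ∃ e : Fin 3, u = x5 ^ (e : ℕ) := by decide

variable {U : Subgroup (PGL2 F)}

/-- The embedding of the abstract group. -/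
noncomputable abbrev psiU {A : Type*} [Group A] (φ : U ≃* A) : A →* PGL2 F := U.subtype.comp φ.symm.toMonoidHom

lemma psiU_inj {A : Type*} [Group A] (φ : U ≃* A) : Function.Injective (psiU φ) :=
  (Subgroup.subtype_injective _).comp φ.symm.injective

lemma psiU_apply {A : Type*} [Group A] (φ : U ≃* A) (y : A) : psiU φ y = ((φ.symm y : U) : PGL2 F) := rfl

lemma psiU_L {A : Type*} [Group A] (hUL : U ≤ Lp F) (φ : U ≃* A) (y : A) : psiU φ y ∈ Lp F := hUL (φ.symm y).2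

/-- An element of `A` mapping to a given element of `U`. -/
lemma psiU_surj {A : Type*} [Group A] (φ : U ≃* A) {u : PGL2 F} (hu : u ∈ U) : psiU φ (φ ⟨u, hu⟩) = u := by
  simp [psiU_apply]

theorem a4_core (s : AB F) (hUL : U ≤ Lp F) (hS : RStar (Lp F) U) (φ : U ≃* alternatingGroup (Fin 4))
    {a : PGL2 F} (haL : a ∈ Lp F) (hcomm : a * psiU φ x4 = psiU φ x4 * a) : ∃ n : ℕ, a = psiU φ x4 ^ n := by
  obtain ⟨K₀, hK, hx, hmem⟩ := core_descent hUL hS φ haL hcomm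
  have hv := a4_binary hK hx
  have hw := hmem _ hv
  obtain ⟨r1, r2, -, -, r3, r4, r5, -, r6⟩ := a4_rel
  refine finish_v s (psiU φ) (psiU_inj φ) (psiU_L hUL φ) r1 r2 r3 r4 r5 r6 a4_inv' hcomm
    (w₀ := φ ⟨_, hw⟩) (psiU_surj φ hw)

theorem s4_core (h2 : (2 : F) ≠ 0) (s : AB F) (hUL : U ≤ Lp F) (hS : RStar (Lp F) U) (φ : U ≃* Equiv.Perm (Fin 4))
    {a : PGL2 F} (haL : a ∈ Lp F) (hcomm : a * psiU φ x4' = psiU φ x4' * a) : ∃ n : ℕ, a * a = psiU φ x4' ^ n := by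
  obtain ⟨K₀, hK, hx, hmem⟩ := core_descent hUL hS φ haL hcomm
  obtain ⟨r1, r2, r3, r4, r5, r6, r7, r8⟩ := s4_rel
  rcases s4_binary hK hx with hv | hv
  · have hw := hmem _ hv
    obtain ⟨n, hn⟩ := finish_v s (psiU φ) (psiU_inj φ) (psiU_L hUL φ) r1 r2 r3 r4 r5 r7 s4_inv' hcomm
      (w₀ := φ ⟨_, hw⟩) (psiU_surj φ hw)
    refine ⟨n + n, ?_⟩
    rw [pow_add, ← hn]
  · have hw := hmem _ hv
    exact finish_t h2 (psiU φ) (psiU_inj φ) (psiU_L hUL φ) r6 r7 r8 s4_cent haL hcomm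
      (w₀ := φ ⟨_, hw⟩) (psiU_surj φ hw)

theorem a5_core (h2 : (2 : F) ≠ 0) (hUL : U ≤ Lp F) (hS : RStar (Lp F) U) (φ : U ≃* alternatingGroup (Fin 5))
    {a : PGL2 F} (haL : a ∈ Lp F) (hcomm : a * psiU φ x5 = psiU φ x5 * a) :
    (∃ n : ℕ, a * a = psiU φ x5 ^ n) ∧ ∀ u ∈ U, a⁻¹ * u * a ∈ U := by
  obtain ⟨K₀, hK, hx, hmem⟩ := core_descent hUL hS φ haL hcomm
  have htop := a5_binary hK hx
  have hall : ∀ y, a⁻¹ * ((φ.symm y : U) : PGL2 F) * a ∈ U := by
    intro y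
    apply hmem
    rw [htop]
    trivial
  refine ⟨?_, ?_⟩
  · have hw := hall t5
    exact finish_t h2 (psiU φ) (psiU_inj φ) (psiU_L hUL φ) a5_rel.1 a5_rel.2 a5_t a5_cent haL hcomm
      (w₀ := φ ⟨_, hw⟩) (psiU_surj φ hw)
  · intro u hu
    have := hall (φ ⟨u, hu⟩)
    simpa using this

end Cores

section Existence

variable {F : Type*} [Field F] [Fintype F] [DecidableEq F]
variable {E : Type*} [Field E] [Algebra F E] [DecidableEq E] [IsAlgClosed E]

lemma exists_pair_of_no_uni {y : PGL2 F} (hy : y ≠ 1) (hno : ∀ ω : OnePoint E, ¬ Uni E y ω) :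
    ∃ a b : OnePoint E, (SplitPair F a b ∨ NonsplitPair F a b) ∧ toE E y • a = a ∧ toE E y • b = b := by
  have hy' : toE E y ≠ 1 := fun h => hy (toE_injective E (by rw [h, map_one]))
  obtain ⟨ω, hω⟩ := exists_fix' (toE E y)
  have h : ¬ ∀ ω', toE E y • ω' = ω' → ω' = ω := fun h => hno ω ⟨hω, h⟩
  push Not at h
  obtain ⟨ω', h1, h2⟩ := h
  obtain ⟨g, rfl⟩ := ProjGenLinGroup.mk_surjective y
  refine ⟨ω', ω, pair_cases h2 ?_ h1 hω, h1, hω⟩
  intro c hc
  rcases fix_three' _ ω' ω c hy' h1 hω hc with h3 | h3 | h3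
  · exact absurd h3 h2
  · exact Or.inl h3.symm
  · exact Or.inr h3.symm

/-- A generator of a torus containing an element. -/
lemma exists_torus_elt {x : PGL2 F} (hx1 : x ≠ 1) (hno : ∀ ω : OnePoint E, ¬ Uni E x ω)
    (hodd : Odd (Fintype.card F)) :
    ∃ a ∈ Lp F, a * x = x * a ∧ (2 * orderOf a = Fintype.card F - 1 ∨ 2 * orderOf a = Fintype.card F + 1) := by
  obtain ⟨a', b', hp, h1, h2⟩ := exists_pair_of_no_uni hx1 hno
  obtain ⟨t, ht, hord⟩ := exists_gen hp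
  have hxT : x ∈ Tp (F := F) a' b' := ⟨h1, h2⟩
  haveI := isCyclic_Tp (F := F) (pair_ne hp)
  have hcomm : t * x = x * t := by
    letI := IsCyclic.commGroup (α := Tp (F := F) a' b')
    have := mul_comm (⟨t, ht.1⟩ : Tp (F := F) a' b') ⟨x, hxT⟩
    exact congrArg Subtype.val this
  refine ⟨t, ht.2, hcomm, ?_⟩
  rw [gcd_odd hodd] at hord
  obtain ⟨k, hk⟩ := hodd
  rcases hp with hs | hn
  · left
    rw [card_Tp_split hs, hk] at hord
    rw [hord, hk]
    omega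
  · right
    rw [card_Tp_nonsplit hn, hk] at hord
    rw [hord, hk]
    omega

lemma two_ne_of_no_uni {x : PGL2 F} (hx1 : x ≠ 1) (hx2 : x * x = 1) (hno : ∀ ω : OnePoint E, ¬ Uni E x ω) :
    (2 : F) ≠ 0 := by
  intro h2
  have hch : ringChar F = 2 := CharP.ringChar_of_prime_eq_zero Nat.prime_two (by exact_mod_cast h2)
  have hev : Fintype.card F % 2 = 0 := FiniteField.even_card_iff_char_two.1 hch
  have hq1 := one_lt_card (F := F)
  have hodd : ∀ m : ℕ, m % 2 = 1 → x ^ m = 1 → False := by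
    intro m hm h
    apply hx1
    have h3 : m = 2 * (m / 2) + 1 := by omega
    rw [h3, pow_succ, pow_mul, pow_two, hx2, one_pow, one_mul] at h
    exact h
  rcases uni_or_pow (E := E) x hx1 with ⟨ω, h⟩ | h | h
  · exact hno ω h
  · exact hodd _ (by omega) h
  · exact hodd _ (by omega) h

lemma mk_uG_mul (s t : F) : ProjGenLinGroup.mk (uG s) * ProjGenLinGroup.mk (uG t) = ProjGenLinGroup.mk (uG (s + t)) := by
  rw [← map_mul, uG_mul]

lemma mk_uG_pow (e : F) (n : ℕ) : (ProjGenLinGroup.mk (uG e)) ^ n = ProjGenLinGroup.mk (uG ((n : F) * e)) := by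
  induction n with
  | zero =>
    simp [uG_zero]
  | succ n ih =>
    rw [pow_succ, ih, mk_uG_mul]
    congr 2
    push_cast
    ring

lemma mk_uG_inj {s t : F} (h : (ProjGenLinGroup.mk (uG s) : PGL2 F) = ProjGenLinGroup.mk (uG t)) : s = t := by
  obtain ⟨u, hu⟩ := ProjGenLinGroup.mk_eq_mk_iff.1 h
  have h0 := congrArg (fun g : GL (Fin 2) F => g 0 0) hu
  have h1 := congrArg (fun g : GL (Fin 2) F => g 0 1) hu
  simp only [mul_scalar_apply, uG_00, uG_01, one_mul] at h0 h1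
  rw [h0, mul_one] at h1
  exact h1

lemma mk_uG_mem_Lp (s : F) : (ProjGenLinGroup.mk (uG s) : PGL2 F) ∈ Lp F := by
  have : (ProjGenLinGroup.mk (uG s) : PGL2 F) = piP (uS s) := by
    rw [piP_apply]
    congr 1
    apply gl_ext <;> rfl
  rw [this]
  exact piP_mem_Lp _

/-- An element of a root group not in the group generated by a given element. -/
lemma exists_root_elt (h3 : (3 : F) = 0) (hq : 4 ≤ Fintype.card F) {x : PGL2 F} (hx1 : x ≠ 1) (hx3 : x ^ 3 = 1) :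
    ∃ a ∈ Lp F, a * x = x * a ∧ ∀ n : ℕ, a * a ≠ x ^ n := by
  classical
  have h21 : (2 : F) = -1 := by linear_combination h3
  obtain ⟨p, hp⟩ := CharP.exists F
  have hp3 : p = 3 := by
    have h1 : p ∣ 3 := (CharP.cast_eq_zero_iff F p 3).1 (by exact_mod_cast h3)
    have hpp := CharP.char_is_prime F p
    exact (Nat.prime_dvd_prime_iff_eq hpp Nat.prime_three).1 h1
  subst hp3
  haveI : Fact (Nat.Prime 3) := ⟨Nat.prime_three⟩
  obtain ⟨k, -, hk⟩ := FiniteField.card F 3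
  have h3q : 3 ∣ Fintype.card F := by
    rw [hk]
    exact dvd_pow_self 3 k.ne_zero
  have hq1 := one_lt_card (F := F)
  have hord : orderOf x = 3 := orderOf_eq_prime hx3 hx1
  have hnot : ∀ m : ℕ, ¬ 3 ∣ m → x ^ m ≠ 1 := by
    intro m hm h
    exact hm (hord ▸ orderOf_dvd_of_pow_eq_one h)
  rcases uni_or_pow (E := AlgebraicClosure F) x hx1 with ⟨ω, hω⟩ | h | h
  · obtain ⟨g, rfl⟩ := ProjGenLinGroup.mk_surjective x
    obtain ⟨c, rfl⟩ := rational_of_unique g hω.1 hω.2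
    obtain ⟨c₁, hc₁⟩ := exists_smul_infty c
    set C : PGL2 F := ProjGenLinGroup.mk c₁ with hC
    set E' := AlgebraicClosure F
    have hCinf : toE E' C • (∞ : OnePoint E') = ιp E' c := by
      have : (∞ : OnePoint E') = ιp E' (∞ : OnePoint F) := rfl
      rw [this, hC, toE_mk_smul_ιp, hc₁]
    have hfix : toE E' (ProjGenLinGroup.mk (c₁⁻¹ * g * c₁)) • (∞ : OnePoint E') = ∞ := by
      rw [map_mul, map_mul, map_mul, map_mul, map_inv, ← hC, map_inv (toE E') C, mul_smul, mul_smul, hCinf, hω.1, ← hCinf, inv_smul_smul]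
    have huniq : ∀ ω', toE E' (ProjGenLinGroup.mk (c₁⁻¹ * g * c₁)) • ω' = ω' → ω' = (∞ : OnePoint E') := by
      intro ω' h1
      rw [map_mul, map_mul, map_mul, map_mul, map_inv, ← hC, map_inv (toE E') C, mul_smul, mul_smul, inv_smul_eq_iff] at h1
      have h2 := hω.2 _ h1
      rw [← hCinf] at h2
      exact smul_left_cancel _ h2
    obtain ⟨e, he, hy⟩ := eq_uG_of_unique (c₁⁻¹ * g * c₁) hfix huniq
    have hx : ProjGenLinGroup.mk g = C * ProjGenLinGroup.mk (uG e) * C⁻¹ := by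
      rw [← hy, map_mul, map_mul, map_inv, ← hC]
      group
    obtain ⟨w, hw⟩ : ∃ w : F, w ∉ ({0, 1, -1} : Finset F) := by
      by_contra hcon
      push Not at hcon
      have hsub : (Finset.univ : Finset F) ⊆ {0, 1, -1} := fun y _ => hcon y
      have h5 := Finset.card_le_card hsub
      rw [Finset.card_univ] at h5
      have h6 : ({0, 1, -1} : Finset F).card ≤ 3 := Finset.card_le_three
      omega
    simp only [Finset.mem_insert, Finset.mem_singleton, not_or] at hw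
    obtain ⟨hw0, hw1, hw2⟩ := hw
    refine ⟨C * ProjGenLinGroup.mk (uG (w * e)) * C⁻¹, Subgroup.Normal.conj_mem inferInstance _ (mk_uG_mem_Lp _) C, ?_, ?_⟩
    · rw [hx]
      have : ∀ s t : F, C * ProjGenLinGroup.mk (uG s) * C⁻¹ * (C * ProjGenLinGroup.mk (uG t) * C⁻¹) =
          C * ProjGenLinGroup.mk (uG (s + t)) * C⁻¹ := by
        intro s t
        rw [← mk_uG_mul]
        group
      rw [this, this, add_comm]
    · intro n hn
      rw [hx, conj_pow, mk_uG_pow] at hn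
      have h5 : C * ProjGenLinGroup.mk (uG (w * e)) * C⁻¹ * (C * ProjGenLinGroup.mk (uG (w * e)) * C⁻¹) =
          C * ProjGenLinGroup.mk (uG (w * e + w * e)) * C⁻¹ := by
        rw [← mk_uG_mul]
        group
      rw [h5] at hn
      have h6 : (ProjGenLinGroup.mk (uG (w * e + w * e)) : PGL2 F) = ProjGenLinGroup.mk (uG ((n : F) * e)) := by
        simpa using hn
      have h7 := mk_uG_inj h6
      have h8 : (w + w - (n : F)) * e = 0 := by linear_combination h7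
      have h9 : w + w = (n : F) := sub_eq_zero.1 ((mul_eq_zero.1 h8).resolve_right he)
      have hw3 : (n : F) = - w := by
        rw [← h9]
        linear_combination (w : F) * h3
      rw [CharP.cast_eq_mod F 3 n] at hw3
      have h10 : n % 3 < 3 := Nat.mod_lt _ (by norm_num)
      interval_cases (n % 3)
      · apply hw0
        simpa using hw3.symm
      · apply hw2
        push_cast at hw3
        linear_combination hw3
      · apply hw1
        push_cast at hw3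
        linear_combination hw3 - h3
  · exact absurd h (hnot _ (by omega))
  · exact absurd h (hnot _ (by omega))

end Existence

section Final

variable {F : Type*} [Field F] [Fintype F] [DecidableEq F]
variable {E : Type*} [Field E] [Algebra F E] [DecidableEq E] [IsAlgClosed E]

lemma two_card_Lp (hodd : Odd (Fintype.card F)) :
    2 * Nat.card (Lp F) = Fintype.card F * ((Fintype.card F - 1) * (Fintype.card F + 1)) := by
  have h := card_psl (F := F)
  rw [gcd_odd hodd] at h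
  rw [card_Lp, ← h, mul_comm]

/-- The subgroups `A₄`, `S₄`, `A₅` are not binary. -/
theorem false_of_small (E : Type*) [Field E] [Algebra F E] [DecidableEq E] [IsAlgClosed E]
    (hq : 4 ≤ Fintype.card F) (hq5 : Fintype.card F ≠ 5) {H : Subgroup (PSL2 F)} (hS : RStar ⊤ H)
    (hc : ((∀ x ∈ H.map (tP (F := F)), x ≠ 1 → ∀ ω : OnePoint E, ¬ Uni E x ω) ∧
        (Nonempty (H.map (tP (F := F)) ≃* alternatingGroup (Fin 4)) ∨
          Nonempty (H.map (tP (F := F)) ≃* Equiv.Perm (Fin 4)) ∨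
          Nonempty (H.map (tP (F := F)) ≃* alternatingGroup (Fin 5)))) ∨
      ((3 : F) = 0 ∧ Nonempty (H.map (tP (F := F)) ≃* alternatingGroup (Fin 5)))) : False := by
  set U := H.map (tP (F := F)) with hU
  have hL : RStar (Lp F) U := RStar.map_inj tP tP_injective hS
  have hUL : U ≤ Lp F := by
    rintro _ ⟨y, -, rfl⟩
    exact ⟨y, rfl⟩
  let e₀ : H ≃* U := H.equivMapOfInjective _ tP_injective
  have hdvd : Nat.card U ∣ Nat.card (Lp F) := Subgroup.card_dvd_of_le hUL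
  rcases hc with ⟨hno, hA⟩ | ⟨h3, ⟨φ⟩⟩
  · -- no unipotent elements
    have hinv : ∃ i ∈ U, i ≠ 1 ∧ i * i = 1 := by
      rcases hA with ⟨⟨φ⟩⟩ | ⟨⟨φ⟩⟩ | ⟨⟨φ⟩⟩
      · refine ⟨psiU φ v4, (φ.symm v4).2, ?_, ?_⟩
        · intro h
          exact a4_rel.1 (psiU_inj φ (by rw [map_one]; exact h))
        · rw [← map_mul, a4_rel.2.1, map_one]
      · refine ⟨psiU φ v4', (φ.symm v4').2, ?_, ?_⟩
        · intro h
          exact s4_rel.1 (psiU_inj φ (by rw [map_one]; exact h))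
        · rw [← map_mul, s4_rel.2.1, map_one]
      · refine ⟨psiU φ t5, (φ.symm t5).2, ?_, ?_⟩
        · intro h
          have : t5 = 1 := psiU_inj φ (by rw [map_one]; exact h)
          revert this
          decide
        · have : t5 * t5 = 1 := by decide
          rw [← map_mul, this, map_one]
    obtain ⟨i, hiU, hi1, hi2⟩ := hinv
    have h2 : (2 : F) ≠ 0 := two_ne_of_no_uni hi1 hi2 (hno i hiU hi1)
    obtain ⟨p, hp⟩ := CharP.exists F
    haveI : Fact p.Prime := ⟨CharP.char_is_prime F p⟩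
    have hp2 : p ≠ 2 := by
      rintro rfl
      apply h2
      exact_mod_cast CharP.cast_eq_zero F 2
    obtain ⟨s, -, -⟩ := Cfsg.Agent.Lib.Classical.SL2.Klein4.exists_AB (F := F) p hp2
    have h7 := seven_le_card h2 hq hq5
    have hodd : Odd (Fintype.card F) := by
      rw [Nat.odd_iff]
      apply FiniteField.odd_card_of_char_ne_two
      intro h
      rw [ringChar.eq F p] at h
      exact hp2 h
    have hcardL := two_card_Lp hodd
    have q7 : Fintype.card F = 7 → False := by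
      intro h
      refine false_q7 h hS ?_
      rcases hA with ⟨⟨φ⟩⟩ | ⟨⟨φ⟩⟩ | ⟨⟨φ⟩⟩
      · exact Or.inl ⟨e₀.trans φ⟩
      · exact Or.inr ⟨e₀.trans φ⟩
      · exfalso
        have h60 : Nat.card U = 60 := by rw [Nat.card_congr φ.toEquiv, card_A5]
        rw [h60] at hdvd
        obtain ⟨k, hk⟩ := hdvd
        rw [h] at hcardL
        omega
    rcases hA with ⟨⟨φ⟩⟩ | ⟨⟨φ⟩⟩ | ⟨⟨φ⟩⟩
    · obtain ⟨r1, r2, -, -, r3, r4, r5, r0, r6⟩ := a4_rel
      have hx1 : psiU φ x4 ≠ 1 := fun h => r0 (psiU_inj φ (by rw [map_one]; exact h))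
      have hx3 : psiU φ x4 ^ 3 = 1 := by rw [← map_pow, r6, map_one]
      obtain ⟨a, haL, hcomm, ho⟩ := exists_torus_elt hx1 (hno _ (φ.symm x4).2 hx1) hodd
      obtain ⟨n, hn⟩ := a4_core s hUL hL φ haL hcomm
      have ha3 : a ^ 3 = 1 := by
        rw [hn, ← pow_mul, mul_comm, pow_mul, hx3, one_pow]
      have hm : orderOf a ∣ 3 := orderOf_dvd_of_pow_eq_one ha3
      rcases (Nat.dvd_prime Nat.prime_three).1 hm with hm | hm <;> rw [hm] at ho
      · omega
      · exact q7 (by omega)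
    · obtain ⟨r1, r2, r3, r4, r5, r6, r7, r8⟩ := s4_rel
      have hx1 : psiU φ x4' ≠ 1 := fun h => r6 (psiU_inj φ (by rw [map_one]; exact h))
      have hx3 : psiU φ x4' ^ 3 = 1 := by rw [← map_pow, r7, map_one]
      obtain ⟨a, haL, hcomm, ho⟩ := exists_torus_elt hx1 (hno _ (φ.symm x4').2 hx1) hodd
      obtain ⟨n, hn⟩ := s4_core h2 s hUL hL φ haL hcomm
      have ha6 : a ^ 6 = 1 := by
        have : a ^ 6 = (a * a) ^ 3 := by rw [← pow_two, ← pow_mul]
        rw [this, hn, ← pow_mul, mul_comm, pow_mul, hx3, one_pow]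
      have hm : orderOf a ∣ 6 := orderOf_dvd_of_pow_eq_one ha6
      have hm6 : orderOf a ≤ 6 := Nat.le_of_dvd (by norm_num) hm
      have h24 : Nat.card U = 24 := by rw [Nat.card_congr φ.toEquiv, card_S4]
      rw [h24] at hdvd
      obtain ⟨k, hk⟩ := hdvd
      have hpos : 0 < orderOf a := Nat.pos_of_dvd_of_pos hm (by norm_num)
      have hcases : orderOf a = 1 ∨ orderOf a = 2 ∨ orderOf a = 3 ∨ orderOf a = 6 := by
        have : orderOf a ∈ Nat.divisors 6 := Nat.mem_divisors.2 ⟨hm, by norm_num⟩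
        have h6 : Nat.divisors 6 = {1, 2, 3, 6} := by decide
        rw [h6] at this
        simpa using this
      have hq13 : Fintype.card F = 7 ∨ Fintype.card F = 11 ∨ Fintype.card F = 13 := by omega
      rcases hq13 with hq' | hq' | hq'
      · exact q7 hq'
      · rw [hq'] at hcardL
        omega
      · rw [hq'] at hcardL
        omega
    · have hx1 : psiU φ x5 ≠ 1 := fun h => a5_rel.1 (psiU_inj φ (by rw [map_one]; exact h))
      have hx3 : psiU φ x5 ^ 3 = 1 := by rw [← map_pow, a5_rel.2, map_one]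
      obtain ⟨a, haL, hcomm, ho⟩ := exists_torus_elt hx1 (hno _ (φ.symm x5).2 hx1) hodd
      obtain ⟨⟨n, hn⟩, hnorm⟩ := a5_core h2 hUL hL φ haL hcomm
      have ha6 : a ^ 6 = 1 := by
        have : a ^ 6 = (a * a) ^ 3 := by rw [← pow_two, ← pow_mul]
        rw [this, hn, ← pow_mul, mul_comm, pow_mul, hx3, one_pow]
      have hm : orderOf a ∣ 6 := orderOf_dvd_of_pow_eq_one ha6
      have h60 : Nat.card U = 60 := by rw [Nat.card_congr φ.toEquiv, card_A5]
      have hdvd' := hdvd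
      rw [h60] at hdvd'
      obtain ⟨k, hk⟩ := hdvd'
      have hcases : orderOf a = 1 ∨ orderOf a = 2 ∨ orderOf a = 3 ∨ orderOf a = 6 := by
        have : orderOf a ∈ Nat.divisors 6 := Nat.mem_divisors.2 ⟨hm, by norm_num⟩
        have h6 : Nat.divisors 6 = {1, 2, 3, 6} := by decide
        rw [h6] at this
        simpa using this
      have hq13 : Fintype.card F = 7 ∨ Fintype.card F = 11 ∨ Fintype.card F = 13 := by omega
      rcases hq13 with hq' | hq' | hq'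
      · exact q7 hq'
      · -- the case of order eleven
        rw [hq'] at hcardL
        have hL660 : Nat.card (Lp F) = 660 := by omega
        have haU : a ∈ U := by
          refine core_index hUL haL hnorm ?_ ?_
          · rw [hn]
            exact U.pow_mem (φ.symm x5).2 n
          · intro j hj
            rw [h60, hL660] at hj
            have h11 : j ∣ 11 := by
              have : 60 * j ∣ 60 * 11 := hj
              exact (Nat.mul_dvd_mul_iff_left (by norm_num)).1 this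
            rcases (Nat.dvd_prime (by norm_num)).1 h11 with rfl | rfl <;> decide
        have hu : psiU φ (φ ⟨a, haU⟩) = a := psiU_surj φ haU
        have hc : φ ⟨a, haU⟩ * x5 = x5 * φ ⟨a, haU⟩ := by
          apply psiU_inj φ
          rw [map_mul, map_mul, hu]
          exact hcomm
        obtain ⟨e, he⟩ := a5_cent _ hc
        have ha3 : a ^ 3 = 1 := by
          rw [← hu, ← map_pow, he, ← pow_mul, mul_comm, pow_mul, a5_rel.2, one_pow, map_one]
        have hm3 : orderOf a ∣ 3 := orderOf_dvd_of_pow_eq_one ha3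
        rcases (Nat.dvd_prime Nat.prime_three).1 hm3 with hm | hm <;> rw [hm] at ho <;> omega
      · rw [hq'] at hcardL
        omega
  · -- characteristic three
    have h2 : (2 : F) ≠ 0 := by
      intro h
      have : (1 : F) = 0 := by linear_combination h3 - h
      exact one_ne_zero this
    have hx1 : psiU φ x5 ≠ 1 := fun h => a5_rel.1 (psiU_inj φ (by rw [map_one]; exact h))
    have hx3 : psiU φ x5 ^ 3 = 1 := by rw [← map_pow, a5_rel.2, map_one]
    obtain ⟨a, haL, hcomm, hne⟩ := exists_root_elt h3 hq hx1 hx3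
    obtain ⟨⟨n, hn⟩, -⟩ := a5_core h2 hUL hL φ haL hcomm
    exact hne n hn

end Final

end Cfsg.Agent.Lib.Classical.SL2.Binary
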