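import Mathlib

/-!
The criterion for an action on cosets to be binary, in terms of subgroups: for all conjugates
`Cj K b` (`b ∈ S`) and `Cj K γ` of `K`, if `t ∈ (Cj K b) * (Cj K γ)` for all `b ∈ S`, then
`t ∈ (⋂ Cj K b) * (Cj K γ)`.
-/

set_option autoImplicit false
set_option linter.unusedSectionVars false

namespace Cfsg.Agent.Lib.Classical.SL2.Binary

variable {G : Type*} [Group G]

/-- The conjugate `b K b⁻¹`. -/
def Cj (K : Subgroup G) (b : G) : Subgroup G := K.map (MulAut.conj b).toMonoidHom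

lemma mem_Cj {K : Subgroup G} {b x : G} : x ∈ Cj K b ↔ b⁻¹ * x * b ∈ K := by
  unfold Cj
  constructor
  · rintro ⟨y, hy, rfl⟩
    simpa [MulAut.conj_apply, mul_assoc] using hy
  · intro h
    exact ⟨_, h, by simp [MulAut.conj_apply, mul_assoc]⟩

lemma conj_mem_Cj {K : Subgroup G} {x : G} (b : G) (hx : x ∈ K) : b * x * b⁻¹ ∈ Cj K b := by
  rw [mem_Cj]
  simpa [mul_assoc] using hx

lemma mem_Cj_one {K : Subgroup G} {x : G} : x ∈ Cj K 1 ↔ x ∈ K := by
  rw [mem_Cj]
  simp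

/-- The criterion, for conjugating elements in a subgroup `Γ`. -/
def RStar (Γ K : Subgroup G) : Prop :=
  ∀ (S : Set G) (γ t : G), (∀ b ∈ S, b ∈ Γ) → γ ∈ Γ → t ∈ Γ →
    (∀ b ∈ S, ∃ z ∈ Cj K b, ∃ y ∈ Cj K γ, t = z * y) →
    ∃ k, (∀ b ∈ S, k ∈ Cj K b) ∧ ∃ y ∈ Cj K γ, t = k * y

/-- The binary property of the statement. -/
def Bin (H : Subgroup G) : Prop :=
  ∀ (n : ℕ) (I J : Fin n → G ⧸ H), 2 ≤ n →
    (∀ i j : Fin n, i ≠ j → ∃ g : G, g • I i = J i ∧ g • I j = J j) → ∃ g : G, ∀ i, g • I i = J i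

lemma smul_mk_eq_iff {H : Subgroup G} {z b : G} :
    z • (QuotientGroup.mk b : G ⧸ H) = QuotientGroup.mk b ↔ z ∈ Cj H b := by
  rw [mem_Cj, MulAction.Quotient.smul_mk, smul_eq_mul, QuotientGroup.eq]
  constructor
  · intro h
    have h2 := H.inv_mem h
    simpa [mul_assoc] using h2
  · intro h
    have h2 := H.inv_mem h
    simpa [mul_assoc] using h2

/-- The criterion implies the binary property. -/
theorem bin_of_rstar {H : Subgroup G} (h : RStar ⊤ H) : Bin H := by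
  intro n I J _ hpair
  have key : ∀ k : ℕ, k ≤ n → ∃ g : G, ∀ i : Fin n, i.val < k → g • I i = J i := by
    intro k
    induction k with
    | zero => exact fun _ => ⟨1, fun i hi => absurd hi (Nat.not_lt_zero _)⟩
    | succ k ih =>
      intro hk
      obtain ⟨g, hg⟩ := ih (by omega)
      let i₀ : Fin n := ⟨k, by omega⟩
      obtain ⟨γ, hγ⟩ := QuotientGroup.mk_surjective (I i₀)
      obtain ⟨r, hr⟩ := QuotientGroup.mk_surjective (g⁻¹ • J i₀)
      let t : G := r * γ⁻¹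
      have htγ : t * γ = r := by simp [t]
      let S : Set G := {b | ∃ i : Fin n, i.val < k ∧ I i = QuotientGroup.mk b}
      obtain ⟨k', hk', y', hy', ht⟩ := h S γ t (fun _ _ => trivial) trivial trivial (by
        rintro b ⟨i, hi, hib⟩
        have hne : i ≠ i₀ := by
          intro h'
          rw [h'] at hi
          exact lt_irrefl _ hi
        obtain ⟨gi, hgi1, hgi2⟩ := hpair i i₀ hne
        refine ⟨g⁻¹ * gi, ?_, gi⁻¹ * g * t, ?_, by group⟩
        · rw [← smul_mk_eq_iff, ← hib, mul_smul, hgi1, ← hg i hi, inv_smul_smul]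
        · rw [← smul_mk_eq_iff]
          have h1 : g⁻¹ • J i₀ = (QuotientGroup.mk r : G ⧸ H) := hr.symm
          have h2 : gi • (QuotientGroup.mk γ : G ⧸ H) = J i₀ := by rw [hγ]; exact hgi2
          have h3 : (gi⁻¹ * g * t) • (QuotientGroup.mk γ : G ⧸ H) =
              gi⁻¹ • (g • (QuotientGroup.mk (t * γ) : G ⧸ H)) := by
            rw [mul_smul, mul_smul]
            rfl
          rw [h3, htγ, ← h1, smul_inv_smul, ← h2, inv_smul_smul])
      refine ⟨g * k', fun i hi => ?_⟩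
      by_cases hik : i.val < k
      · obtain ⟨b, hb⟩ := QuotientGroup.mk_surjective (I i)
        have hb' : b ∈ S := ⟨i, hik, hb.symm⟩
        rw [mul_smul, ← hb, smul_mk_eq_iff.2 (hk' b hb'), hb, hg i hik]
      · have hi₀ : i = i₀ := Fin.ext (by show i.val = k; omega)
        rw [hi₀, ← hγ, mul_smul]
        have h1 : k' • (QuotientGroup.mk γ : G ⧸ H) = QuotientGroup.mk r := by
          rw [← htγ, ht, mul_assoc, MulAction.Quotient.smul_mk]
          have h2 : y' • (QuotientGroup.mk γ : G ⧸ H) = QuotientGroup.mk γ := smul_mk_eq_iff.2 hy'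
          have h3 : (QuotientGroup.mk (y' * γ) : G ⧸ H) = QuotientGroup.mk γ := h2
          have h4 : k' • (QuotientGroup.mk γ : G ⧸ H) =
              k' • (QuotientGroup.mk (y' * γ) : G ⧸ H) := by rw [h3]
          exact h4
        rw [h1, hr, smul_inv_smul]
  obtain ⟨g, hg⟩ := key n le_rfl
  exact ⟨g, fun i => hg i i.isLt⟩

/-- The binary property implies the criterion. -/
theorem rstar_of_bin [Finite G] {H : Subgroup G} (h : Bin H) : RStar ⊤ H := by
  intro S γ t _ _ _ hS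
  by_cases hne : S.Nonempty
  · obtain ⟨m, b, -, hb⟩ := (Set.toFinite S).fin_param
    have hm : 1 ≤ m := by
      obtain ⟨x, hx⟩ := hne
      rw [← hb] at hx
      obtain ⟨i, -⟩ := hx
      exact Nat.one_le_of_lt i.isLt
    have hbS : ∀ i, b i ∈ S := fun i => by rw [← hb]; exact ⟨i, rfl⟩
    let I : Fin (m + 1) → G ⧸ H := Fin.cons (QuotientGroup.mk γ) (fun i => QuotientGroup.mk (b i))
    let J : Fin (m + 1) → G ⧸ H :=
      Fin.cons (QuotientGroup.mk (t * γ)) (fun i => QuotientGroup.mk (b i))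
    have hpair0 : ∀ j : Fin m, ∃ g : G, g • (QuotientGroup.mk γ : G ⧸ H) = QuotientGroup.mk (t * γ) ∧
        g • (QuotientGroup.mk (b j) : G ⧸ H) = QuotientGroup.mk (b j) := by
      intro j
      obtain ⟨z, hz, y, hy, hzy⟩ := hS _ (hbS j)
      refine ⟨z, ?_, smul_mk_eq_iff.2 hz⟩
      rw [hzy, mul_assoc]
      have h2 : y • (QuotientGroup.mk γ : G ⧸ H) = QuotientGroup.mk γ := smul_mk_eq_iff.2 hy
      have h3 : (QuotientGroup.mk (y * γ) : G ⧸ H) = QuotientGroup.mk γ := h2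
      have h4 : z • (QuotientGroup.mk γ : G ⧸ H) = z • (QuotientGroup.mk (y * γ) : G ⧸ H) := by rw [h3]
      exact h4
    obtain ⟨g, hg⟩ := h (m + 1) I J (by omega) (by
      intro i j hij
      induction i using Fin.cases with
      | zero =>
        induction j using Fin.cases with
        | zero => exact absurd rfl hij
        | succ j => exact hpair0 j
      | succ i =>
        induction j using Fin.cases with
        | zero =>
          obtain ⟨g, h1, h2⟩ := hpair0 i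
          exact ⟨g, h2, h1⟩
        | succ j => exact ⟨1, by simp [I, J], by simp [I, J]⟩)
    refine ⟨g, ?_, g⁻¹ * t, ?_, by group⟩
    · intro c hc
      rw [← hb] at hc
      obtain ⟨i, rfl⟩ := hc
      have := hg i.succ
      simp only [I, J, Fin.cons_succ] at this
      exact smul_mk_eq_iff.1 this
    · have := hg 0
      simp only [I, J, Fin.cons_zero] at this
      rw [← smul_mk_eq_iff, mul_smul, inv_smul_eq_iff, this]
      rfl
  · rw [Set.not_nonempty_iff_eq_empty] at hne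
    subst hne
    exact ⟨t, by simp, 1, Subgroup.one_mem _, by simp⟩

section Transfer

variable {G' : Type*} [Group G']

/-- Pull-back along a homomorphism onto `Γ'`. -/
theorem RStar.comap {Γ' K' : Subgroup G'} {Γ : Subgroup G} (h : RStar Γ' K') (f : G →* G')
    (hK : K' ≤ Γ') (hΓ : Γ' ≤ Γ.map f) (hΓ2 : Γ.map f ≤ Γ') : RStar Γ (K'.comap f) := by
  intro S γ t hS hγ ht hall
  by_cases hne : S.Nonempty
  · obtain ⟨b₀, hb₀⟩ := hne
    obtain ⟨k', hk', y', hy', hty⟩ := h (f '' S) (f γ) (f t)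
      (by
        rintro _ ⟨b, hb, rfl⟩
        exact hΓ2 ⟨b, hS b hb, rfl⟩)
      (hΓ2 ⟨γ, hγ, rfl⟩) (hΓ2 ⟨t, ht, rfl⟩)
      (by
        rintro _ ⟨b, hb, rfl⟩
        obtain ⟨z, hz, y, hy, hzy⟩ := hall b hb
        refine ⟨f z, ?_, f y, ?_, by rw [hzy, map_mul]⟩
        · rw [mem_Cj] at hz ⊢
          have := Subgroup.mem_comap.1 hz
          simpa [map_mul, map_inv] using this
        · rw [mem_Cj] at hy ⊢
          have := Subgroup.mem_comap.1 hy
          simpa [map_mul, map_inv] using this)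
    have hk'Γ : k' ∈ Γ' := by
      have h1 := hk' (f b₀) ⟨b₀, hb₀, rfl⟩
      rw [mem_Cj] at h1
      have h2 := hK h1
      have h3 : f b₀ ∈ Γ' := hΓ2 ⟨b₀, hS _ hb₀, rfl⟩
      have h4 : k' = f b₀ * (((f b₀)⁻¹ * k' * f b₀)) * (f b₀)⁻¹ := by group
      rw [h4]
      exact Γ'.mul_mem (Γ'.mul_mem h3 h2) (Γ'.inv_mem h3)
    obtain ⟨k, -, rfl⟩ := hΓ hk'Γ
    refine ⟨k, ?_, k⁻¹ * t, ?_, by group⟩
    · intro b hb
      have h1 := hk' (f b) ⟨b, hb, rfl⟩
      rw [mem_Cj] at h1 ⊢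
      apply Subgroup.mem_comap.2
      simpa [map_mul, map_inv] using h1
    · rw [mem_Cj] at hy' ⊢
      apply Subgroup.mem_comap.2
      have h5 : f k⁻¹ * f t = y' := by rw [hty, map_inv]; group
      simp only [map_mul, map_inv] at h5 ⊢
      rw [h5]
      exact hy'
  · rw [Set.not_nonempty_iff_eq_empty] at hne
    subst hne
    exact ⟨t, by simp, 1, Subgroup.one_mem _, by simp⟩

/-- Push-forward along a surjection, for a full preimage. -/
theorem RStar.of_comap_surj {K' : Subgroup G'} (f : G →* G') (hf : Function.Surjective f)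
    (h : RStar ⊤ (K'.comap f)) : RStar ⊤ K' := by
  intro S γ t _ _ _ hall
  obtain ⟨γ₀, rfl⟩ := hf γ
  obtain ⟨t₀, rfl⟩ := hf t
  obtain ⟨k, hk, y, hy, hty⟩ := h (f ⁻¹' S) γ₀ t₀ (fun _ _ => trivial) trivial trivial (by
    intro b hb
    obtain ⟨z', hz', y', hy', hzy⟩ := hall (f b) hb
    obtain ⟨z, rfl⟩ := hf z'
    refine ⟨z, ?_, z⁻¹ * t₀, ?_, by group⟩
    · rw [mem_Cj] at hz' ⊢
      apply Subgroup.mem_comap.2
      simpa [map_mul, map_inv] using hz'
    · rw [mem_Cj] at hy' ⊢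
      apply Subgroup.mem_comap.2
      have h5 : f z⁻¹ * f t₀ = y' := by rw [hzy, map_inv]; group
      simp only [map_mul, map_inv] at h5 ⊢
      rw [h5]
      exact hy')
  refine ⟨f k, ?_, f y, ?_, by rw [hty, map_mul]⟩
  · intro b hb
    obtain ⟨b₀, rfl⟩ := hf b
    have h1 := hk b₀ hb
    rw [mem_Cj] at h1 ⊢
    have := Subgroup.mem_comap.1 h1
    simpa [map_mul, map_inv] using this
  · rw [mem_Cj] at hy ⊢
    have := Subgroup.mem_comap.1 hy
    simpa [map_mul, map_inv] using this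

/-- Push-forward along an injective homomorphism. -/
theorem RStar.map_inj {H : Subgroup G} (f : G →* G') (hf : Function.Injective f)
    (h : RStar ⊤ H) : RStar f.range (H.map f) := by
  intro S γ' t' hS hγ ht hall
  obtain ⟨γ, rfl⟩ := hγ
  obtain ⟨t, rfl⟩ := ht
  have hmem : ∀ {x b : G}, f x ∈ Cj (H.map f) (f b) ↔ x ∈ Cj H b := by
    intro x b
    rw [mem_Cj, mem_Cj, ← map_inv, ← map_mul, ← map_mul]
    constructor
    · rintro ⟨y, hy, hyx⟩
      rwa [← hf hyx]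
    · intro h
      exact ⟨_, h, rfl⟩
  have hrange : ∀ {x b : G'}, b ∈ f.range → x ∈ Cj (H.map f) b → x ∈ f.range := by
    rintro x _ ⟨b, rfl⟩ hx
    rw [mem_Cj] at hx
    obtain ⟨y, -, hy⟩ := hx
    refine ⟨b * y * b⁻¹, ?_⟩
    rw [map_mul, map_mul, hy, map_inv]
    group
  obtain ⟨k, hk, y, hy, hty⟩ := h (f ⁻¹' S) γ t (fun _ _ => trivial) trivial trivial (by
    intro b hb
    obtain ⟨z', hz', y', hy', hzy⟩ := hall (f b) hb
    obtain ⟨z, rfl⟩ := hrange ⟨b, rfl⟩ hz'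
    obtain ⟨y, rfl⟩ := hrange ⟨γ, rfl⟩ hy'
    refine ⟨z, hmem.1 hz', y, hmem.1 hy', ?_⟩
    apply hf
    rw [hzy, map_mul])
  refine ⟨f k, ?_, f y, hmem.2 hy, by rw [hty, map_mul]⟩
  intro b hb
  obtain ⟨b₀, rfl⟩ := hS b hb
  exact hmem.2 (hk b₀ hb)

/-- Transport along an isomorphism of groups. -/
theorem RStar.map_equiv {Γ K : Subgroup G} (σ : G ≃* G') (h : RStar Γ K) :
    RStar (Γ.map σ.toMonoidHom) (K.map σ.toMonoidHom) := by
  have hmem : ∀ {x b : G}, σ x ∈ Cj (K.map σ.toMonoidHom) (σ b) ↔ x ∈ Cj K b := by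
    intro x b
    rw [mem_Cj, mem_Cj, ← map_inv, ← map_mul, ← map_mul]
    constructor
    · rintro ⟨y, hy, hyx⟩
      have : y = b⁻¹ * x * b := σ.injective hyx
      rwa [← this]
    · intro h
      exact ⟨_, h, rfl⟩
  intro S γ' t' hS hγ ht hall
  obtain ⟨γ, hγ1, rfl⟩ := hγ
  obtain ⟨t, ht1, rfl⟩ := ht
  obtain ⟨k, hk, y, hy, hty⟩ := h (σ ⁻¹' S) γ t
    (by
      intro b hb
      obtain ⟨b₀, hb₀, hb₁⟩ := hS _ hb
      have : b₀ = b := σ.injective hb₁
      rwa [← this])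
    hγ1 ht1 (by
    intro b hb
    obtain ⟨z', hz', y', hy', hzy⟩ := hall (σ b) hb
    obtain ⟨z, rfl⟩ := σ.surjective z'
    obtain ⟨y, rfl⟩ := σ.surjective y'
    refine ⟨z, hmem.1 hz', y, hmem.1 hy', ?_⟩
    apply σ.injective
    show σ t = _
    have hzy' : σ t = σ z * σ y := hzy
    rw [hzy', map_mul])
  refine ⟨σ k, ?_, σ y, hmem.2 hy, ?_⟩
  · intro b hb
    obtain ⟨b₀, rfl⟩ := σ.surjective b
    exact hmem.2 (hk b₀ hb)
  · show σ t = _
    rw [hty, map_mul]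

/-- Passing to a point stabiliser: the stabiliser acts with the same property on all orbits. -/
theorem RStar.descend {Γ H : Subgroup G} (h : RStar Γ H) (hH : H ≤ Γ) {a : G} (ha : a ∈ Γ) :
    RStar H (H ⊓ Cj H a) := by
  intro S γ t hS hγ ht hall
  have hsub : ∀ {x b : G}, b ∈ H → x ∈ Cj (H ⊓ Cj H a) b → x ∈ H ∧ x ∈ Cj H (b * a) := by
    intro x b hb hx
    rw [mem_Cj] at hx
    constructor
    · have h1 := hx.1
      have h4 : x = b * (b⁻¹ * x * b) * b⁻¹ := by group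
      rw [h4]
      exact H.mul_mem (H.mul_mem hb h1) (H.inv_mem hb)
    · have h1 : b⁻¹ * x * b ∈ Cj H a := hx.2
      rw [mem_Cj] at h1 ⊢
      have h4 : (b * a)⁻¹ * x * (b * a) = a⁻¹ * (b⁻¹ * x * b) * a := by group
      rw [h4]
      exact h1
  obtain ⟨k, hk, y, hy, hty⟩ := h (insert 1 ((fun b => b * a) '' S)) (γ * a) t
    (by
      rintro c (rfl | ⟨b, hb, rfl⟩)
      · exact Γ.one_mem
      · exact Γ.mul_mem (hH (hS b hb)) ha)
    (Γ.mul_mem (hH hγ) ha) (hH ht)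
    (by
      rintro c (rfl | ⟨b, hb, rfl⟩)
      · exact ⟨t, by rw [mem_Cj_one]; exact ht, 1, Subgroup.one_mem _, by simp⟩
      · obtain ⟨z, hz, y, hy, hzy⟩ := hall b hb
        exact ⟨z, (hsub (hS b hb) hz).2, y, (hsub hγ hy).2, hzy⟩)
  have hkH : k ∈ H := mem_Cj_one.1 (hk 1 (Set.mem_insert _ _))
  refine ⟨k, ?_, y, ?_, hty⟩
  · intro b hb
    have h1 := hk (b * a) (Set.mem_insert_of_mem _ ⟨b, hb, rfl⟩)
    rw [mem_Cj] at h1 ⊢
    refine ⟨H.mul_mem (H.mul_mem (H.inv_mem (hS b hb)) hkH) (hS b hb), ?_⟩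
    show _ ∈ Cj H a
    rw [mem_Cj]
    have h4 : a⁻¹ * (b⁻¹ * k * b) * a = (b * a)⁻¹ * k * (b * a) := by group
    rw [h4]
    exact h1
  · have hyH : y ∈ H := by
      have h4 : y = k⁻¹ * t := by rw [hty]; group
      rw [h4]
      exact H.mul_mem (H.inv_mem hkH) ht
    rw [mem_Cj] at hy ⊢
    refine ⟨H.mul_mem (H.mul_mem (H.inv_mem hγ) hyH) hγ, ?_⟩
    show _ ∈ Cj H a
    rw [mem_Cj]
    have h4 : a⁻¹ * (γ⁻¹ * y * γ) * a = (γ * a)⁻¹ * y * (γ * a) := by group
    rw [h4]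
    exact hy

/-- Transport to an abstract copy of the group `H`. -/
theorem RStar.toIso {H K : Subgroup G} {A : Type*} [Group A] (h : RStar H K) (hK : K ≤ H)
    (φ : H ≃* A) : RStar ⊤ (K.comap (H.subtype.comp φ.symm.toMonoidHom)) := by
  set ψ : A →* G := H.subtype.comp φ.symm.toMonoidHom with hψ
  have hψH : ∀ x : A, ψ x ∈ H := fun x => (φ.symm x).2
  have hψinj : Function.Injective ψ := fun x y hxy => φ.symm.injective (Subtype.ext hxy)
  have hmem : ∀ {x b : A}, ψ x ∈ Cj K (ψ b) ↔ x ∈ Cj (K.comap ψ) b := by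
    intro x b
    rw [mem_Cj, mem_Cj, Subgroup.mem_comap]
    simp only [map_mul, map_inv]
  intro S γ t _ _ _ hall
  by_cases hne : S.Nonempty
  · obtain ⟨b₀, hb₀⟩ := hne
    obtain ⟨k, hk, y, hy, hty⟩ := h (ψ '' S) (ψ γ) (ψ t)
      (by
        rintro _ ⟨b, -, rfl⟩
        exact hψH b)
      (hψH γ) (hψH t)
      (by
        rintro _ ⟨b, hb, rfl⟩
        obtain ⟨z, hz, y, hy, hzy⟩ := hall b hb
        exact ⟨ψ z, hmem.2 hz, ψ y, hmem.2 hy, by rw [hzy, map_mul]⟩)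
    have hkH : k ∈ H := by
      have h1 := hk (ψ b₀) ⟨b₀, hb₀, rfl⟩
      rw [mem_Cj] at h1
      have h2 := hK h1
      have h4 : k = ψ b₀ * ((ψ b₀)⁻¹ * k * ψ b₀) * (ψ b₀)⁻¹ := by group
      rw [h4]
      exact H.mul_mem (H.mul_mem (hψH _) h2) (H.inv_mem (hψH _))
    have hk0 : ∃ k₀ : A, ψ k₀ = k := ⟨φ ⟨k, hkH⟩, by simp [hψ]⟩
    obtain ⟨k₀, rfl⟩ := hk0
    refine ⟨k₀, ?_, k₀⁻¹ * t, ?_, by group⟩
    · intro b hb
      exact hmem.1 (hk _ ⟨b, hb, rfl⟩)
    · apply hmem.1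
      have h5 : ψ (k₀⁻¹ * t) = y := by
        rw [map_mul, map_inv, hty]
        group
      rw [h5]
      exact hy
  · rw [Set.not_nonempty_iff_eq_empty] at hne
    subst hne
    exact ⟨t, by simp, 1, Subgroup.one_mem _, by simp⟩

end Transfer

end Cfsg.Agent.Lib.Classical.SL2.Binary
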