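import Cfsg.Agent.Lib.Classical.SL2.Binary.Borel

/-!
Subfield subgroups of `SL₂(F)` are not binary.
-/

set_option autoImplicit false
set_option linter.unusedSectionVars false
set_option linter.unusedSimpArgs false

open scoped MatrixGroups
open Matrix

namespace Cfsg.Agent.Lib.Classical.SL2.Binary

variable {F : Type*} [Field F]

local notation "M2" => Matrix (Fin 2) (Fin 2) F

/-- Proportional to a matrix over a subfield. -/
def Pr (F₀ : Subfield F) (A : M2) : Prop := ∃ l : F, l ≠ 0 ∧ ∀ i j, ∃ e ∈ F₀, A i j = l * e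

lemma Pr.ratio {F₀ : Subfield F} {A : M2} (h : Pr F₀ A) {i j : Fin 2} (hA : A i j ≠ 0) (i' j' : Fin 2) :
    A i' j' / A i j ∈ F₀ := by
  obtain ⟨l, hl, h⟩ := h
  obtain ⟨e, he, h1⟩ := h i j
  obtain ⟨e', he', h2⟩ := h i' j'
  rw [h1] at hA ⊢
  rw [h2]
  have he0 : e ≠ 0 := right_ne_zero_of_mul hA
  have : l * e' / (l * e) = e' / e := by field_simp
  rw [this]
  exact F₀.div_mem he' he

/-- Monomial elements. -/
lemma mono_of_conj {F₀ : Subfield F} {k : SL(2, F)} {d : F} (hd : d ≠ 0) (hk : Pr F₀ (k : M2))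
    (hk' : Pr F₀ (((dS d hd)⁻¹ * k * dS d hd : SL(2, F)) : M2)) (hD : d ^ 2 ∉ F₀) :
    (k 0 0 = 0 ∧ k 1 1 = 0) ∨ (k 0 1 = 0 ∧ k 1 0 = 0) := by
  obtain ⟨K00, K01, K10, K11⟩ := dS_conj_inv d hd k
  set K : SL(2, F) := (dS d hd)⁻¹ * k * dS d hd with hK
  have hd2 : d ^ 2 ≠ 0 := pow_ne_zero 2 hd
  have K00' : (K : M2) 0 0 = k 0 0 := K00
  have K01' : (K : M2) 0 1 = k 0 1 / d ^ 2 := K01
  have K10' : (K : M2) 1 0 = k 1 0 * d ^ 2 := K10
  have K11' : (K : M2) 1 1 = k 1 1 := K11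
  have hmain : ∀ {p : F}, p ≠ 0 → (∃ i j, (k : M2) i j = p ∧ (K : M2) i j = p) → k 0 1 ≠ 0 → False := by
    intro p hp ⟨i, j, h1, h2⟩ hr
    have a1 := hk.ratio (i := i) (j := j) (by rw [h1]; exact hp) 0 1
    have a2 := hk'.ratio (i := i) (j := j) (by rw [h2]; exact hp) 0 1
    rw [h1] at a1
    rw [h2, K01'] at a2
    have e : d ^ 2 = (k 0 1 / p) / (k 0 1 / d ^ 2 / p) := by field_simp
    rw [e] at hD
    exact hD (F₀.div_mem a1 a2)
  have hmain' : ∀ {p : F}, p ≠ 0 → (∃ i j, (k : M2) i j = p ∧ (K : M2) i j = p) → k 1 0 ≠ 0 → False := by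
    intro p hp ⟨i, j, h1, h2⟩ hr
    have a1 := hk.ratio (i := i) (j := j) (by rw [h1]; exact hp) 1 0
    have a2 := hk'.ratio (i := i) (j := j) (by rw [h2]; exact hp) 1 0
    rw [h1] at a1
    rw [h2, K10'] at a2
    have e : d ^ 2 = (k 1 0 * d ^ 2 / p) / (k 1 0 / p) := by field_simp
    rw [e] at hD
    exact hD (F₀.div_mem a2 a1)
  by_contra hcon
  push Not at hcon
  have hdiag : k 0 0 ≠ 0 ∨ k 1 1 ≠ 0 := by
    by_contra h
    push Not at h
    obtain ⟨h1, h2⟩ := h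
    exact (hcon.1 h1) h2
  have hoff : k 0 1 ≠ 0 ∨ k 1 0 ≠ 0 := by
    by_contra h
    push Not at h
    obtain ⟨h1, h2⟩ := h
    exact (hcon.2 h1) h2
  rcases hdiag with h1 | h1 <;> rcases hoff with h3 | h3
  · exact hmain h1 ⟨0, 0, rfl, K00'⟩ h3
  · exact hmain' h1 ⟨0, 0, rfl, K00'⟩ h3
  · exact hmain h1 ⟨1, 1, rfl, K11'⟩ h3
  · exact hmain' h1 ⟨1, 1, rfl, K11'⟩ h3

/-- Subfield subgroups are not binary. -/
theorem subfield_case [Fintype F] (F₀ : Subfield F) (hF₀ : F₀ ≠ ⊤) {H : Subgroup (SL(2, F))} (hS : RStar ⊤ H)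
    (hP1 : ∀ S ∈ H, Pr F₀ (S : M2)) (hP2 : ∀ S : SL(2, F), (∀ i j, S i j ∈ F₀) → S ∈ H) : False := by
  classical
  have hu1 : uS 1 ∈ H := by
    apply hP2
    intro i j
    fin_cases i <;> fin_cases j
    · exact F₀.one_mem
    · exact F₀.one_mem
    · exact F₀.zero_mem
    · exact F₀.one_mem
  obtain ⟨D, hD⟩ : ∃ D : F, D ∉ F₀ := by
    by_contra h
    push Not at h
    exact hF₀ (eq_top_iff.2 fun x _ => h x)
  by_cases h2 : (2 : F) = 0
  · have hch : ringChar F = 2 := CharP.ringChar_of_prime_eq_zero Nat.prime_two (by exact_mod_cast h2)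
    obtain ⟨d, hd⟩ := FiniteField.isSquare_of_char_two hch D
    obtain ⟨e, he⟩ := FiniteField.isSquare_of_char_two hch (1 + D)
    have hD0 : D ≠ 0 := by
      rintro rfl
      exact hD F₀.zero_mem
    have hD1 : 1 + D ∉ F₀ := by
      intro h
      apply hD
      have : D = (1 + D) - 1 := by ring
      rw [this]
      exact F₀.sub_mem h F₀.one_mem
    have hd2 : d ^ 2 = D := by rw [hd]; ring
    have he2 : e ^ 2 = 1 + D := by rw [he]; ring
    have hd0 : d ≠ 0 := by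
      rintro rfl
      exact hD0 (by rw [hd]; ring)
    have he0 : e ≠ 0 := by
      rintro rfl
      apply hD1
      rw [he]
      simp [F₀.zero_mem]
    let b := dS d hd0
    let c := dS e he0
    have hz : uS D = b * uS 1 * b⁻¹ := by rw [dS_conj_uS, hd2, mul_one]
    have hy : uS (1 + D) = c * uS 1 * c⁻¹ := by rw [dS_conj_uS, he2, mul_one]
    have hzy : uS 1 = uS D * uS (1 + D) := by
      rw [uS_mul]
      congr 1
      linear_combination (-D) * h2
    obtain ⟨k, hk, y', hy', hty⟩ := hS {1, b} c (uS 1) (fun _ _ => trivial) trivial trivial (by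
      rintro x (rfl | rfl)
      · exact ⟨_, mem_Cj_one.2 hu1, 1, Subgroup.one_mem _, by simp⟩
      · exact ⟨uS D, hz ▸ conj_mem_Cj _ hu1, uS (1 + D), hy ▸ conj_mem_Cj _ hu1, hzy⟩)
    have hkH : k ∈ H := mem_Cj_one.1 (hk 1 (by simp))
    have hkb : b⁻¹ * k * b ∈ H := mem_Cj.1 (hk b (by simp))
    have hy'H : y' ∈ H := by
      have : y' = k⁻¹ * uS 1 := by rw [hty]; group
      rw [this]
      exact H.mul_mem (H.inv_mem hkH) hu1
    have hy'c : c⁻¹ * y' * c ∈ H := mem_Cj.1 hy'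
    have hk1 := mono_of_conj hd0 (hP1 _ hkH) (hP1 _ hkb) (by rwa [hd2])
    have hy1 := mono_of_conj he0 (hP1 _ hy'H) (hP1 _ hy'c) (by rwa [he2])
    have e00 := congrArg (fun S : SL(2, F) => S 0 0) hty
    have e01 := congrArg (fun S : SL(2, F) => S 0 1) hty
    simp only [sl_mul00, sl_mul01, uS_00, uS_01] at e00 e01
    rcases hk1 with ⟨h1, h3⟩ | ⟨h1, h3⟩ <;> rcases hy1 with ⟨h4, h5⟩ | ⟨h4, h5⟩
    · rw [h1, h5] at e01
      simp at e01
    · rw [h1, h5] at e00
      simp at e00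
    · rw [h1, h4] at e00
      simp at e00
    · rw [h1, h4] at e01
      simp at e01
  · -- odd characteristic
    have hdesc : RStar H (H ⊓ Cj H (uS D)) := hS.descend le_top trivial
    have hmem : ∀ x : F, x ∈ F₀ → ∀ y : F, y ∈ F₀ → ∀ z : F, z ∈ F₀ → ∀ t : F, t ∈ F₀ →
        ∀ S : SL(2, F), S 0 0 = x → S 0 1 = y → S 1 0 = z → S 1 1 = t → S ∈ H := by
      intro x hx y hy z hz t ht S h1 h3 h4 h5
      apply hP2
      intro i j
      fin_cases i <;> fin_cases j
      · show S 0 0 ∈ F₀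
        rwa [h1]
      · show S 0 1 ∈ F₀
        rwa [h3]
      · show S 1 0 ∈ F₀
        rwa [h4]
      · show S 1 1 ∈ F₀
        rwa [h5]
    have h0m := F₀.zero_mem
    have h1m := F₀.one_mem
    have hnm := F₀.neg_mem h1m
    have hm : mS ∈ H := hmem _ hnm _ h0m _ h0m _ hnm _ rfl rfl rfl rfl
    refine lemma_P hdesc ?_ ⟨hm, ?_⟩ h2 ⟨hu1, ?_⟩ hu1
      (hmem _ h1m _ h0m _ (F₀.neg_mem (F₀.add_mem h1m h1m)) _ h1m _ rfl rfl (by norm_num [lS_10]) rfl)
      (hmem _ h0m _ h1m _ hnm _ h0m _ rfl rfl rfl rfl)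
    · rintro T ⟨hT1, hT2⟩
      have hT3 := mem_Cj.1 hT2
      have hPT := hP1 _ hT1
      have hPT' := hP1 _ hT3
      set T' := (uS D)⁻¹ * T * uS D with hT'
      have t00 : (T' : M2) 0 0 = T 0 0 - D * T 1 0 := by
        rw [hT', uS_inv]
        show (_ : SL(2, F)) 0 0 = _
        simp only [sl_mul00, uS_00, uS_01, uS_10, uS_11]
        ring
      have t01 : (T' : M2) 0 1 = (T 0 0 - D * T 1 0) * D + T 0 1 - D * T 1 1 := by
        rw [hT', uS_inv]
        show (_ : SL(2, F)) 0 1 = _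
        simp only [sl_mul00, sl_mul01, uS_00, uS_01, uS_10, uS_11]
        ring
      have t10 : (T' : M2) 1 0 = T 1 0 := by
        rw [hT', uS_inv]
        show (_ : SL(2, F)) 1 0 = _
        simp only [sl_mul00, sl_mul10, uS_00, uS_01, uS_10, uS_11]
        ring
      have hC : T 1 0 = 0 := by
        by_contra hC
        have a1 := hPT.ratio (i := 1) (j := 0) hC 0 0
        have a2 := hPT'.ratio (i := 1) (j := 0) (by rw [t10]; exact hC) 0 0
        rw [t10, t00] at a2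
        apply hD
        have e : D = T 0 0 / T 1 0 - (T 0 0 - D * T 1 0) / T 1 0 := by field_simp; ring
        rw [e]
        exact F₀.sub_mem a1 a2
      refine ⟨hC, ?_⟩
      have hd := sl_det T
      rw [hC, mul_zero, sub_zero] at hd
      have hA : T 0 0 ≠ 0 := left_ne_zero_of_mul_eq_one hd
      have a1 := hPT.ratio (i := 0) (j := 0) hA 0 1
      have a3 := hPT.ratio (i := 0) (j := 0) hA 1 1
      have a2 := hPT'.ratio (i := 0) (j := 0) (by rw [t00, hC]; simpa using hA) 0 1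
      rw [t00, t01, hC] at a2
      by_contra hne
      apply hD
      have h5 : 1 - T 1 1 / T 0 0 ≠ 0 := by
        intro h
        have h7 := (eq_div_iff hA).1 (sub_eq_zero.1 h)
        rw [one_mul] at h7
        exact hne h7
      have e : D = (((T 0 0 - D * 0) * D + T 0 1 - D * T 1 1) / (T 0 0 - D * 0) - T 0 1 / T 0 0) / (1 - T 1 1 / T 0 0) := by
        have h6 : T 0 0 - T 1 1 ≠ 0 := sub_ne_zero.2 hne
        have h7 : 1 - T 1 1 / T 0 0 = (T 0 0 - T 1 1) / T 0 0 := by field_simp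
        rw [h7]
        simp only [mul_zero, sub_zero]
        field_simp
        ring
      rw [e]
      exact F₀.div_mem (F₀.sub_mem a2 a1) (F₀.sub_mem h1m a3)
    · apply mem_Cj.2
      rw [← mS_comm, mul_assoc, inv_mul_cancel, mul_one]
      exact hm
    · apply mem_Cj.2
      rw [uS_inv, uS_mul, uS_mul]
      have : -D + 1 + D = 1 := by ring
      rw [this]
      exact hu1

end Cfsg.Agent.Lib.Classical.SL2.Binary
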