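import Cfsg.Agent.Lib.Classical.SL2.Binary.Dih
import Cfsg.Agent.Lib.Classical.SL2.A4S4

/-!
Subgroups of `SL₂(F)` normalising a torus, with the binary property.
-/

set_option autoImplicit false
set_option linter.unusedSectionVars false
set_option linter.unusedSimpArgs false

open scoped MatrixGroups
open Matrix

namespace Cfsg.Agent.Lib.Classical.SL2.Binary

variable {F : Type*} [Field F]

local notation "M2" => Matrix (Fin 2) (Fin 2) F

/-- An odd order finite field, not of order 5, has at least 7 elements. -/
lemma seven_le_card [Fintype F] (h2 : (2 : F) ≠ 0) (hq : 4 ≤ Fintype.card F) (hq5 : Fintype.card F ≠ 5) :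
    7 ≤ Fintype.card F := by
  by_contra hlt
  have h46 : Fintype.card F = 4 ∨ Fintype.card F = 6 := by omega
  have hpp : IsPrimePow (Fintype.card F) := FiniteField.isPrimePow_card F
  rcases h46 with h | h
  · obtain ⟨p, hp⟩ := CharP.exists F
    have heven : Even (Fintype.card F) := by rw [h]; decide
    have : p = 2 := Cfsg.Agent.Lib.Classical.SL2.A4S4.char_two_of_even heven
    subst this
    exact h2 (by exact_mod_cast CharP.cast_eq_zero F 2)
  · rw [h] at hpp
    exact absurd hpp (by decide)

/-- The dichotomy for subgroups normalising a torus. -/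
theorem torus_case [Fintype F] (hq : 4 ≤ Fintype.card F) (hq5 : Fintype.card F ≠ 5)
    {H : Subgroup (SL(2, F))} (hS : RStar ⊤ H) (hm : mS ∈ H) {θ : M2} {τ : F}
    (htr : θ 0 0 + θ 1 1 = τ) (hdisc : τ ^ 2 - 4 * (θ 0 0 * θ 1 1 - θ 0 1 * θ 1 0) ≠ 0)
    (hN : NormT H θ τ) :
    (∀ S ∈ H, IsSc (S : M2)) ∨ ((2 : F) = 0 ∧ Nat.card H = 3 ∧ ∀ x : F, x ^ 2 + x + 1 ≠ 0) := by
  classical
  by_cases hall : ∀ S ∈ H, IsSc (S : M2)
  · exact Or.inl hall
  right
  push Not at hall
  obtain ⟨t, ht, htns⟩ := hall
  by_cases hcomm : ∀ S ∈ H, (S : M2) * θ = θ * (S : M2)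
  · have hθ : ¬ IsSc θ := by
      rintro ⟨h1, h3, h4⟩
      apply hdisc
      rw [← htr, h1, h3, h4]
      ring
    have key : ∀ S ∈ H, ¬ IsSc (S : M2) → (∀ T ∈ H, T * S = S * T) ∧ (S 0 0 + S 1 1) ^ 2 ≠ 4 := by
      intro S hSH hSns
      obtain ⟨x, y, h00, h01, h10, h11⟩ := comm_poly hθ (hcomm S hSH)
      have hSeq : (S : M2) = x • 1 + y • θ := by
        apply m2_ext <;> simp [h00, h01, h10, h11]
      have hy : y ≠ 0 := by
        rintro rfl
        apply hSns
        refine ⟨?_, ?_, ?_⟩
        · rw [h01]; ring
        · rw [h10]; ring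
        · rw [h00, h11]; ring
      refine ⟨?_, ?_⟩
      · intro T hT
        apply Subtype.ext
        show (T : M2) * (S : M2) = (S : M2) * (T : M2)
        rw [hSeq, mul_add, add_mul, mul_smul_comm, mul_smul_comm, smul_mul_assoc, smul_mul_assoc,
          mul_one, one_mul, hcomm T hT]
      · have hd := sl_det S
        rw [h00, h01, h10, h11] at hd
        rw [h00, h11]
        intro h
        apply hdisc
        have hy2 : y ^ 2 * (τ ^ 2 - 4 * (θ 0 0 * θ 1 1 - θ 0 1 * θ 1 0)) = 0 := by
          rw [← htr]
          linear_combination h - 4 * hd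
        exact (mul_eq_zero.1 hy2).resolve_left (pow_ne_zero 2 hy)
    by_cases h2 : (2 : F) = 0
    · refine ⟨h2, ?_, ?_⟩
      · apply cyc_three h2 ht (key t ht htns).1 htns
        intro S hSH hSns
        by_contra hne
        refine cyc_case hS hSH (key S hSH hSns).1 hSns (key S hSH hSns).2 ?_
        intro h
        apply hne
        rw [h]
        linear_combination (-1 : F) * h2
      · intro ω hω
        refine cyc_split hS h2 hω ht (key t ht htns).1 htns ?_ |>.elim
        by_contra hne
        have : ∀ S ∈ H, ¬ IsSc (S : M2) → S 0 0 + S 1 1 = 1 := by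
          intro S hSH hSns
          by_contra hne
          refine cyc_case hS hSH (key S hSH hSns).1 hSns (key S hSH hSns).2 ?_
          intro h
          apply hne
          rw [h]
          linear_combination (-1 : F) * h2
        exact hne (this t ht htns)
    · exfalso
      have h4 := (key t ht htns)
      by_cases hτ1 : t 0 0 + t 1 1 = -1
      · -- use `-t`
        have hmt : mS * t ∈ H := H.mul_mem hm ht
        have hmtns : ¬ IsSc ((mS * t : SL(2, F)) : M2) := by
          rintro ⟨h5, h6, h7⟩
          apply htns
          have h5' : (mS * t : SL(2, F)) 0 1 = 0 := h5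
          have h6' : (mS * t : SL(2, F)) 1 0 = 0 := h6
          have h7' : (mS * t : SL(2, F)) 0 0 = (mS * t : SL(2, F)) 1 1 := h7
          rw [mS_mul01] at h5'
          rw [mS_mul10] at h6'
          rw [mS_mul00, mS_mul11] at h7'
          exact ⟨neg_eq_zero.1 h5', neg_eq_zero.1 h6', neg_injective h7'⟩
        have e : (mS * t : SL(2, F)) 0 0 + (mS * t : SL(2, F)) 1 1 = - (t 0 0 + t 1 1) := by
          rw [mS_mul00, mS_mul11]
          ring
        refine cyc_case hS hmt ?_ hmtns ?_ ?_
        · intro S hSH
          rw [← mul_assoc, ← mS_comm, mul_assoc, (key t ht htns).1 S hSH, mul_assoc]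
        · rw [e, neg_sq]
          exact h4.2
        · rw [e, hτ1]
          intro h
          apply h2
          linear_combination h
      · exact cyc_case hS ht h4.1 htns h4.2 hτ1
  · exfalso
    push Not at hcomm
    obtain ⟨s, hs, hsodd⟩ := hcomm
    by_cases h2 : (2 : F) = 0
    · refine dih_even h2 hq hS ?_ htr hN hs hsodd
      rintro rfl
      apply hdisc
      have h4 : (4 : F) = 2 * 2 := by norm_num
      rw [h4, h2]
      ring
    · have h7 := seven_le_card h2 hq hq5
      refine dih_odd h2 h7 hS hm (v := (2 : F) • θ - τ • 1) ?_ ?_ ?_ hs ?_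
      · simp only [Matrix.sub_apply, Matrix.smul_apply, Matrix.one_apply_eq, smul_eq_mul, mul_one]
        rw [← htr]
        ring
      · simp only [Matrix.sub_apply, Matrix.smul_apply, Matrix.one_apply_eq,
          Matrix.one_apply_ne (zero_ne_one), Matrix.one_apply_ne (one_ne_zero), smul_eq_mul, mul_one,
          mul_zero, sub_zero]
        intro h
        apply hdisc
        rw [← htr]
        rw [← htr] at h
        linear_combination h
      · intro S hSH
        rcases hN S hSH with h | h
        · left
          rw [mul_sub, sub_mul, mul_smul_comm, smul_mul_assoc, h, mul_smul_comm, smul_mul_assoc,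
            mul_one, one_mul]
        · right
          rw [mul_sub, sub_mul, mul_smul_comm, smul_mul_assoc, h, mul_smul_comm, smul_mul_assoc,
            mul_one, one_mul, sub_mul, smul_mul_assoc, one_mul]
          simp only [smul_sub, smul_smul]
          have : (2 * τ) • (S : M2) = τ • (S : M2) + τ • (S : M2) := by
            rw [two_mul, add_smul]
          rw [this]
          abel
      · have hodd := (hN s hs).resolve_left hsodd
        rw [mul_sub, sub_mul, mul_smul_comm, smul_mul_assoc, hodd, mul_smul_comm, smul_mul_assoc,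
          mul_one, one_mul, sub_mul, smul_mul_assoc, one_mul]
        simp only [smul_sub, smul_smul]
        have : (2 * τ) • (s : M2) = τ • (s : M2) + τ • (s : M2) := by
          rw [two_mul, add_smul]
        rw [this]
        abel

end Cfsg.Agent.Lib.Classical.SL2.Binary
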